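import Cfsg.Prelude.Def_Classical

/-! Rational orthogonal matrices of degree eight, monomial matrices and the frame change. -/

set_option autoImplicit false

namespace E8
open Matrix Equiv

/-- rational vectors -/
abbrev Q8 : Type := Fin 8 → ℚ
/-- sign vectors -/
abbrev B8 : Type := Fin 8 → ZMod 2
/-- coordinate permutations -/
abbrev S8 : Type := Perm (Fin 8)
/-- the rational orthogonal group -/
abbrev O : Type := Matrix.orthogonalGroup (Fin 8) ℚ

/-- the action on vectors -/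
def ap (A : O) (x : Q8) : Q8 := A.1 *ᵥ x

theorem ap_mul (A B : O) (x : Q8) : ap (A * B) x = ap A (ap B x) := by
  simp [ap, mulVec_mulVec]
theorem ap_one (x : Q8) : ap 1 x = x := by simp [ap]
theorem ap_inv_ap (A : O) (x : Q8) : ap A⁻¹ (ap A x) = x := by rw [← ap_mul, inv_mul_cancel, ap_one]
theorem ap_ap_inv (A : O) (x : Q8) : ap A (ap A⁻¹ x) = x := by rw [← ap_mul, mul_inv_cancel, ap_one]
theorem ap_add (A : O) (x y : Q8) : ap A (x + y) = ap A x + ap A y := mulVec_add _ _ _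
theorem ap_sub (A : O) (x y : Q8) : ap A (x - y) = ap A x - ap A y := mulVec_sub _ _ _
theorem ap_smul (A : O) (c : ℚ) (x : Q8) : ap A (c • x) = c • ap A x := mulVec_smul _ _ _
theorem ap_neg (A : O) (x : Q8) : ap A (-x) = -ap A x := mulVec_neg _ _
theorem ap_zero (A : O) : ap A 0 = 0 := mulVec_zero _
theorem ap_inj (A : O) {x y : Q8} (h : ap A x = ap A y) : x = y := by
  rw [← ap_inv_ap A x, h, ap_inv_ap]

/-- basis vectors -/
def ee (i : Fin 8) : Q8 := Pi.single i 1

theorem ee_apply (i j : Fin 8) : ee i j = if j = i then 1 else 0 := by simp [ee, Pi.single_apply]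
theorem ee_self (i : Fin 8) : ee i i = 1 := by simp [ee]
theorem ee_ne {i j : Fin 8} (h : j ≠ i) : ee i j = 0 := by simp [ee_apply, h]
theorem ap_ee (A : O) (i j : Fin 8) : ap A (ee i) j = A.1 j i := by
  simp [ap, ee, mulVec_single_one]

theorem O_ext_ee {A B : O} (h : ∀ i, ap A (ee i) = ap B (ee i)) : A = B :=
  Subtype.ext (Matrix.ext fun j i => by rw [← ap_ee, ← ap_ee, h])
theorem O_ext {A B : O} (h : ∀ x, ap A x = ap B x) : A = B := O_ext_ee fun _ => h _

theorem tr_mul (A : O) : A.1ᵀ * A.1 = 1 := (mem_orthogonalGroup_iff' _ _).1 A.2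
theorem mul_tr (A : O) : A.1 * A.1ᵀ = 1 := (mem_orthogonalGroup_iff _ _).1 A.2
theorem inv_val (A : O) : (A⁻¹).1 = A.1ᵀ := rfl

theorem dot_ap (A : O) (x y : Q8) : ap A x ⬝ᵥ ap A y = x ⬝ᵥ y := by
  rw [ap, ap, dotProduct_mulVec, vecMul_mulVec, tr_mul, vecMul_one]
theorem dot_ap' (A : O) (x y : Q8) : ap A⁻¹ x ⬝ᵥ y = x ⬝ᵥ ap A y := by
  rw [← dot_ap A, ap_ap_inv]
theorem dot_ee (x : Q8) (i : Fin 8) : x ⬝ᵥ ee i = x i := by simp [ee]
theorem ee_dot (x : Q8) (i : Fin 8) : ee i ⬝ᵥ x = x i := by simp [ee]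

/-- the sign of a residue -/
def sn (a : ZMod 2) : ℚ := if a = 0 then 1 else -1

theorem z2 (a : ZMod 2) : a = 0 ∨ a = 1 := by revert a; decide
theorem z2_add_self (a : ZMod 2) : a + a = 0 := by revert a; decide
theorem z2_ne {a b : ZMod 2} (h : a ≠ b) : a + b = 1 := by revert a b; decide
theorem z2_eq {a b : ZMod 2} (h : a + b = 0) : a = b := by revert a b; decide
theorem b8_add_self (v : B8) : v + v = 0 := funext fun i => z2_add_self (v i)
theorem b8_eq {v w : B8} (h : v + w = 0) : v = w := funext fun i => z2_eq (congrFun h i)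
theorem sn_zero : sn 0 = 1 := rfl
theorem sn_one : sn 1 = -1 := rfl
theorem sn_add (a b : ZMod 2) : sn (a + b) = sn a * sn b := by
  rcases z2 a with rfl | rfl <;> rcases z2 b with rfl | rfl <;>
    simp [sn_zero, sn_one, z2_add_self]
theorem sn_mul_self (a : ZMod 2) : sn a * sn a = 1 := by rw [← sn_add, z2_add_self, sn_zero]
theorem sn_ne (a : ZMod 2) : sn a ≠ 0 := fun h => by simpa [h] using sn_mul_self a
theorem sn_inj {a b : ZMod 2} (h : sn a = sn b) : a = b := by
  rcases z2 a with rfl | rfl <;> rcases z2 b with rfl | rfl <;>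
    first | rfl | (rw [sn_zero, sn_one] at h; norm_num at h)
theorem exists_sn {c : ℚ} (h : c * c = 1) : ∃ a, sn a = c := by
  rcases mul_self_eq_one_iff.1 h with rfl | rfl
  exacts [⟨0, rfl⟩, ⟨1, rfl⟩]
theorem sn_sum (v : B8) (s : Finset (Fin 8)) : sn (∑ i ∈ s, v i) = ∏ i ∈ s, sn (v i) := by
  induction s using Finset.induction_on with
  | empty => simp [sn_zero]
  | insert a s ha ih => rw [Finset.sum_insert ha, Finset.prod_insert ha, sn_add, ih]

/-- permutations acting on sign vectors -/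
def pa (π : S8) (v : B8) : B8 := fun i => v (π⁻¹ i)

theorem pa_apply (π : S8) (v : B8) (i : Fin 8) : pa π v i = v (π⁻¹ i) := rfl
theorem pa_apply' (π : S8) (v : B8) (i : Fin 8) : pa π v (π i) = v i := by simp [pa]
theorem pa_mul (π ρ : S8) (v : B8) : pa (π * ρ) v = pa π (pa ρ v) := rfl
theorem pa_one (v : B8) : pa 1 v = v := rfl
theorem pa_add (π : S8) (v w : B8) : pa π (v + w) = pa π v + pa π w := rfl
theorem pa_zero (π : S8) : pa π 0 = 0 := rfl
theorem pa_ones (π : S8) : pa π 1 = 1 := rfl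
theorem pa_inv_pa (π : S8) (v : B8) : pa π⁻¹ (pa π v) = v := by rw [← pa_mul, inv_mul_cancel, pa_one]
theorem pa_pa_inv (π : S8) (v : B8) : pa π (pa π⁻¹ v) = v := by rw [← pa_mul, mul_inv_cancel, pa_one]
theorem sum_pa (π : S8) (v : B8) : ∑ i, pa π v i = ∑ i, v i := Equiv.sum_comp π⁻¹ v

/-- basis sign vectors -/
def bb (i : Fin 8) : B8 := Pi.single i 1
theorem bb_apply (i j : Fin 8) : bb i j = if j = i then 1 else 0 := by simp [bb, Pi.single_apply]
theorem pa_bb (π : S8) (i : Fin 8) : pa π (bb i) = bb (π i) := funext fun j => by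
  simp only [pa_apply, bb_apply, Perm.inv_eq_iff_eq]
theorem sum_bb (i : Fin 8) : ∑ j, bb i j = 1 := by simp [bb]
theorem sum_pair (i j : Fin 8) : ∑ k, (bb i + bb j) k = 0 := by
  simp only [Pi.add_apply, Finset.sum_add_distrib, sum_bb]; rfl

/-- monomial matrices -/
def mono (π : S8) (v : B8) : O :=
  ⟨Matrix.of fun i j => if j = π⁻¹ i then sn (v i) else 0, (mem_orthogonalGroup_iff _ _).2 (by
    ext i k
    simp only [mul_apply, of_apply, transpose_apply, ite_mul, zero_mul, Finset.sum_ite_eq',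
      Finset.mem_univ, if_true, one_apply, EmbeddingLike.apply_eq_iff_eq, mul_ite, mul_zero]
    by_cases h : i = k
    · subst h; simp [sn_mul_self]
    · simp [h, Ne.symm h])⟩

theorem ap_mono (π : S8) (v : B8) (x : Q8) (i : Fin 8) :
    ap (mono π v) x i = sn (v i) * x (π⁻¹ i) := by
  simp [ap, mono, mulVec, dotProduct]

theorem ap_mono_ee (π : S8) (v : B8) (j : Fin 8) :
    ap (mono π v) (ee j) = sn (v (π j)) • ee (π j) := funext fun i => by
  rw [ap_mono, Pi.smul_apply, ee_apply, ee_apply, smul_eq_mul]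
  by_cases h : i = π j
  · subst h; simp
  · rw [if_neg h, if_neg (fun e => h (by rw [← e]; simp))]; simp

theorem mono_mul (π ρ : S8) (v w : B8) : mono π v * mono ρ w = mono (π * ρ) (v + pa π w) :=
  O_ext fun x => funext fun i => by
    rw [ap_mul, ap_mono, ap_mono, ap_mono, Pi.add_apply, sn_add, mul_assoc]; rfl
theorem mono_one : mono 1 0 = 1 := O_ext fun x => funext fun i => by
  rw [ap_mono, ap_one]; simp [sn_zero]
theorem mono_inv (π : S8) (v : B8) : (mono π v)⁻¹ = mono π⁻¹ (pa π⁻¹ v) := by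
  rw [inv_eq_iff_mul_eq_one, mono_mul, pa_pa_inv, b8_add_self, mul_inv_cancel, mono_one]
theorem mono_inj {π ρ : S8} {v w : B8} (h : mono π v = mono ρ w) : π = ρ ∧ v = w := by
  have h1 : π = ρ := by
    ext j
    have := congrFun (ap_mono_ee π v j) (π j)
    rw [h, ap_mono_ee, Pi.smul_apply, Pi.smul_apply, ee_self, smul_eq_mul, smul_eq_mul] at this
    by_contra hc
    rw [ee_ne (fun e => hc (by rw [e])), mul_zero, mul_one] at this
    exact sn_ne _ this.symm
  subst h1
  refine ⟨rfl, funext fun i => ?_⟩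
  have := ap_mono π v 1 i
  rw [h, ap_mono] at this
  simpa using sn_inj (by simpa using this.symm)

/-- sign changes -/
def sg (v : B8) : O := mono 1 v
/-- permutation matrices -/
def pm (π : S8) : O := mono π 0
/-- minus the identity -/
def ng : O := sg 1

theorem ap_sg (v : B8) (x : Q8) (i : Fin 8) : ap (sg v) x i = sn (v i) * x i := ap_mono 1 v x i
theorem ap_sg_ee (v : B8) (j : Fin 8) : ap (sg v) (ee j) = sn (v j) • ee j := ap_mono_ee 1 v j
theorem ap_pm (π : S8) (x : Q8) (i : Fin 8) : ap (pm π) x i = x (π⁻¹ i) := by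
  rw [pm, ap_mono]; simp [sn_zero]
theorem ap_pm_ee (π : S8) (j : Fin 8) : ap (pm π) (ee j) = ee (π j) := by
  rw [pm, ap_mono_ee]; simp [sn_zero]
theorem ap_ng (x : Q8) : ap ng x = -x := funext fun i => by
  rw [ng, ap_sg]; simp [sn_one]
theorem sg_add (v w : B8) : sg (v + w) = sg v * sg w := by rw [sg, sg, sg, mono_mul]; rfl
theorem sg_zero : sg 0 = 1 := mono_one
theorem sg_mul_self (v : B8) : sg v * sg v = 1 := by rw [← sg_add, b8_add_self, sg_zero]
theorem sg_inv (v : B8) : (sg v)⁻¹ = sg v := inv_eq_of_mul_eq_one_right (sg_mul_self v)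
theorem sg_comm (v w : B8) : sg v * sg w = sg w * sg v := by rw [← sg_add, add_comm, sg_add]
theorem sg_inj {v w : B8} (h : sg v = sg w) : v = w := (mono_inj h).2
theorem pm_mul (π ρ : S8) : pm (π * ρ) = pm π * pm ρ := by rw [pm, pm, pm, mono_mul]; rfl
theorem pm_one : pm 1 = 1 := mono_one
/-- permutation matrices as a homomorphism -/
def pmHom : S8 →* O := MonoidHom.mk' pm pm_mul
theorem pm_inv (π : S8) : pm π⁻¹ = (pm π)⁻¹ := pmHom.map_inv π
theorem pm_pow (π : S8) (n : ℕ) : pm (π ^ n) = pm π ^ n := pmHom.map_pow π n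
theorem mono_eq (π : S8) (v : B8) : mono π v = sg v * pm π := by
  rw [sg, pm, mono_mul, one_mul, pa_zero, add_zero]
theorem mono_conj_sg (π : S8) (u v : B8) : mono π u * sg v * (mono π u)⁻¹ = sg (pa π v) := by
  rw [mul_inv_eq_iff_eq_mul, sg, sg, mono_mul, mono_mul, one_mul, mul_one, pa_one, add_comm]
theorem pm_conj_sg (π : S8) (v : B8) : pm π * sg v * (pm π)⁻¹ = sg (pa π v) := mono_conj_sg π 0 v
theorem ng_mul_self : ng * ng = 1 := sg_mul_self 1
theorem ng_inv : ng⁻¹ = ng := sg_inv 1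
theorem ng_comm (A : O) : ng * A = A * ng := O_ext fun x => by
  rw [ap_mul, ap_mul, ap_ng, ap_ng, ap_neg]
theorem ng_ne_one : ng ≠ 1 := fun h => by
  have := congrFun (sg_inj (h.trans sg_zero.symm)) 0
  revert this; decide
theorem ng_mul_mono (π : S8) (v : B8) : ng * mono π v = mono π (1 + v) := by
  rw [ng, sg, mono_mul]; rfl
theorem ng_val : ng.1 = -1 := Matrix.ext fun i j => by
  rw [← ap_ee, ap_ng, Pi.neg_apply, ee_apply, Matrix.neg_apply, one_apply]
theorem conj_ng (A : O) : A * ng * A⁻¹ = ng := by rw [← ng_comm, mul_inv_cancel_right]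

/-- the determinant -/
def dt : O →* ℚ where
  toFun A := A.1.det
  map_one' := det_one
  map_mul' A B := det_mul A.1 B.1
theorem dt_apply (A : O) : dt A = A.1.det := rfl
theorem dt_mul_self (A : O) : dt A * dt A = 1 := by
  have := congrArg det (mul_tr A)
  rwa [det_mul, det_transpose, det_one] at this
theorem dt_cases (A : O) : dt A = 1 ∨ dt A = -1 := mul_self_eq_one_iff.1 (dt_mul_self A)
theorem dt_inv (A : O) : dt A⁻¹ = dt A := by rw [dt_apply, inv_val, det_transpose, dt_apply]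
theorem dt_conj (A B : O) : dt (A * B * A⁻¹) = dt B := by
  rw [map_mul, map_mul, dt_inv, mul_right_comm, dt_mul_self, one_mul]
theorem dt_sg (v : B8) : dt (sg v) = sn (∑ i, v i) := by
  have : (sg v).1 = diagonal fun i => sn (v i) := by
    ext i j
    simp [sg, mono, diagonal, eq_comm]
  rw [dt_apply, this, det_diagonal, sn_sum]
theorem dt_pm (π : S8) : dt (pm π) = (Perm.sign π : ℤ) := by
  have : (pm π).1 = (π⁻¹).permMatrix ℚ := by
    ext i j
    simp [pm, mono, sn_zero, Perm.permMatrix, PEquiv.toMatrix_apply, eq_comm]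
  rw [dt_apply, this, det_permutation, Perm.sign_inv]
theorem dt_mono (π : S8) (v : B8) : dt (mono π v) = sn (∑ i, v i) * (Perm.sign π : ℤ) := by
  rw [mono_eq, map_mul, dt_sg, dt_pm]
theorem dt_ng : dt ng = 1 := by
  rw [ng, dt_sg]; exact if_pos (by decide)

/-- A matrix whose columns are supported on single rows is monomial. -/
theorem exists_mono {A : O} (h : ∀ i, ∃ j, ∀ k, k ≠ j → ap A (ee i) k = 0) :
    ∃ π v, A = mono π v := by
  choose p hp using h
  have h1 : ∀ i, ap A (ee i) = ap A (ee i) (p i) • ee (p i) := fun i => funext fun k => by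
    by_cases hk : k = p i
    · rw [hk]; simp [ee_self]
    · rw [hp i k hk]; simp [ee_ne hk]
  have h2 : ∀ i, ap A (ee i) (p i) * ap A (ee i) (p i) = 1 := fun i => by
    have := dot_ap A (ee i) (ee i)
    rwa [h1, smul_dotProduct, dotProduct_smul, dot_ee, dot_ee, ee_self, ee_self, smul_eq_mul,
      smul_eq_mul, mul_one] at this
  have h3 : Function.Injective p := fun i j e => by
    by_contra hc
    have := dot_ap A (ee i) (ee j)
    rw [h1, h1 j, smul_dotProduct, dotProduct_smul, dot_ee, dot_ee, e, ee_self, ee_ne (Ne.symm hc),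
      smul_eq_mul, smul_eq_mul, mul_one, mul_eq_zero] at this
    rcases this with a | a
    · have := h2 i; rw [e, a] at this; simp at this
    · have := h2 j; rw [a] at this; simp at this
  choose a ha using fun i => exists_sn (h2 i)
  let π : S8 := Equiv.ofBijective p (Finite.injective_iff_bijective.1 h3)
  refine ⟨π, pa π a, O_ext_ee fun i => ?_⟩
  rw [ap_mono_ee, pa_apply', ha]; exact h1 i

/-- separating families -/
def Sep (U : Set B8) : Prop := ∀ i j : Fin 8, i ≠ j → ∃ w ∈ U, w i ≠ w j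

theorem eigen {w : B8} {y : Q8} {a : ZMod 2} (h : ap (sg w) y = sn a • y) {k : Fin 8}
    (hk : y k ≠ 0) : w k = a := by
  have := congrFun h k
  rw [ap_sg, Pi.smul_apply, smul_eq_mul] at this
  exact sn_inj (mul_right_cancel₀ hk this)

theorem exists_ne_zero (A : O) (i : Fin 8) : ∃ j, ap A (ee i) j ≠ 0 := by
  by_contra hc
  push Not at hc
  have := dot_ap A (ee i) (ee i)
  rw [dot_ee, ee_self, show ap A (ee i) = 0 from funext hc] at this
  simp at this

theorem mono_of_conj {U : Set B8} (hU : Sep U) {A : O}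
    (h : ∀ w ∈ U, ∃ u, sg w * A = A * sg u) : ∃ π v, A = mono π v := by
  refine exists_mono fun i => ?_
  obtain ⟨j, hj⟩ := exists_ne_zero A i
  refine ⟨j, fun k hk => ?_⟩
  by_contra hc
  obtain ⟨w, hw, e⟩ := hU k j hk
  obtain ⟨u, hu⟩ := h w hw
  have : ap (sg w) (ap A (ee i)) = sn (u i) • ap A (ee i) := by
    rw [← ap_mul, hu, ap_mul, ap_sg_ee, ap_smul]
  exact e ((eigen this hc).trans (eigen this hj).symm)

theorem comm_entry {w : B8} {A : O} (h : sg w * A = A * sg w) {i k : Fin 8} (e : w k ≠ w i) :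
    ap A (ee i) k = 0 := by
  by_contra hc
  have : ap (sg w) (ap A (ee i)) = sn (w i) • ap A (ee i) := by
    rw [← ap_mul, h, ap_mul, ap_sg_ee, ap_smul]
  exact e (eigen this hc)

theorem sg_of_entry {A : O} (h : ∀ i k, k ≠ i → ap A (ee i) k = 0) : ∃ v, A = sg v := by
  obtain ⟨π, v, rfl⟩ := exists_mono fun i => ⟨i, h i⟩
  have : π = 1 := by
    ext i
    by_contra hc
    have := h i (π i) fun e => hc (by rw [e]; rfl)
    rw [ap_mono_ee, Pi.smul_apply, ee_self, smul_eq_mul, mul_one] at this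
    exact sn_ne _ this
  exact ⟨v, by rw [this]; rfl⟩

theorem sg_of_comm {U : Set B8} (hU : Sep U) {A : O} (h : ∀ w ∈ U, sg w * A = A * sg w) :
    ∃ v, A = sg v := sg_of_entry fun i k hk => by
  obtain ⟨w, hw, e⟩ := hU k i hk
  exact comm_entry (h w hw) e

/-- even sign vectors -/
def Ev (v : B8) : Prop := ∑ i, v i = 0

theorem Ev.add {v w : B8} (hv : Ev v) (hw : Ev w) : Ev (v + w) := by
  unfold Ev at *
  simp only [Pi.add_apply, Finset.sum_add_distrib, hv, hw, add_zero]
theorem Ev.pa {v : B8} (hv : Ev v) (π : S8) : Ev (pa π v) := (sum_pa π v).trans hv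
theorem ev_zero : Ev 0 := by simp [Ev]
theorem ev_one : Ev 1 := by unfold Ev; decide
theorem ev_pair (i j : Fin 8) : Ev (bb i + bb j) := sum_pair i j
theorem ev_add_pa (π : S8) (v : B8) : Ev (v + pa π v) := by
  unfold Ev
  simp only [Pi.add_apply, Finset.sum_add_distrib, sum_pa, z2_add_self]
theorem sep_ev : Sep {v | Ev v} := fun i j h => by
  obtain ⟨k, h1, h2⟩ : ∃ k : Fin 8, k ≠ i ∧ k ≠ j := by
    revert i j; decide
  refine ⟨bb i + bb k, ev_pair _ _, ?_⟩
  simp [bb_apply, h1.symm, h2.symm, h.symm]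

theorem eq_pm_one {A : O} (h1 : ∀ v, Ev v → sg v * A = A * sg v)
    (h2 : ∀ i : Fin 8, ∃ π : S8, π 0 = i ∧ pm π * A = A * pm π) : A = 1 ∨ A = ng := by
  obtain ⟨v, rfl⟩ := sg_of_comm sep_ev h1
  have h : ∀ i, v i = v 0 := fun i => by
    obtain ⟨π, rfl, e⟩ := h2 i
    have := (pm_conj_sg π v).symm.trans (mul_inv_eq_iff_eq_mul.2 e)
    rw [← sg_inj this, pa_apply', sg_inj this]
  rcases z2 (v 0) with e | e
  · left; rw [← sg_zero]; congr 1; exact funext fun i => (h i).trans e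
  · right; rw [ng]; congr 1; exact funext fun i => (h i).trans e

/-- the frame change matrix -/
def Mm : Matrix (Fin 8) (Fin 8) ℚ :=
  Matrix.of fun i j => if i.1 / 2 = j.1 / 2 then (if i.1 % 2 = 1 ∧ j.1 % 2 = 1 then -1 else 1) else 0

theorem Mm_tr : Mmᵀ = Mm := by decide +kernel
theorem Mm_sq : Mm * Mm = (2 : ℚ) • (1 : Matrix (Fin 8) (Fin 8) ℚ) := by decide +kernel

/-- conjugation by the frame change -/
def tau0 (A : O) : O := ⟨(1 / 2 : ℚ) • (Mm * A.1 * Mm), (mem_orthogonalGroup_iff _ _).2 (by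
  rw [transpose_smul, transpose_mul, transpose_mul, Mm_tr, smul_mul_smul_comm]
  calc _ = (1 / 2 * (1 / 2) : ℚ) • (Mm * (A.1 * (Mm * Mm) * A.1ᵀ) * Mm) := by
        simp only [Matrix.mul_assoc]
    _ = 1 := by
        rw [Mm_sq, Matrix.mul_smul, Matrix.mul_one, Matrix.smul_mul, mul_tr, Matrix.mul_smul,
          Matrix.mul_one, Matrix.smul_mul, Mm_sq, smul_smul, smul_smul]
        norm_num)⟩

theorem tau0_mul (A B : O) : tau0 (A * B) = tau0 A * tau0 B := Subtype.ext (by
  show (1 / 2 : ℚ) • (Mm * (A.1 * B.1) * Mm) =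
    (1 / 2 : ℚ) • (Mm * A.1 * Mm) * (1 / 2 : ℚ) • (Mm * B.1 * Mm)
  rw [smul_mul_smul_comm]
  calc _ = (1 / 2 * (1 / 2) : ℚ) • (Mm * (A.1 * (Mm * Mm) * B.1) * Mm) := by
        rw [Mm_sq, Matrix.mul_smul, Matrix.mul_one, Matrix.smul_mul, Matrix.mul_smul,
          Matrix.smul_mul, smul_smul]
        norm_num
    _ = _ := by simp only [Matrix.mul_assoc])

theorem tau0_tau0 (A : O) : tau0 (tau0 A) = A := Subtype.ext (by
  show (1 / 2 : ℚ) • (Mm * ((1 / 2 : ℚ) • (Mm * A.1 * Mm)) * Mm) = A.1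
  rw [Matrix.mul_smul, Matrix.smul_mul, smul_smul]
  calc _ = (1 / 2 * (1 / 2) : ℚ) • ((Mm * Mm) * A.1 * (Mm * Mm)) := by
        simp only [Matrix.mul_assoc]
    _ = _ := by
        rw [Mm_sq, Matrix.mul_smul, Matrix.mul_one, Matrix.smul_mul, Matrix.one_mul, smul_smul,
          smul_smul]
        norm_num)

/-- the frame change as an automorphism -/
def tau : O ≃* O := ⟨⟨tau0, tau0, tau0_tau0, tau0_tau0⟩, tau0_mul⟩

theorem tau_tau (A : O) : tau (tau A) = A := tau0_tau0 A
theorem ap_tau (A : O) (x : Q8) : ap (tau A) x = (1 / 2 : ℚ) • (Mm *ᵥ ap A (Mm *ᵥ x)) := by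
  show ((1 / 2 : ℚ) • (Mm * A.1 * Mm)) *ᵥ x = _
  rw [smul_mulVec, ap, mulVec_mulVec, mulVec_mulVec]
theorem Mm_Mm (x : Q8) : Mm *ᵥ (Mm *ᵥ x) = (2 : ℚ) • x := by
  rw [mulVec_mulVec, Mm_sq, smul_mulVec, one_mulVec]
theorem ap_tau' (A : O) (x : Q8) : ap (tau A) (Mm *ᵥ x) = Mm *ᵥ ap A x := by
  rw [ap_tau, Mm_Mm, ap_smul, mulVec_smul, smul_smul]; norm_num
theorem tau_ng : tau ng = ng := O_ext fun x => by
  rw [ap_tau, ap_ng, ap_ng, mulVec_neg, Mm_Mm, smul_neg, smul_smul]; norm_num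
theorem dt_tau (A : O) : dt (tau A) = dt A := by
  rw [dt_apply, dt_apply, show (tau A).1 = (1 / 2 : ℚ) • (Mm * A.1 * Mm) from rfl]
  have := congrArg det Mm_sq
  rw [det_mul, det_smul, det_one] at this
  rw [det_smul, det_mul, det_mul, mul_right_comm, this]
  simp only [Fintype.card_fin]
  ring

/-- the trace -/
def trc (A : O) : ℚ := A.1.trace
theorem trc_conj (A B : O) : trc (A * B * A⁻¹) = trc B := by
  show (A.1 * B.1 * A.1ᵀ).trace = _
  rw [trace_mul_cycle, tr_mul, Matrix.one_mul]; rfl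
theorem trc_ng (A : O) : trc (ng * A) = -trc A := by
  show (ng.1 * A.1).trace = _
  rw [ng_val]; simp [trc]
theorem trc_tau (A : O) : trc (tau A) = trc A := by
  show ((1 / 2 : ℚ) • (Mm * A.1 * Mm)).trace = _
  rw [trace_smul, trace_mul_cycle, Mm_sq]; simp [trc]
theorem trc_sg (v : B8) : trc (sg v) = ∑ i, sn (v i) := by
  simp [trc, trace, sg, mono]

end E8
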