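import Cfsg.Agent.E8.A

/-! The lattice, its automorphism group and the first explicit elements. -/

set_option autoImplicit false

namespace E8
open Matrix Equiv

/-- integral vectors -/
abbrev Z8 : Type := Fin 8 → ℤ
/-- the inclusion of integral vectors -/
def ci (n : Z8) : Q8 := fun i => (n i : ℚ)

theorem ci_apply (n : Z8) (i : Fin 8) : ci n i = (n i : ℚ) := rfl
theorem ci_inj {n m : Z8} (h : ci n = ci m) : n = m := funext fun i => by
  have := congrFun h i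
  rw [ci_apply, ci_apply] at this
  exact_mod_cast this
theorem ci_add (n m : Z8) : ci (n + m) = ci n + ci m := funext fun i => by simp [ci]
theorem ci_neg (n : Z8) : ci (-n) = -ci n := funext fun i => by simp [ci]
theorem ci_dot (n m : Z8) : ci n ⬝ᵥ ci m = ((∑ i, n i * m i : ℤ) : ℚ) := by
  simp [ci, dotProduct]

/-- the integral condition -/
def LI (n : Z8) : Prop := (∀ i, n i % 2 = n 0 % 2) ∧ (∑ i, n i) % 4 = 0

instance decLI (n : Z8) : Decidable (LI n) := by unfold LI; infer_instance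

/-- the lattice -/
def Lam : AddSubgroup Q8 where
  carrier := {x | ∃ n, x = ci n ∧ LI n}
  zero_mem' := ⟨0, funext fun i => by simp [ci], by decide⟩
  add_mem' := by
    rintro _ _ ⟨n, rfl, h1, h2⟩ ⟨m, rfl, h3, h4⟩
    refine ⟨n + m, (ci_add n m).symm, fun i => ?_, ?_⟩
    · have := h1 i; have := h3 i
      simp only [Pi.add_apply]; omega
    · simp only [Pi.add_apply, Finset.sum_add_distrib]; omega
  neg_mem' := by
    rintro _ ⟨n, rfl, h1, h2⟩
    refine ⟨-n, (ci_neg n).symm, fun i => ?_, ?_⟩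
    · have := h1 i
      simp only [Pi.neg_apply]; omega
    · simp only [Pi.neg_apply, Finset.sum_neg_distrib]; omega

theorem mem_Lam {x : Q8} : x ∈ Lam ↔ ∃ n, x = ci n ∧ LI n := Iff.rfl
theorem ci_mem {n : Z8} (h : LI n) : ci n ∈ Lam := ⟨n, rfl, h⟩
theorem LI_of_mem {n : Z8} (h : ci n ∈ Lam) : LI n := by
  obtain ⟨m, e, hm⟩ := h
  rwa [ci_inj e]

theorem dot_int {x y : Q8} (hx : x ∈ Lam) (hy : y ∈ Lam) : ∃ k : ℤ, x ⬝ᵥ y = 4 * k := by
  obtain ⟨n, rfl, h1, h2⟩ := hx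
  obtain ⟨m, rfl, h3, h4⟩ := hy
  obtain ⟨a, p, ha⟩ : ∃ (a : Z8) (p : ℤ), ∀ i, n i = 2 * a i + p :=
    ⟨fun i => n i / 2, n 0 % 2, fun i => by have := h1 i; dsimp only; omega⟩
  obtain ⟨b, q, hb⟩ : ∃ (b : Z8) (q : ℤ), ∀ i, m i = 2 * b i + q :=
    ⟨fun i => m i / 2, m 0 % 2, fun i => by have := h3 i; dsimp only; omega⟩
  simp only [Fin.sum_univ_eight, ha, hb] at h2 h4
  obtain ⟨A, hA⟩ : ∃ A, a 0 + a 1 + a 2 + a 3 + a 4 + a 5 + a 6 + a 7 = 2 * A :=
    ⟨(a 0 + a 1 + a 2 + a 3 + a 4 + a 5 + a 6 + a 7) / 2, by omega⟩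
  obtain ⟨C, hC⟩ : ∃ C, b 0 + b 1 + b 2 + b 3 + b 4 + b 5 + b 6 + b 7 = 2 * C :=
    ⟨(b 0 + b 1 + b 2 + b 3 + b 4 + b 5 + b 6 + b 7) / 2, by omega⟩
  refine ⟨∑ i, a i * b i + q * A + p * C + 2 * p * q, ?_⟩
  rw [ci_dot]
  have : ∑ i, n i * m i = 4 * (∑ i, a i * b i + q * A + p * C + 2 * p * q) := by
    simp only [Fin.sum_univ_eight, ha, hb]
    linear_combination 2 * q * hA + 2 * p * hC
  rw [this]; push_cast; ring

theorem e4_mem (i : Fin 8) : (4 : ℚ) • ee i ∈ Lam :=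
  ⟨fun j => if j = i then 4 else 0, funext fun j => by
    by_cases h : j = i <;> simp [ci, ee_apply, h], by revert i; decide⟩
theorem d2_mem (i j : Fin 8) : (2 : ℚ) • ee i - (2 : ℚ) • ee j ∈ Lam :=
  ⟨fun k => (if k = i then 2 else 0) - if k = j then 2 else 0, funext fun k => by
    by_cases h : k = i <;> by_cases h' : k = j <;> simp [ci, ee_apply, h, h'], by revert i j; decide⟩
theorem s2_mem (i j : Fin 8) : (2 : ℚ) • ee i + (2 : ℚ) • ee j ∈ Lam :=
  ⟨fun k => (if k = i then 2 else 0) + if k = j then 2 else 0, funext fun k => by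
    by_cases h : k = i <;> by_cases h' : k = j <;> simp [ci, ee_apply, h, h'], by revert i j; decide⟩
theorem one_mem_Lam : (1 : Q8) ∈ Lam := ⟨1, funext fun _ => by simp [ci], by decide⟩

theorem mem_of_dual {z : Q8} (h : ∀ y ∈ Lam, ∃ k : ℤ, z ⬝ᵥ y = 4 * k) : z ∈ Lam := by
  have h1 : ∀ i, ∃ k : ℤ, z i = k := fun i => by
    obtain ⟨k, hk⟩ := h _ (e4_mem i)
    rw [dotProduct_smul, dot_ee, smul_eq_mul] at hk
    exact ⟨k, by linarith⟩
  choose n hn using h1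
  have e : z = ci n := funext hn
  subst e
  refine ci_mem ⟨fun i => ?_, ?_⟩
  · obtain ⟨k, hk⟩ := h _ (d2_mem i 0)
    rw [dotProduct_sub, dotProduct_smul, dotProduct_smul, dot_ee, dot_ee, smul_eq_mul, smul_eq_mul,
      ci_apply, ci_apply] at hk
    have : 2 * n i - 2 * n 0 = 4 * k := by exact_mod_cast hk
    omega
  · obtain ⟨k, hk⟩ := h _ one_mem_Lam
    have : ∑ i, n i = 4 * k := by
      simp only [dotProduct, Pi.one_apply, mul_one, ci_apply] at hk
      exact_mod_cast hk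
    omega

/-- the automorphism group of the lattice -/
def W : Subgroup O where
  carrier := {A | ∀ x ∈ Lam, ap A x ∈ Lam}
  one_mem' := fun x hx => by rwa [ap_one]
  mul_mem' := fun {A B} hA hB x hx => by rw [ap_mul]; exact hA _ (hB _ hx)
  inv_mem' := fun {A} hA x hx => mem_of_dual fun y hy => by
    rw [dot_ap']; exact dot_int hx (hA y hy)

theorem mem_W {A : O} : A ∈ W ↔ ∀ x ∈ Lam, ap A x ∈ Lam := Iff.rfl

/-- its subgroup of determinant one -/
def Wp : Subgroup O := W ⊓ dt.ker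
theorem mem_Wp {A : O} : A ∈ Wp ↔ A ∈ W ∧ dt A = 1 := Iff.rfl
theorem Wp.conj {A B : O} (hA : A ∈ W) (hB : B ∈ Wp) : A * B * A⁻¹ ∈ Wp :=
  ⟨W.mul_mem (W.mul_mem hA hB.1) (W.inv_mem hA), (dt_conj A B).trans hB.2⟩
theorem Wp.conj' {A B : O} (hA : A ∈ W) (hB : B ∈ Wp) : A⁻¹ * B * A ∈ Wp := by
  simpa using Wp.conj (W.inv_mem hA) hB
theorem Wp.comm {A B : O} (hA : A ∈ W) (hB : B ∈ W) : A * B * A⁻¹ * B⁻¹ ∈ Wp :=
  ⟨W.mul_mem (W.mul_mem (W.mul_mem hA hB) (W.inv_mem hA)) (W.inv_mem hB), by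
    show dt _ = 1
    rw [map_mul, dt_conj, dt_inv, dt_mul_self]⟩

/-- integral signs -/
def sI (a : ZMod 2) : ℤ := 1 - 2 * a.val
theorem sI_cast (a : ZMod 2) : (sI a : ℚ) = sn a := by
  rcases z2 a with rfl | rfl
  · simp [sI, sn_zero]
  · rw [sn_one, show sI 1 = -1 from rfl]; simp
/-- the monomial action on integral vectors -/
def monI (π : S8) (v : B8) (n : Z8) : Z8 := fun i => sI (v i) * n (π⁻¹ i)
theorem ap_mono_ci (π : S8) (v : B8) (n : Z8) : ap (mono π v) (ci n) = ci (monI π v n) :=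
  funext fun i => by rw [ap_mono]; simp [ci, monI, sI_cast]

theorem sum_monI (π : S8) (v : B8) (n : Z8) (p : ℤ) (h : ∀ i, n i % 2 = p % 2) :
    ∃ t : ℤ, ∑ i, monI π v n i = ∑ i, n i - 2 * t ∧ (t : ZMod 2) = (∑ i, v i) * p := by
  refine ⟨∑ i, (v i).val * n (π⁻¹ i), ?_, ?_⟩
  · rw [← Equiv.sum_comp π⁻¹ n, Finset.mul_sum, ← Finset.sum_sub_distrib]
    exact Finset.sum_congr rfl fun i _ => by simp only [monI, sI]; ring
  · rw [Finset.sum_mul]
    push_cast
    refine Finset.sum_congr rfl fun i _ => ?_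
    rw [ZMod.natCast_zmod_val, (ZMod.intCast_eq_intCast_iff' _ _ 2).2 (h _)]

theorem mono_mem {π : S8} {v : B8} (hv : Ev v) : mono π v ∈ W := by
  rintro _ ⟨n, rfl, h1, h2⟩
  rw [ap_mono_ci]
  have h : ∀ i, monI π v n i % 2 = n 0 % 2 := fun i => by
    have := h1 (π⁻¹ i)
    simp only [monI, sI, sub_mul, mul_assoc]; omega
  refine ci_mem ⟨fun i => by rw [h, h], ?_⟩
  obtain ⟨t, e, ht⟩ := sum_monI π v n (n 0) h1
  rw [hv, zero_mul, ZMod.intCast_zmod_eq_zero_iff_dvd] at ht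
  omega

theorem ev_of_mem {π : S8} {v : B8} (h : mono π v ∈ W) : Ev v := by
  have h1 := h (ci 1) (ci_mem (by decide))
  rw [ap_mono_ci] at h1
  obtain ⟨t, e, ht⟩ := sum_monI π v 1 1 fun _ => rfl
  have h2 := (LI_of_mem h1).2
  rw [e] at h2
  simp only [Pi.one_apply, Finset.sum_const, Finset.card_univ, Fintype.card_fin] at h2
  rw [Int.cast_one, mul_one] at ht
  rw [Ev, ← ht, ZMod.intCast_zmod_eq_zero_iff_dvd]
  simp only [nsmul_eq_mul] at h2
  omega

theorem sg_mem {v : B8} (hv : Ev v) : sg v ∈ W := mono_mem hv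
theorem pm_mem (π : S8) : pm π ∈ W := mono_mem ev_zero
theorem ng_mem : ng ∈ W := sg_mem ev_one
theorem dt_mono_ev {π : S8} {v : B8} (hv : Ev v) : dt (mono π v) = (Perm.sign π : ℤ) := by
  rw [dt_mono, hv, sn_zero, one_mul]
theorem mono_memp {π : S8} {v : B8} (hπ : Perm.sign π = 1) (hv : Ev v) : mono π v ∈ Wp :=
  ⟨mono_mem hv, by show dt _ = 1; rw [dt_mono_ev hv, hπ]; simp⟩
theorem sign_of_memp {π : S8} {v : B8} (h : mono π v ∈ Wp) : Perm.sign π = 1 := by
  have h1 : dt _ = 1 := h.2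
  rw [dt_mono_ev (ev_of_mem h.1)] at h1
  rcases Int.units_eq_one_or (Perm.sign π) with e | e
  · exact e
  · rw [e] at h1; norm_num at h1
theorem sg_memp {v : B8} (hv : Ev v) : sg v ∈ Wp := mono_memp (by simp) hv
theorem pm_memp {π : S8} (hπ : Perm.sign π = 1) : pm π ∈ Wp := mono_memp hπ ev_zero
theorem ng_memp : ng ∈ Wp := sg_memp ev_one

/-- the reflection in the all-ones root -/
def rh : O := ⟨Matrix.of fun i j => if i = j then 3 / 4 else -1 / 4,
  (mem_orthogonalGroup_iff _ _).2 (by decide +kernel)⟩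
theorem ap_rh (x : Q8) (i : Fin 8) : ap rh x i = x i - (∑ j, x j) / 4 := by
  have : ∀ j, (if i = j then 3 / 4 else -1 / 4 : ℚ) * x j = (if i = j then x j else 0) - x j / 4 :=
    fun j => by split_ifs <;> ring
  simp only [ap, rh, mulVec, dotProduct, of_apply, this, Finset.sum_sub_distrib, Finset.sum_ite_eq,
    Finset.mem_univ, if_true, Finset.sum_div]
/-- its action on integral vectors -/
def rhI (n : Z8) : Z8 := fun i => n i - (∑ j, n j) / 4
theorem ap_rh_ci {n : Z8} (h : LI n) : ap rh (ci n) = ci (rhI n) := funext fun i => by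
  obtain ⟨k, hk⟩ : ∃ k, ∑ j, n j = 4 * k := ⟨(∑ j, n j) / 4, by have := h.2; omega⟩
  have : ∑ j, ci n j = 4 * k := by
    simp only [ci_apply]; exact_mod_cast hk
  rw [ap_rh, this, ci_apply, ci_apply, rhI, hk]
  simp
theorem rh_mem : rh ∈ W := by
  rintro _ ⟨n, rfl, h⟩
  rw [ap_rh_ci h]
  refine ci_mem ⟨fun i => ?_, ?_⟩
  · have := h.1 i
    simp only [rhI]; omega
  · have := h.2
    simp only [rhI, Finset.sum_sub_distrib, Finset.sum_const, Finset.card_univ, Fintype.card_fin,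
      nsmul_eq_mul]
    omega
theorem rh_mul_self : rh * rh = 1 := Subtype.ext (by decide +kernel)

/-- a monomial reflection -/
def r01 : O := mono (swap 0 1) (bb 0 + bb 1)
/-- an element of order three outside the monomial group -/
def tt : O := rh * r01
theorem tt_cube : tt * tt * tt = 1 := Subtype.ext (by decide +kernel)
theorem r01_mem : r01 ∈ W := mono_mem (ev_pair 0 1)
theorem dt_of_cube {A : O} (h : A * A * A = 1) : dt A = 1 := by
  have := congrArg dt h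
  rwa [map_mul, map_mul, dt_mul_self, one_mul, map_one] at this
theorem tt_memp : tt ∈ Wp := ⟨W.mul_mem rh_mem r01_mem, dt_of_cube tt_cube⟩
theorem dt_r01 : dt r01 = -1 := by
  rw [r01, dt_mono_ev (ev_pair 0 1), Perm.sign_swap (by decide)]; simp

/-- the code -/
def Cd (w : B8) : Prop :=
  w 0 + w 1 = w 2 + w 3 ∧ w 0 + w 1 = w 4 + w 5 ∧ w 0 + w 1 = w 6 + w 7 ∧ w 0 + w 2 + w 4 + w 6 = 0
instance decCd (w : B8) : Decidable (Cd w) := by unfold Cd; infer_instance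
/-- reduction modulo two -/
def m2 (n : Z8) : B8 := fun i => (n i : ZMod 2)
/-- the frame change on integral vectors -/
def MI (c : Z8) : Z8 :=
  ![c 0 + c 1, c 0 - c 1, c 2 + c 3, c 2 - c 3, c 4 + c 5, c 4 - c 5, c 6 + c 7, c 6 - c 7]
theorem Mm_ci (c : Z8) : Mm *ᵥ ci c = ci (MI c) := funext fun i => by
  fin_cases i <;> simp [Mm, mulVec, dotProduct, Fin.sum_univ_eight, ci, MI] <;> ring

theorem cd_iff (c : Z8) : Cd (m2 c) ↔ LI (MI c) := by
  have e : ∀ a b : ℤ, (a : ZMod 2) = b ↔ a % 2 = b % 2 := fun a b =>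
    ZMod.intCast_eq_intCast_iff' a b 2
  have e0 : ∀ a : ℤ, (a : ZMod 2) = 0 ↔ a % 2 = 0 := fun a => by simpa using e a 0
  simp only [Cd, m2, ← Int.cast_add, e, e0, LI, Fin.forall_fin_succ, Fin.sum_univ_eight, MI]
  simp
  omega

theorem mem_Lam' {x : Q8} : x ∈ Lam ↔ ∃ c, x = Mm *ᵥ ci c ∧ Cd (m2 c) := by
  constructor
  · rintro ⟨n, rfl, h⟩
    have e : MI ![(n 0 + n 1) / 2, (n 0 - n 1) / 2, (n 2 + n 3) / 2, (n 2 - n 3) / 2,
        (n 4 + n 5) / 2, (n 4 - n 5) / 2, (n 6 + n 7) / 2, (n 6 - n 7) / 2] = n := by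
      have := h.1 1; have := h.1 2; have := h.1 3; have := h.1 4; have := h.1 5; have := h.1 6
      have := h.1 7
      funext i
      fin_cases i <;> simp [MI] <;> omega
    exact ⟨_, by rw [Mm_ci, e], by rw [cd_iff, e]; exact h⟩
  · rintro ⟨c, rfl, h⟩
    rw [Mm_ci]; exact ci_mem ((cd_iff c).1 h)

/-- permutations preserving the code -/
def Aff (σ : S8) : Prop := ∀ w, Cd w → Cd (pa σ w)
/-- monomial matrices of the frame -/
def fm (σ : S8) (u : B8) : O := tau (mono σ u)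

theorem m2_monI (σ : S8) (u : B8) (c : Z8) : m2 (monI σ u c) = pa σ (m2 c) := funext fun i => by
  simp only [m2, monI, sI, pa]
  push_cast
  rw [show (2 : ZMod 2) = 0 from rfl]; simp

theorem fm_mem {σ : S8} (h : Aff σ) (u : B8) : fm σ u ∈ W := by
  intro x hx
  obtain ⟨c, rfl, hc⟩ := mem_Lam'.1 hx
  rw [fm, ap_tau', ap_mono_ci]
  exact mem_Lam'.2 ⟨_, rfl, by rw [m2_monI]; exact h _ hc⟩

theorem aff_of_mem {σ : S8} {u : B8} (h : fm σ u ∈ W) : Aff σ := by
  intro w hw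
  have e : m2 (fun i => ((w i).val : ℤ)) = w := funext fun i => by simp [m2]
  have h1 := h _ (mem_Lam'.2 ⟨fun i => ((w i).val : ℤ), rfl, by rwa [e]⟩)
  rw [fm, ap_tau', ap_mono_ci, Mm_ci] at h1
  have := (cd_iff _).2 (LI_of_mem h1)
  rwa [m2_monI, e] at this

theorem aff_one : Aff 1 := fun _ h => h
theorem Aff.mul {σ ρ : S8} (h : Aff σ) (h' : Aff ρ) : Aff (σ * ρ) := fun w hw => h _ (h' w hw)
theorem Aff.inv {σ : S8} (h : Aff σ) : Aff σ⁻¹ := by
  have := W.inv_mem (fm_mem h 0)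
  rw [fm, ← map_inv, mono_inv] at this
  exact aff_of_mem this

/-- sign changes of the frame -/
def fs (u : B8) : O := tau (sg u)
/-- permutations of the frame -/
def fp (σ : S8) : O := tau (pm σ)
theorem fs_mem (u : B8) : fs u ∈ W := fm_mem aff_one u
theorem fp_mem {σ : S8} (h : Aff σ) : fp σ ∈ W := fm_mem h 0
theorem dt_fs (u : B8) : dt (fs u) = sn (∑ i, u i) := by rw [fs, dt_tau, dt_sg]
theorem fs_memp {u : B8} (h : Ev u) : fs u ∈ Wp := ⟨fs_mem u, by
  show dt _ = 1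
  rw [dt_fs, h, sn_zero]⟩
theorem ev_of_fs {u : B8} (h : fs u ∈ Wp) : Ev u := by
  have h1 : dt _ = 1 := h.2
  rw [dt_fs] at h1
  exact sn_inj (h1.trans sn_zero.symm)
theorem fp_memp {σ : S8} (h : Aff σ) (hs : Perm.sign σ = 1) : fp σ ∈ Wp := ⟨fp_mem h, by
  show dt _ = 1
  rw [fp, dt_tau, dt_pm, hs]; simp⟩
theorem fs_add (v w : B8) : fs (v + w) = fs v * fs w := by rw [fs, sg_add, map_mul]; rfl
theorem fs_zero : fs 0 = 1 := by rw [fs, sg_zero, map_one]
theorem fs_one : fs 1 = ng := tau_ng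
theorem fs_mul_self (v : B8) : fs v * fs v = 1 := by rw [← fs_add, b8_add_self, fs_zero]
theorem fs_inv (v : B8) : (fs v)⁻¹ = fs v := inv_eq_of_mul_eq_one_right (fs_mul_self v)
theorem fs_comm (v w : B8) : fs v * fs w = fs w * fs v := by rw [← fs_add, add_comm, fs_add]
theorem fs_inj {v w : B8} (h : fs v = fs w) : v = w := sg_inj (tau.injective h)
theorem fm_conj_fs (σ : S8) (u v : B8) : fm σ u * fs v * (fm σ u)⁻¹ = fs (pa σ v) := by
  rw [fm, fs, ← map_inv, ← map_mul, ← map_mul, mono_conj_sg]; rfl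
theorem fp_conj_fs (σ : S8) (v : B8) : fp σ * fs v * (fp σ)⁻¹ = fs (pa σ v) := fm_conj_fs σ 0 v
theorem fp_mul (σ ρ : S8) : fp (σ * ρ) = fp σ * fp ρ := by rw [fp, pm_mul, map_mul]; rfl
theorem fp_one : fp 1 = 1 := by rw [fp, pm_one, map_one]

theorem fm_of_conj {U : Set B8} (hU : Sep U) {A : O}
    (h : ∀ w ∈ U, ∃ u, fs w * A = A * fs u) : ∃ π v, A = fm π v := by
  obtain ⟨π, v, e⟩ := mono_of_conj hU (A := tau A) fun w hw => by
    obtain ⟨u, hu⟩ := h w hw
    refine ⟨u, tau.injective ?_⟩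
    rw [map_mul, map_mul, tau_tau]; exact hu
  exact ⟨π, v, by rw [fm, ← e, tau_tau]⟩

theorem fs_of_comm {U : Set B8} (hU : Sep U) {A : O} (h : ∀ w ∈ U, fs w * A = A * fs w) :
    ∃ v, A = fs v := by
  obtain ⟨v, e⟩ := sg_of_comm hU (A := tau A) fun w hw => tau.injective (by
    rw [map_mul, map_mul, tau_tau]; exact h w hw)
  exact ⟨v, by rw [fs, ← e, tau_tau]⟩

theorem exists_even_map (i j : Fin 8) : ∃ π : S8, Perm.sign π = 1 ∧ π i = j := by
  by_cases h : i = j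
  · exact ⟨1, by simp, h⟩
  obtain ⟨a, b, h1, h2, h3⟩ : ∃ a b : Fin 8, a ≠ b ∧ i ≠ a ∧ i ≠ b := by
    clear h; revert i; decide
  refine ⟨swap i j * swap a b, ?_, ?_⟩
  · rw [Perm.sign_mul, Perm.sign_swap h, Perm.sign_swap h1]; simp
  · rw [Perm.mul_apply, swap_apply_of_ne_of_ne h2 h3, swap_apply_left]

theorem central {A : O} (h : ∀ x ∈ Wp, A * x = x * A) : A = 1 ∨ A = ng :=
  eq_pm_one (fun v hv => (h _ (sg_memp hv)).symm) fun i => by
    obtain ⟨π, h1, h2⟩ := exists_even_map 0 i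
    exact ⟨π, h2, (h _ (pm_memp h1)).symm⟩

end E8
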