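import Cfsg.Agent.E8.B

/-! Reduction modulo two. -/

set_option autoImplicit false

namespace E8
open Matrix Equiv Cfsg

/-- the index type of the hyperbolic basis -/
abbrev II : Type := Fin 4 ⊕ Fin 4
/-- vectors modulo two -/
abbrev V : Type := II → ZMod 2
/-- the quadratic form -/
abbrev QQ : V → ZMod 2 := quadFormPlus 4 (ZMod 2)
/-- the isometry group -/
abbrev O2 : Type := isometryGroup (ZMod 2) QQ
/-- numbering of the hyperbolic basis -/
def ix : II → Fin 8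
  | .inl i => ⟨i, by omega⟩
  | .inr i => ⟨4 + i, by omega⟩

/-- the action on vectors -/
def a2 (g : O2) (v : V) : V := (g.1 : Matrix II II (ZMod 2)) *ᵥ v
theorem a2_mul (g h : O2) (v : V) : a2 (g * h) v = a2 g (a2 h v) := by
  simp [a2, mulVec_mulVec]
theorem a2_one (v : V) : a2 1 v = v := by simp [a2]
theorem a2_add (g : O2) (u v : V) : a2 g (u + v) = a2 g u + a2 g v := mulVec_add _ _ _
theorem a2_zero (g : O2) : a2 g 0 = 0 := mulVec_zero _
theorem a2_inv_a2 (g : O2) (v : V) : a2 g⁻¹ (a2 g v) = v := by rw [← a2_mul, inv_mul_cancel, a2_one]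
theorem a2_a2_inv (g : O2) (v : V) : a2 g (a2 g⁻¹ v) = v := by rw [← a2_mul, mul_inv_cancel, a2_one]
theorem a2_inj (g : O2) {u v : V} (h : a2 g u = a2 g v) : u = v := by
  rw [← a2_inv_a2 g u, h, a2_inv_a2]
theorem Q_a2 (g : O2) (v : V) : QQ (a2 g v) = QQ v := g.2 v v
theorem O2_ext {g h : O2} (e : ∀ k, a2 g (Pi.single k 1) = a2 h (Pi.single k 1)) : g = h :=
  Subtype.ext (Units.ext (Matrix.ext fun j k => by
    simpa [a2, mulVec_single_one] using congrFun (e k) j))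

/-- a lattice basis reducing to a hyperbolic basis -/
def GZ : Matrix (Fin 8) II ℤ := Matrix.of fun i k =>
  !![4, 2, 0, 0, 3, 2, 2, 0; 0, 0, 0, 0, -1, 0, 0, 2; 0, 2, 0, 2, -1, 2, 0, -2;
    0, 0, 2, 0, -1, 0, 2, 0; 0, 0, 0, 2, -1, 0, 0, 0; 0, 0, 2, 2, -1, 2, 2, -2;
    0, -2, 2, 2, -1, 0, 2, 2; 0, -2, 2, 0, -1, 2, 0, 0] i (ix k)
/-- four times the inverse -/
def HZ : Matrix II (Fin 8) ℤ := Matrix.of fun k i =>
  !![1, 1, -3, 1, 5, 1, -3, 1; 0, -2, 4, 2, -2, -4, 2, 0; 0, -6, 6, 4, -2, -8, 4, 2;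
    0, -2, 2, 0, 0, -2, 2, 0; 0, -4, 4, 0, -4, -4, 4, 0; 0, 2, 0, -2, -2, 2, 0, 0;
    0, 4, -4, -2, 0, 6, -2, -2; 0, 0, 2, 0, -2, -2, 2, 0] (ix k) i
/-- the basis over the rationals -/
def GQ : Matrix (Fin 8) II ℚ := GZ.map (Int.castRingHom ℚ)
/-- the inverse over the rationals -/
def HQ : Matrix II (Fin 8) ℚ := (1 / 4 : ℚ) • HZ.map (Int.castRingHom ℚ)
theorem HG : HQ * GQ = 1 := by decide +kernel
theorem GH : GQ * HQ = 1 := by decide +kernel

/-- integral coordinates as rationals -/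
def cq (c : II → ℤ) : II → ℚ := fun k => (c k : ℚ)
/-- integral coordinates modulo two -/
def c2 (c : II → ℤ) : V := fun k => (c k : ZMod 2)

theorem GQ_cq (c : II → ℤ) : GQ *ᵥ cq c = ci (GZ *ᵥ c) := funext fun i => by
  simp [GQ, cq, ci, mulVec, dotProduct]

theorem LI_G (c : II → ℤ) : LI (GZ *ᵥ c) := by
  simp only [LI, Fin.forall_fin_succ, Fin.sum_univ_eight, mulVec, dotProduct, GZ,
    Fintype.sum_sum_type, Fin.sum_univ_four, ix, of_apply]
  simp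
  omega

/-- integral coordinates -/
def crd (n : Z8) : II → ℤ := fun k => (HZ *ᵥ n) k / 4

theorem HQ_ci {n : Z8} (h : LI n) : HQ *ᵥ ci n = cq (crd n) := funext fun k => by
  have h4 : (HZ *ᵥ n) k % 4 = 0 := by
    have := h.1 1; have := h.1 2; have := h.1 3; have := h.1 4; have := h.1 5; have := h.1 6
    have := h.1 7; have := h.2
    rw [Fin.sum_univ_eight] at this
    rcases k with k | k <;> fin_cases k <;>
      simp [mulVec, dotProduct, HZ, Fin.sum_univ_eight, ix] <;> omega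
  obtain ⟨m, hm⟩ : ∃ m, (HZ *ᵥ n) k = 4 * m := ⟨(HZ *ᵥ n) k / 4, by omega⟩
  have : (HZ.map (Int.castRingHom ℚ) *ᵥ ci n) k = ((HZ *ᵥ n) k : ℤ) := by
    simp [ci, mulVec, dotProduct]
  rw [HQ, smul_mulVec, Pi.smul_apply, this, cq, crd, hm]
  simp

theorem mem_LamG {x : Q8} : x ∈ Lam ↔ ∃ c, x = GQ *ᵥ cq c := by
  constructor
  · rintro ⟨n, rfl, h⟩
    exact ⟨crd n, by rw [← HQ_ci h, mulVec_mulVec, GH, one_mulVec]⟩
  · rintro ⟨c, rfl⟩
    rw [GQ_cq]; exact ci_mem (LI_G c)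

/-- reduction of lattice vectors -/
def rd (x : Q8) : V := fun k => (((HQ *ᵥ x) k).num : ZMod 2)
theorem rd_G (c : II → ℤ) : rd (GQ *ᵥ cq c) = c2 c := funext fun k => by
  rw [rd, mulVec_mulVec, HG, one_mulVec]; simp [cq, c2]
theorem rd_ci {n : Z8} (h : LI n) : rd (ci n) = c2 (crd n) := funext fun k => by
  rw [rd, HQ_ci h]; simp [cq, c2]
theorem cq_add (c d : II → ℤ) : cq (c + d) = cq c + cq d := funext fun k => by simp [cq]
theorem rd_add {x y : Q8} (hx : x ∈ Lam) (hy : y ∈ Lam) : rd (x + y) = rd x + rd y := by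
  obtain ⟨c, rfl⟩ := mem_LamG.1 hx
  obtain ⟨d, rfl⟩ := mem_LamG.1 hy
  rw [← mulVec_add, ← cq_add, rd_G, rd_G, rd_G]
  exact funext fun k => by simp [c2]
theorem V_add_self (v : V) : v + v = 0 := funext fun k => z2_add_self (v k)
theorem V_eq {v w : V} (h : v + w = 0) : v = w := funext fun i => z2_eq (congrFun h i)
theorem rd_zero : rd 0 = 0 := funext fun k => by simp [rd]
theorem rd_neg {x : Q8} (hx : x ∈ Lam) : rd (-x) = rd x :=
  V_eq (by rw [← rd_add (Lam.neg_mem hx) hx, neg_add_cancel, rd_zero])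
theorem rd_surj (v : V) : ∃ x ∈ Lam, rd x = v :=
  ⟨_, mem_LamG.2 ⟨fun k => (v k).val, rfl⟩, by rw [rd_G]; exact funext fun k => by simp [c2]⟩
theorem rd_eq {x y : Q8} (hx : x ∈ Lam) (hy : y ∈ Lam) (h : rd x = rd y) :
    ∃ u ∈ Lam, x = y + (2 : ℚ) • u := by
  obtain ⟨c, rfl⟩ := mem_LamG.1 hx
  obtain ⟨d, rfl⟩ := mem_LamG.1 hy
  rw [rd_G, rd_G] at h
  refine ⟨_, mem_LamG.2 ⟨fun k => (c k - d k) / 2, rfl⟩, ?_⟩
  rw [← mulVec_smul, ← mulVec_add]
  congr 1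
  funext k
  have := (ZMod.intCast_eq_intCast_iff' _ _ 2).1 (congrFun h k)
  obtain ⟨m, hm⟩ : ∃ m, c k - d k = 2 * m := ⟨(c k - d k) / 2, by omega⟩
  have e : c k = d k + 2 * m := by omega
  simp [cq, hm, e]

theorem norm_Q {x : Q8} (hx : x ∈ Lam) : ∃ m : ℤ, x ⬝ᵥ x = 8 * m ∧ (m : ZMod 2) = QQ (rd x) := by
  obtain ⟨c, rfl⟩ := mem_LamG.1 hx
  rw [rd_G, GQ_cq, ci_dot]
  set a0 := c (.inl 0)
  set a1 := c (.inl 1)
  set a2 := c (.inl 2)
  set a3 := c (.inl 3)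
  set a4 := c (.inr 0)
  set a5 := c (.inr 1)
  set a6 := c (.inr 2)
  set a7 := c (.inr 3)
  refine ⟨a0 * a4 + a1 * a5 + a2 * a6 + a3 * a7 + 2 * (a0 ^ 2 + a1 ^ 2 + a2 ^ 2 + a3 ^ 2 + a4 ^ 2 +
    a5 ^ 2 + a6 ^ 2 + a7 ^ 2 + a0 * a1 + a0 * a4 + a0 * a5 + a0 * a6 - a1 * a2 + a1 * a4 - a1 * a7 +
    a2 * a3 - a2 * a4 + a2 * a5 + a2 * a6 - a3 * a4 + a3 * a5 + a3 * a6 - a3 * a7 + a5 * a6 -
    a5 * a7), ?_, ?_⟩
  · norm_cast
    simp only [Fin.sum_univ_eight, mulVec, dotProduct, GZ, Fintype.sum_sum_type, Fin.sum_univ_four,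
      ix, of_apply]
    simp
    ring
  · rw [Int.cast_add, Int.cast_mul, show ((2 : ℤ) : ZMod 2) = 0 from rfl, zero_mul, add_zero]
    simp [quadFormPlus, Fin.sum_univ_four, c2, a0, a1, a2, a3, a4, a5, a6, a7]

/-- the integral matrix in lattice coordinates -/
def ZM (A : O) : Matrix II II ℤ := (HQ * A.1 * GQ).map Rat.num

theorem ZM_cast {A : O} (hA : A ∈ W) : (ZM A).map (Int.castRingHom ℚ) = HQ * A.1 * GQ := by
  ext k l
  obtain ⟨c, hc⟩ := mem_LamG.1 (hA _ (mem_LamG.2 ⟨Pi.single l 1, rfl⟩))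
  have h1 : cq (Pi.single l 1) = Pi.single l 1 := funext fun j => by
    by_cases h : j = l <;> simp [cq, h]
  have h2 : (HQ * A.1 * GQ) *ᵥ Pi.single l 1 = cq c := by
    rw [← mulVec_mulVec, ← mulVec_mulVec, ← h1, ← ap, hc, mulVec_mulVec, HG, one_mulVec]
  have h3 : (HQ * A.1 * GQ) k l = c k := by
    simpa [mulVec_single_one, cq] using congrFun h2 k
  simp [ZM, h3]

theorem ap_G {A : O} (hA : A ∈ W) (c : II → ℤ) : ap A (GQ *ᵥ cq c) = GQ *ᵥ cq (ZM A *ᵥ c) := by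
  have : cq (ZM A *ᵥ c) = (ZM A).map (Int.castRingHom ℚ) *ᵥ cq c := funext fun k => by
    simp [cq, mulVec, dotProduct]
  rw [this, ZM_cast hA, ap]
  simp only [mulVec_mulVec, ← Matrix.mul_assoc, GH, Matrix.one_mul]

/-- the reduced matrix -/
def redM (A : O) : Matrix II II (ZMod 2) := (ZM A).map (Int.castRingHom (ZMod 2))

theorem redM_rd {A : O} (hA : A ∈ W) {x : Q8} (hx : x ∈ Lam) : redM A *ᵥ rd x = rd (ap A x) := by
  obtain ⟨c, rfl⟩ := mem_LamG.1 hx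
  rw [ap_G hA, rd_G, rd_G]
  exact funext fun k => by simp [redM, c2, mulVec, dotProduct]

theorem M2_ext {M N : Matrix II II (ZMod 2)} (h : ∀ x ∈ Lam, M *ᵥ rd x = N *ᵥ rd x) : M = N :=
  Matrix.ext fun j k => by
    obtain ⟨x, hx, e⟩ := rd_surj (Pi.single k 1)
    have := h x hx
    rw [e] at this
    simpa [mulVec_single_one] using congrFun this j

/-- the reduction to matrices -/
def red0 : W →* Matrix II II (ZMod 2) where
  toFun A := redM A.1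
  map_one' := M2_ext fun x hx => by
    rw [redM_rd (Subtype.prop _) hx, one_mulVec, OneMemClass.coe_one, ap_one]
  map_mul' A B := M2_ext fun x hx => by
    rw [redM_rd (Subtype.prop _) hx, ← mulVec_mulVec, redM_rd B.2 hx, redM_rd A.2 (B.2 x hx),
      Subgroup.coe_mul, ap_mul]

/-- the reduction homomorphism -/
def red : W →* O2 := red0.toHomUnits.codRestrict _ fun A u _ => by
  obtain ⟨x, hx, rfl⟩ := rd_surj u
  show QQ (redM A.1 *ᵥ rd x) = QQ (rd x)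
  obtain ⟨m, h1, h2⟩ := norm_Q hx
  obtain ⟨m', h3, h4⟩ := norm_Q (A.2 x hx)
  rw [dot_ap, h1] at h3
  have : m = m' := by
    have : (m : ℚ) = m' := by linarith
    exact_mod_cast this
  rw [redM_rd A.2 hx, ← h4, ← h2, this]

theorem red_rd (A : W) {x : Q8} (hx : x ∈ Lam) : a2 (red A) (rd x) = rd (ap A.1 x) :=
  redM_rd A.2 hx
theorem O2_ext' {g h : O2} (e : ∀ x ∈ Lam, a2 g (rd x) = a2 h (rd x)) : g = h :=
  Subtype.ext (Units.ext (M2_ext e))

/-- the polar form -/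
def bil (u v : V) : ZMod 2 := QQ (u + v) + QQ u + QQ v
theorem bil_a2 (g : O2) (u v : V) : bil (a2 g u) (a2 g v) = bil u v := by
  rw [bil, ← a2_add, Q_a2, Q_a2, Q_a2, bil]
theorem dot_bil {x y : Q8} (hx : x ∈ Lam) (hy : y ∈ Lam) :
    ∃ k : ℤ, x ⬝ᵥ y = 4 * k ∧ (k : ZMod 2) = bil (rd x) (rd y) := by
  obtain ⟨a, h1, h2⟩ := norm_Q hx
  obtain ⟨b, h3, h4⟩ := norm_Q hy
  obtain ⟨c, h5, h6⟩ := norm_Q (Lam.add_mem hx hy)
  rw [add_dotProduct, dotProduct_add, dotProduct_add, dotProduct_comm y x] at h5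
  refine ⟨c - a - b, by push_cast; linarith, ?_⟩
  rw [bil, ← rd_add hx hy, ← h2, ← h4, ← h6]
  push_cast
  rw [sub_eq_add_neg, sub_eq_add_neg, ZMod.neg_eq_self_mod_two, ZMod.neg_eq_self_mod_two]

theorem dot_nonneg (x : Q8) : 0 ≤ x ⬝ᵥ x := Finset.sum_nonneg fun i _ => mul_self_nonneg (x i)

/-- roots -/
def Root (x : Q8) : Prop := x ∈ Lam ∧ x ⬝ᵥ x = 8
theorem Root.neg {x : Q8} (h : Root x) : Root (-x) := ⟨Lam.neg_mem h.1, by simpa using h.2⟩
theorem Root.map {x : Q8} (h : Root x) {A : O} (hA : A ∈ W) : Root (ap A x) :=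
  ⟨hA x h.1, (dot_ap A x x).trans h.2⟩

theorem root_dot {x y : Q8} (hx : Root x) (hy : Root y) :
    ∃ k : ℤ, x ⬝ᵥ y = 4 * k ∧ (k : ZMod 2) = bil (rd x) (rd y) ∧
      (x = y ∨ x = -y ∨ (-1 ≤ k ∧ k ≤ 1)) := by
  obtain ⟨k, h1, h2⟩ := dot_bil hx.1 hy.1
  refine ⟨k, h1, h2, ?_⟩
  by_contra hc
  push Not at hc
  have e1 : (x - y) ⬝ᵥ (x - y) = 16 - 8 * k := by
    rw [sub_dotProduct, dotProduct_sub, dotProduct_sub, dotProduct_comm y x, hx.2, hy.2, h1]; ring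
  have e2 : (x + y) ⬝ᵥ (x + y) = 16 + 8 * k := by
    rw [add_dotProduct, dotProduct_add, dotProduct_add, dotProduct_comm y x, hx.2, hy.2, h1]; ring
  have n1 := dot_nonneg (x - y)
  have n2 := dot_nonneg (x + y)
  rw [e1] at n1
  rw [e2] at n2
  have b1 : k ≤ 2 := by
    have : (k : ℚ) ≤ 2 := by linarith
    exact_mod_cast this
  have b2 : -2 ≤ k := by
    have : (-2 : ℚ) ≤ k := by linarith
    exact_mod_cast this
  have : k = 2 ∨ k = -2 := by omega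
  rcases this with rfl | rfl
  · exact hc.1 (sub_eq_zero.1 (dotProduct_self_eq_zero.1 (by rw [e1]; norm_num)))
  · exact hc.2.1 (eq_neg_of_add_eq_zero_left (dotProduct_self_eq_zero.1 (by rw [e2]; norm_num)))

theorem bil_self (v : V) : bil v v = 0 := by
  rw [bil, V_add_self, add_assoc, z2_add_self]; simp [quadFormPlus]

theorem root_eq {x y : Q8} (hx : Root x) (hy : Root y) (h : rd x = rd y) : x = y ∨ x = -y := by
  obtain ⟨k, h1, h2, h3 | h3 | h3⟩ := root_dot hx hy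
  · exact .inl h3
  · exact .inr h3
  rw [h, bil_self, ZMod.intCast_zmod_eq_zero_iff_dvd] at h2
  have : k = 0 := by omega
  subst this
  obtain ⟨u, hu, e⟩ := rd_eq hx.1 hy.1 h
  obtain ⟨m, h4, -⟩ := norm_Q hu
  have e1 : (x - y) ⬝ᵥ (x - y) = 16 := by
    rw [sub_dotProduct, dotProduct_sub, dotProduct_sub, dotProduct_comm y x, hx.2, hy.2, h1]; norm_num
  rw [e, add_sub_cancel_left, smul_dotProduct, dotProduct_smul, h4, smul_eq_mul, smul_eq_mul] at e1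
  have : (2 * m : ℚ) = 1 := by linarith
  have : 2 * m = 1 := by exact_mod_cast this
  omega

end E8
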