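import Cfsg.Agent.E8.D

/-! Generation, order and two-subgroups. -/

set_option autoImplicit false

namespace E8
open Matrix Equiv Cfsg MulAction

/-- singular vectors -/
abbrev Sg : Type := {v : V // v ≠ 0 ∧ QQ v = 0}
theorem card_Sg : Nat.card Sg = 135 := by
  rw [Nat.card_eq_fintype_card, Fintype.card_subtype]; decide +kernel
/-- the base point -/
def s0 : Sg := ⟨dv 1, by decide +kernel⟩

instance actSg : MulAction W Sg where
  smul A v := ⟨a2 (red A) v.1, fun h => v.2.1 (a2_inj _ (h.trans (a2_zero _).symm)),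
    (Q_a2 _ _).trans v.2.2⟩
  one_smul v := Subtype.ext (by show a2 (red 1) v.1 = v.1; rw [map_one, a2_one])
  mul_smul A B v := Subtype.ext (by
    show a2 (red (A * B)) v.1 = a2 (red A) (a2 (red B) v.1)
    rw [map_mul, a2_mul])
theorem smul_Sg (A : W) (v : Sg) : (A • v).1 = a2 (red A) v.1 := rfl

theorem W_dec {H : Subgroup O} (h1 : ∀ π v, Perm.sign π = 1 → Ev v → mono π v ∈ H) (h2 : tt ∈ H)
    {A : O} (hA : A ∈ W) : ∃ y ∈ Wp, y ∈ H ∧ ∃ π v, A = y * mono π v := by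
  obtain ⟨y, hy, hH, e⟩ := reach h1 h2 ((⟨A, hA⟩ : W) • s0).2.1 ((⟨A, hA⟩ : W) • s0).2.2
  obtain ⟨π, v, e'⟩ := mono_of_fix (W.mul_mem (W.inv_mem hy.1) hA) (by
    show a2 (red ((⟨y, hy.1⟩ : W)⁻¹ * ⟨A, hA⟩)) _ = _
    rw [map_mul, map_inv, a2_mul]
    exact (congrArg _ e.symm).trans (a2_inv_a2 _ _))
  exact ⟨y, hy, hH, π, v, by rw [← e', mul_inv_cancel_left]⟩

theorem Wp_ind {H : Subgroup O} (h1 : ∀ π v, Perm.sign π = 1 → Ev v → mono π v ∈ H) (h2 : tt ∈ H) :
    Wp ≤ H := fun A hA => by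
  obtain ⟨y, hy, hH, π, v, rfl⟩ := W_dec h1 h2 hA.1
  have := (Wp.mul_mem_cancel_left hy).1 hA
  exact H.mul_mem hH (h1 _ _ (sign_of_memp this) (ev_of_mem this.1))

theorem ev_dec : ∀ v : B8, Ev v → v = ∑ i, if v i = 0 then 0 else bb i + bb 0 := by
  unfold Ev; decide +kernel
theorem ev_ind {p : B8 → Prop} (h0 : p 0) (h1 : ∀ a b, p a → p b → p (a + b))
    (h2 : ∀ i j, i ≠ j → p (bb i + bb j)) {v : B8} (hv : Ev v) : p v := by
  rw [ev_dec v hv]
  refine Finset.sum_induction _ p h1 h0 fun i _ => ?_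
  split_ifs
  · exact h0
  by_cases h : i = 0
  · rw [h, b8_add_self]; exact h0
  · exact h2 _ _ h

theorem exists_two : ∀ i j : Fin 8, i ≠ j → ∃ π : S8, π 0 = i ∧ π 1 = j := fun i j h =>
  ⟨swap (swap 0 i 1) j * swap 0 i, by revert i j; decide⟩

theorem W_ind {H : Subgroup O} (h1 : pm (swap 0 1) ∈ H) (h2 : pm (finRotate 8) ∈ H)
    (h3 : sg (bb 0 + bb 1) ∈ H) (h4 : rh ∈ H) : W ≤ H := by
  have a1 : ∀ π, pm π ∈ H := fun π => by
    have : (⊤ : Subgroup S8) ≤ H.comap pmHom := by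
      rw [← Perm.closure_cycle_adjacent_swap (isCycle_finRotate (n := 6)) support_finRotate 0,
        Subgroup.closure_le]
      rintro _ (rfl | rfl)
      exacts [h2, h1]
    exact this (Subgroup.mem_top π)
  have a2 : ∀ v, Ev v → sg v ∈ H := fun v hv =>
    ev_ind (p := fun v => sg v ∈ H) (by rw [sg_zero]; exact H.one_mem)
      (fun a b ha hb => by rw [sg_add]; exact H.mul_mem ha hb) (fun i j h => by
        obtain ⟨π, rfl, rfl⟩ := exists_two i j h
        rw [← pa_bb, ← pa_bb, ← pa_add, ← pm_conj_sg]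
        exact H.mul_mem (H.mul_mem (a1 π) h3) (H.inv_mem (a1 π))) hv
  have a3 : ∀ π v, Ev v → mono π v ∈ H := fun π v hv => by
    rw [mono_eq]; exact H.mul_mem (a2 v hv) (a1 π)
  intro A hA
  obtain ⟨y, hy, hH, π, v, rfl⟩ := W_dec (fun π v _ => a3 π v)
    (H.mul_mem h4 (a3 _ _ (ev_pair 0 1))) hA
  exact H.mul_mem hH (a3 _ _ (ev_of_mem ((W.mul_mem_cancel_left hy.1).1 hA)))

theorem conj_mon {Y : Subgroup O} (hW : Y ≤ W) (hY : IsPGroup 2 Y) :
    ∃ b ∈ Wp, ∀ y ∈ Y, ∃ π v, b⁻¹ * y * b = mono π v := by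
  letI : MulAction Y Sg := MulAction.compHom Sg (Subgroup.inclusion hW)
  obtain ⟨v, hv⟩ := hY.nonempty_fixed_point_of_prime_not_dvd_card Sg (by rw [card_Sg]; norm_num)
  obtain ⟨b, hb, -, e⟩ := reach (H := ⊤) (fun _ _ _ _ => trivial) trivial v.2.1 v.2.2
  refine ⟨b, hb, fun y hy => mono_of_fix
    (W.mul_mem (W.mul_mem (W.inv_mem hb.1) (hW hy)) hb.1) ?_⟩
  show a2 (red ((⟨b, hb.1⟩ : W)⁻¹ * ⟨y, hW hy⟩ * ⟨b, hb.1⟩)) _ = _
  have : a2 (red ⟨y, hW hy⟩) v.1 = v.1 := congrArg Subtype.val (hv ⟨y, hy⟩)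
  rw [map_mul, map_mul, map_inv, a2_mul, a2_mul, e, this, ← e, a2_inv_a2]

instance decEv (v : B8) : Decidable (Ev v) := by unfold Ev; infer_instance
theorem card_ev : Nat.card {v : B8 // Ev v} = 128 := by
  rw [Nat.card_eq_fintype_card, Fintype.card_subtype]; decide +kernel

theorem card_Wp : Nat.card Wp = 348364800 := by
  letI : MulAction Wp Sg := MulAction.compHom Sg (Subgroup.inclusion (inf_le_left : Wp ≤ W))
  have ht : IsPretransitive Wp Sg := IsPretransitive.of_orbit (x₀ := s0) fun v => by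
    obtain ⟨b, hb, -, e⟩ := reach (H := ⊤) (fun _ _ _ _ => trivial) trivial v.2.1 v.2.2
    exact ⟨⟨b, hb⟩, Subtype.ext e⟩
  have h1 := index_stabilizer_of_transitive Wp s0
  have h2 : Nat.card ({v : B8 // Ev v} × alternatingGroup (Fin 8)) = Nat.card (stabilizer Wp s0) :=
    Nat.card_eq_of_bijective (fun x => ⟨⟨mono x.2.1 x.1.1, mono_memp x.2.2 x.1.2⟩,
      Subtype.ext (fix_mono (mono_mem x.1.2))⟩) ⟨fun x y e => by
        obtain ⟨e1, e2⟩ := mono_inj (congrArg (fun z => z.1.1) e)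
        exact Prod.ext (Subtype.ext e2) (Subtype.ext e1), by
        rintro ⟨⟨A, hA⟩, h⟩
        obtain ⟨π, v, rfl⟩ := mono_of_fix hA.1 (congrArg Subtype.val h)
        exact ⟨(⟨v, ev_of_mem hA.1⟩, ⟨π, sign_of_memp hA⟩), rfl⟩⟩
  rw [Nat.card_prod, card_ev, nat_card_alternatingGroup, Nat.card_eq_fintype_card,
    Fintype.card_fin] at h2
  rw [← (stabilizer Wp s0).index_mul_card, h1, card_Sg, ← h2]
  decide

instance finWp : Finite Wp := Nat.finite_of_card_ne_zero (by rw [card_Wp]; norm_num)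

theorem dt_rh : dt rh = -1 := by
  have : dt (rh * r01) = 1 := tt_memp.2
  rw [map_mul, dt_r01] at this
  linarith

/-- the standard pairing -/
def om : S8 := swap 0 1 * swap 2 3 * (swap 4 5 * swap 6 7)

theorem om_om : ∀ j, om (om j) = j := by decide
theorem om_ne : ∀ j, om j ≠ j := by decide

theorem conj_om {ω : S8} (h1 : ω * ω = 1) (h2 : ∀ i, ω i ≠ i) :
    ∃ σ : S8, Perm.sign σ = 1 ∧ ∀ i, ω (σ i) = σ (om i) := by
  have key : ∀ ω : S8, ω * ω = 1 → (∀ i, ω i ≠ i) → ω.cycleType = Multiset.replicate 4 2 := by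
    intro ω h1 h2
    haveI : Fact (Nat.Prime 2) := ⟨Nat.prime_two⟩
    have a := Perm.cycleType_of_pow_prime_eq_one (p := 2) (σ := ω) (by rw [pow_two, h1])
    have b := ω.sum_cycleType
    rw [a, Multiset.sum_replicate, Finset.eq_univ_iff_forall.2 fun i => Perm.mem_support.2 (h2 i),
      Finset.card_univ, Fintype.card_fin, smul_eq_mul] at b
    rw [a, show ω.cycleType.card = 4 by omega]
  obtain ⟨σ, e⟩ := isConj_iff.1 (Perm.isConj_iff_cycleType_eq.2
    ((key om (by decide) (by decide)).trans (key ω h1 h2).symm))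
  have e1 : ∀ i, ω (σ i) = σ (om i) := fun i => by rw [← e]; simp
  rcases Int.units_eq_one_or (Perm.sign σ) with s | s
  · exact ⟨σ, s, e1⟩
  · refine ⟨σ * swap 0 1, by rw [Perm.sign_mul, s, Perm.sign_swap (by decide)]; simp, fun i => ?_⟩
    rw [Perm.mul_apply, Perm.mul_apply, e1]
    congr 1
    revert i; decide

theorem pm_conj_mono (σ π : S8) (v : B8) :
    (pm σ)⁻¹ * mono π v * pm σ = mono (σ⁻¹ * π * σ) (pa σ⁻¹ v) := by
  rw [← pm_inv, pm, pm, mono_mul, mono_mul, pa_zero, add_zero, zero_add]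

theorem mono_eq_fs {π : S8} {v : B8} (h1 : ∀ i, π i = i ∨ π i = om i) (h2 : ∀ i, v (om i) = v i) :
    ∃ u, mono π v = fs u := by
  have key : ∀ i : Fin 8, ∀ x : Q8, ap (fs (bb i)) x = x - ((Mm *ᵥ x) i) • (Mm *ᵥ ee i) := by
    intro i x
    rw [fs, ap_tau]
    have : ap (sg (bb i)) (Mm *ᵥ x) = Mm *ᵥ x - (2 * (Mm *ᵥ x) i) • ee i := funext fun j => by
      rw [ap_sg, bb_apply, Pi.sub_apply, Pi.smul_apply, ee_apply]
      split_ifs with h
      · rw [h, sn_one, smul_eq_mul]; ring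
      · rw [sn_zero]; simp
    rw [this, mulVec_sub, Mm_Mm, mulVec_smul, smul_sub, smul_smul, smul_smul]
    congr 1
    · simp
    · congr 1; ring
  have k2 : ∀ i, ap (mono π v) (Mm *ᵥ ee i) = Mm *ᵥ ee i ∨ ap (mono π v) (Mm *ᵥ ee i) = -(Mm *ᵥ ee i) := by
    intro i
    obtain ⟨j, c, hc, e⟩ : ∃ (j : Fin 8) (c : ℚ), c * c = 1 ∧ Mm *ᵥ ee i = ee j + c • ee (om j) := by
      refine ⟨⟨i.1 / 2 * 2, by omega⟩, if i.1 % 2 = 1 then -1 else 1, by split_ifs <;> norm_num, ?_⟩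
      revert i; decide +kernel
    have oo := om_om j
    have on := om_ne j
    rw [e, ap_add, ap_smul, ap_mono_ee, ap_mono_ee]
    rcases h1 j with a | a
    · have b : π (om j) = om j := by
        rcases h1 (om j) with b | b
        · exact b
        · rw [oo] at b; exact absurd (π.injective (b.trans a.symm)) on
      rw [a, b, h2]
      rcases z2 (v j) with s | s <;> rw [s]
      · left; simp [sn_zero]
      · right; simp [sn_one]; abel
    · have b : π (om j) = j := by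
        rcases h1 (om j) with b | b
        · exact absurd (π.injective (b.trans a.symm)) on
        · rw [b, oo]
      rw [a, b, h2]
      rcases z2 (v j) with s | s <;> rw [s] <;> rcases mul_self_eq_one_iff.1 hc with rfl | rfl
      · left; simp [sn_zero]; abel
      · right; simp [sn_zero]
      · right; simp [sn_one]
      · left; simp [sn_one]; abel
  refine fs_of_comm (U := Set.range bb) (fun i j h => ⟨_, ⟨i, rfl⟩, by simp [bb_apply, h.symm]⟩) ?_
  rintro _ ⟨i, rfl⟩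
  refine O_ext fun x => ?_
  have d : ∀ y : Q8, (Mm *ᵥ y) i = y ⬝ᵥ (Mm *ᵥ ee i) := fun y => by
    rw [dotProduct_mulVec, ← mulVec_transpose, Mm_tr, dot_ee]
  rw [ap_mul, ap_mul, key, key, ap_sub, ap_smul, d, d x]
  rcases k2 i with e | e
  · rw [← dot_ap (mono π v) x, e]
  · rw [← dot_ap (mono π v) x, e]; simp

end E8
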