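import Cfsg.Agent.E8.E

/-! Involutions, square roots of minus one and large elementary abelian subgroups. -/

set_option autoImplicit false

namespace E8
open Matrix Equiv Cfsg MulAction

theorem pg_of_four {A : O} (h : A * A * (A * A) = 1) : IsPGroup 2 (Subgroup.zpowers A) := by
  rintro ⟨_, k, rfl⟩
  refine ⟨2, Subtype.ext ?_⟩
  have : A ^ 4 = 1 := by rw [← h]; simp only [pow_succ, pow_zero, one_mul, mul_assoc]
  show (A ^ k) ^ (2 ^ 2) = 1
  rw [← zpow_natCast, ← _root_.zpow_mul, mul_comm, _root_.zpow_mul, zpow_natCast,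
    show 2 ^ 2 = 4 from rfl, this, _root_.one_zpow]

theorem conj_mon1 {A : O} (hA : A ∈ W) (h : A * A * (A * A) = 1) :
    ∃ b ∈ Wp, ∃ π v, Ev v ∧ b⁻¹ * A * b = mono π v := by
  obtain ⟨b, hb, e⟩ := conj_mon (by rwa [Subgroup.zpowers_le]) (pg_of_four h)
  obtain ⟨π, v, e'⟩ := e A (Subgroup.mem_zpowers A)
  exact ⟨b, hb, π, v, ev_of_mem (π := π)
    (e' ▸ W.mul_mem (W.mul_mem (W.inv_mem hb.1) hA) hb.1), e'⟩

theorem conj_std {ω : S8} (h1 : ω * ω = 1) (h2 : ∀ i, ω i ≠ i) : ∃ σ : S8, Perm.sign σ = 1 ∧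
    ∀ π v, (∀ i, π i = i ∨ π i = ω i) → (∀ i, v (ω i) = v i) →
      ∃ u, (pm σ)⁻¹ * mono π v * pm σ = fs u := by
  obtain ⟨σ, hs, e⟩ := conj_om h1 h2
  refine ⟨σ, hs, fun π v a b => ?_⟩
  rw [pm_conj_mono]
  refine mono_eq_fs (fun i => ?_) fun i => ?_
  · simp only [Perm.mul_apply, Perm.inv_eq_iff_eq, ← e]
    exact a _
  · simp only [pa_apply, inv_inv, ← e, b]

/-- pairing the points of an even set -/
def prt (w : B8) (i : Fin 8) : Fin 8 :=
  ((List.finRange 8).filter (w · = 1)).getD (((List.finRange 8).filter (w · = 1)).idxOf i ^^^ 1) i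
theorem prt_spec : ∀ w : B8, Ev w → ∀ i, w i = 1 →
    w (prt w i) = 1 ∧ prt w i ≠ i ∧ prt w (prt w i) = i := by decide +kernel

theorem ev_of_inv {π : S8} (h : π * π = 1) {u : B8} (h1 : ∀ i, u (π i) = u i)
    (h2 : ∀ i, π i = i → u i = 0) : Ev u :=
  Finset.sum_involution (fun i _ => π i) (fun i _ => by rw [h1, z2_add_self])
    (fun i _ a b => a (h2 i b)) (fun _ _ => Finset.mem_univ _)
    fun i _ => by rw [← Perm.mul_apply, h]; rfl

theorem mono_sq {π : S8} {v w : B8} (h : mono π v * mono π v = sg w) :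
    π * π = 1 ∧ ∀ i, v (π i) + v i = w (π i) := by
  rw [mono_mul] at h
  obtain ⟨a, b⟩ := mono_inj h
  exact ⟨a, fun i => by rw [← b, Pi.add_apply, pa_apply']⟩

theorem inv_class {A : O} (hA : A ∈ W) (h : A * A = 1) : ∃ b ∈ Wp, ∃ u, b⁻¹ * A * b = fs u := by
  obtain ⟨b, hb, π, v, hv, e⟩ := conj_mon1 hA (by rw [h, one_mul])
  obtain ⟨p2, p3⟩ := mono_sq (π := π) (v := v) (w := 0) (by
    rw [← e, sg_zero]
    calc _ = b⁻¹ * (A * A) * b := by group
      _ = 1 := by rw [h]; group)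
  have pp : ∀ i, π (π i) = i := fun i => by rw [← Perm.mul_apply, p2]; rfl
  have p4 : ∀ i, v (π i) = v i := fun i => z2_eq (p3 i)
  have fx : ∀ i, π (π i) = π i ↔ π i = i := fun i => π.injective.eq_iff
  let w2 : B8 := v + fun i => if π i = i then 0 else v i
  let w1 : B8 := w2 + (1 + fun i => if π i = i then 0 else 1)
  have e2 : Ev w2 := hv.add (ev_of_inv p2 (fun i => by simp only [fx, p4]) fun i hi => if_pos hi)
  have e1 : Ev w1 := e2.add (ev_one.add
    (ev_of_inv p2 (fun i => by simp only [fx]) fun i hi => if_pos hi))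
  have m2 : ∀ i, w2 i = 1 ↔ π i = i ∧ v i = 1 := fun i => by
    by_cases hi : π i = i <;> simp [w2, hi, z2_add_self]
  have m1 : ∀ i, w1 i = 1 ↔ π i = i ∧ v i = 0 := fun i => by
    by_cases hi : π i = i <;> simp [w1, w2, hi, z2_add_self]
  let f : Fin 8 → Fin 8 := fun i => if π i = i then (if v i = 0 then prt w1 i else prt w2 i) else π i
  have hf : ∀ i, f (f i) = i ∧ f i ≠ i ∧ (π i = i ∨ π i = f i) ∧ v (f i) = v i := fun i => by
    by_cases hi : π i = i
    · by_cases hv : v i = 0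
      · obtain ⟨a, b, c⟩ := prt_spec w1 e1 i ((m1 i).2 ⟨hi, hv⟩)
        have d := (m1 _).1 a
        have : f i = prt w1 i := by simp [f, hi, hv]
        rw [this]
        exact ⟨by simp [f, d.1, d.2, c], b, .inl hi, by rw [d.2, hv]⟩
      · have hv' := (z2 (v i)).resolve_left hv
        obtain ⟨a, b, c⟩ := prt_spec w2 e2 i ((m2 i).2 ⟨hi, hv'⟩)
        have d := (m2 _).1 a
        have : f i = prt w2 i := by simp [f, hi, hv]
        rw [this]
        exact ⟨by simp [f, d.1, d.2, c], b, .inl hi, by rw [d.2, hv']⟩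
    · have : f i = π i := by simp [f, hi]
      rw [this]
      exact ⟨by simp [f, pp, Ne.symm hi], hi, .inr rfl, p4 i⟩
  obtain ⟨σ, hs, k⟩ := conj_std (ω := Function.Involutive.toPerm f fun i => (hf i).1)
    (Equiv.ext fun i => (hf i).1) fun i => (hf i).2.1
  obtain ⟨u, hu⟩ := k π v (fun i => (hf i).2.2.1) fun i => (hf i).2.2.2
  exact ⟨b * pm σ, Wp.mul_mem hb (pm_memp hs), u, by rw [← hu, ← e]; group⟩

/-- the signs of the standard square root of minus one -/
def v0 : B8 := bb 0 + bb 2 + (bb 4 + bb 6)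
/-- the standard square root of minus one -/
def l0 : O := mono om v0
theorem l0_memp : l0 ∈ Wp := mono_memp (by decide) ((ev_pair _ _).add (ev_pair _ _))
theorem l0_sq : l0 * l0 = ng := by
  rw [l0, mono_mul, ng, sg]; congr 1 <;> decide
/-- a correction -/
def cor (v : B8) : S8 := (if v 0 = 0 then swap 0 1 else 1) * (if v 2 = 0 then swap 2 3 else 1) *
  ((if v 4 = 0 then swap 4 5 else 1) * (if v 6 = 0 then swap 6 7 else 1))
theorem cor_spec : ∀ v : B8, (∀ i, v (om i) + v i = 1) →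
    (cor v)⁻¹ * om * cor v = om ∧ pa (cor v)⁻¹ v = v0 := by decide +kernel

theorem sqrt_class {A : O} (hA : A ∈ W) (h : A * A = ng) : ∃ b ∈ W, b⁻¹ * A * b = l0 := by
  obtain ⟨b, hb, π, v, hv, e⟩ := conj_mon1 hA (by rw [h, ng_mul_self])
  obtain ⟨p2, p3⟩ := mono_sq (π := π) (v := v) (w := 1) (by
    rw [← e, ← ng]
    calc _ = b⁻¹ * (A * A) * b⁻¹⁻¹ := by group
      _ = ng := by rw [h, conj_ng])
  obtain ⟨σ, -, k⟩ := conj_om p2 fun i hi => by
    have := p3 i
    rw [hi, z2_add_self] at this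
    exact absurd this (by simp)
  have k1 : σ⁻¹ * π * σ = om := Equiv.ext fun i => by simp [k]
  obtain ⟨a, c⟩ := cor_spec (pa σ⁻¹ v) fun i => by
    simp only [pa_apply, inv_inv, ← k]; exact p3 _
  refine ⟨b * pm σ * pm (cor (pa σ⁻¹ v)), W.mul_mem (W.mul_mem hb.1 (pm_mem _)) (pm_mem _), ?_⟩
  have := pm_conj_mono (cor (pa σ⁻¹ v)) om (pa σ⁻¹ v)
  rw [a, c, ← l0] at this
  rw [← this]
  conv_rhs => rw [← k1]
  rw [← pm_conj_mono, ← e]; group

theorem dt_of_sq_ng {A : O} (hA : A ∈ W) (h : A * A = ng) : A ∈ Wp := by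
  obtain ⟨b, hb, e⟩ := sqrt_class hA h
  have := Wp.conj hb l0_memp
  rwa [← e, show b * (b⁻¹ * A * b) * b⁻¹ = A by group] at this

instance actQ8 : MulAction O Q8 where
  smul := ap
  one_smul := ap_one
  mul_smul := ap_mul

/-- pointwise stabilisers of basis vectors -/
def Fx (S : Finset (Fin 8)) : Subgroup O where
  carrier := {A | ∀ i ∈ S, ap A (ee i) = ee i}
  one_mem' := fun _ _ => ap_one _
  mul_mem' := fun ha hb i hi => by rw [ap_mul, hb i hi, ha i hi]
  inv_mem' := fun {A} ha i hi => by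
    conv_lhs => rw [← ha i hi]
    exact ap_inv_ap _ _

theorem mono_fx {π : S8} {v : B8} {i : Fin 8} (h : ap (mono π v) (ee i) = ee i) :
    π i = i ∧ v i = 0 := by
  rw [ap_mono_ee] at h
  have h1 := congrFun h (π i)
  rw [Pi.smul_apply, ee_self, smul_eq_mul, mul_one] at h1
  have h2 : π i = i := by
    by_contra hc
    rw [ee_ne hc] at h1
    exact sn_ne _ h1
  rw [h2, ee_self] at h1
  exact ⟨h2, sn_inj (h1.trans sn_zero.symm)⟩

/-- elementary abelian groups of even monomial matrices -/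
structure EA (E : Subgroup O) : Prop where
  sq : ∀ e ∈ E, e * e = 1
  mon : ∀ e ∈ E, ∃ π v, Perm.sign π = 1 ∧ Ev v ∧ e = mono π v
  fin : Finite E

theorem comm_of_sq {E : Subgroup O} (hE : ∀ e ∈ E, e * e = 1) {a b : O}
    (ha : a ∈ E) (hb : b ∈ E) : a * b = b * a := by
  have h1 := hE _ (E.mul_mem ha hb)
  have h2 := inv_eq_of_mul_eq_one_right (hE a ha)
  have h3 := inv_eq_of_mul_eq_one_right (hE b hb)
  rw [← inv_eq_of_mul_eq_one_right h1, _root_.mul_inv_rev, h2, h3]

open Classical in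
/-- orbits on coordinates -/
noncomputable def orb (E : Subgroup O) (i : Fin 8) : Finset (Fin 8) :=
  Finset.univ.filter fun j => ∃ π v, mono π v ∈ E ∧ π i = j

variable {E : Subgroup O}

theorem mem_orb {i j : Fin 8} : j ∈ orb E i ↔ ∃ π v, mono π v ∈ E ∧ π i = j := by simp [orb]
theorem self_orb (i : Fin 8) : i ∈ orb E i := mem_orb.2 ⟨1, 0, mono_one ▸ E.one_mem, rfl⟩
theorem orb_trans {i j k : Fin 8} (h : j ∈ orb E i) (h' : k ∈ orb E j) : k ∈ orb E i := by
  obtain ⟨π, v, a, rfl⟩ := mem_orb.1 h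
  obtain ⟨ρ, w, b, rfl⟩ := mem_orb.1 h'
  exact mem_orb.2 ⟨ρ * π, _, mono_mul ρ π w v ▸ E.mul_mem b a, rfl⟩
theorem orb_symm {i j : Fin 8} (h : j ∈ orb E i) : i ∈ orb E j := by
  obtain ⟨π, v, a, rfl⟩ := mem_orb.1 h
  exact mem_orb.2 ⟨π⁻¹, _, mono_inv π v ▸ E.inv_mem a, by simp⟩
theorem orb_eq {i j : Fin 8} (h : j ∈ orb E i) : orb E j = orb E i :=
  Finset.ext fun _ => ⟨orb_trans h, orb_trans (orb_symm h)⟩

theorem EA.comm (h : EA E) {π ρ : S8} {v w : B8} (a : mono π v ∈ E) (b : mono ρ w ∈ E) :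
    π * ρ = ρ * π ∧ v + pa π w = w + pa ρ v := by
  have := comm_of_sq h.sq a b
  rw [mono_mul, mono_mul] at this
  exact mono_inj this

theorem EA.step (h : EA E) {D : Subgroup O} (hD : D ≤ E) (i : Fin 8) :
    Nat.card D ≤ 2 * (orb E i).card * Nat.card ↥(D ⊓ Fx (orb E i)) := by
  haveI := h.fin
  haveI : Finite D := Finite.of_injective _ (Subgroup.inclusion_injective hD)
  have h1 : stabilizer D (ee i) = (Fx (orb E i)).subgroupOf D := by
    ext e
    refine ⟨fun he j hj => ?_, fun he => he i (self_orb i)⟩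
    obtain ⟨π, v, a, rfl⟩ := mem_orb.1 hj
    have he' : ap e.1 (ee i) = ee i := he
    have := congrArg (fun A => ap A (ee i)) (comm_of_sq h.sq (hD e.2) a)
    simp only [ap_mul, he', ap_mono_ee, ap_smul] at this
    exact smul_right_injective _ (sn_ne _) this
  have h2 : orbit D (ee i) ⊆ (fun x : ZMod 2 × Fin 8 => sn x.1 • ee x.2) ''
      ((Finset.univ ×ˢ orb E i : Finset (ZMod 2 × Fin 8)) : Set (ZMod 2 × Fin 8)) := by
    rintro _ ⟨e, rfl⟩
    obtain ⟨π, v, -, -, a⟩ := h.mon _ (hD e.2)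
    refine ⟨(v (π i), π i), by simpa using mem_orb.2 ⟨π, v, a ▸ hD e.2, rfl⟩, ?_⟩
    show _ = ap e.1 (ee i)
    rw [a, ap_mono_ee]
  have h3 := (Set.ncard_le_ncard h2 ((Finset.finite_toSet _).image _)).trans
    (Set.ncard_image_le (Finset.finite_toSet _))
  rw [Set.ncard_coe_finset, Finset.card_product, Finset.card_univ, ZMod.card] at h3
  replace h3 := (index_stabilizer D (ee i)).trans_le h3
  rw [← (stabilizer D (ee i)).index_mul_card]
  refine Nat.mul_le_mul h3 (le_of_eq ?_)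
  rw [h1, ← Subgroup.inf_subgroupOf_left]
  exact Nat.card_congr (Subgroup.subgroupOfEquivOfLe inf_le_left).toEquiv

theorem Fx_union (S T : Finset (Fin 8)) : Fx (S ∪ T) = Fx S ⊓ Fx T := by
  ext A
  exact ⟨fun h => ⟨fun i hi => h i (Finset.mem_union_left _ hi),
    fun i hi => h i (Finset.mem_union_right _ hi)⟩,
    fun h i hi => (Finset.mem_union.1 hi).elim (h.1 i) (h.2 i)⟩

theorem EA.bound (h : EA E) (n : ℕ) : ∀ S : Finset (Fin 8), S.card = n →
    (∀ i ∈ S, orb E i ⊆ S) → ∀ D ≤ E, Nat.card D ≤ 2 ^ n * Nat.card ↥(D ⊓ Fx S) := by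
  induction n using Nat.strong_induction_on with
  | _ n ih =>
  intro S hS hI D hD
  rcases S.eq_empty_or_nonempty with rfl | ⟨i, hi⟩
  · rw [show D ⊓ Fx ∅ = D from inf_eq_left.2 fun _ _ _ h => absurd h (Finset.notMem_empty _)]
    exact Nat.le_mul_of_pos_left _ (by positivity)
  have c1 : 0 < (orb E i).card := Finset.card_pos.2 ⟨i, self_orb i⟩
  have c2 := Finset.card_sdiff_add_card_eq_card (hI i hi)
  have h1 := ih (S \ orb E i).card (by omega) _ rfl (fun j hj k hk => by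
    rw [Finset.mem_sdiff] at hj ⊢
    exact ⟨hI j hj.1 hk, fun a => hj.2 (orb_trans a (orb_symm hk))⟩) (D ⊓ Fx (orb E i))
    (inf_le_left.trans hD)
  rw [inf_assoc, ← Fx_union, Finset.union_sdiff_of_subset (hI i hi)] at h1
  have c3 : 2 * (orb E i).card ≤ 2 ^ (orb E i).card := Nat.mul_le_pow (by norm_num) _
  calc _ ≤ _ := h.step hD i
    _ ≤ 2 ^ (orb E i).card * (2 ^ (S \ orb E i).card * _) := Nat.mul_le_mul c3 h1
    _ = _ := by rw [← mul_assoc, ← pow_add, add_comm, c2, hS]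

theorem card_Fx_univ (D : Subgroup O) : Nat.card ↥(D ⊓ Fx Finset.univ) = 1 := by
  rw [Subgroup.card_eq_one, eq_bot_iff]
  exact fun A hA => O_ext_ee fun i => (hA.2 i (Finset.mem_univ i)).trans (ap_one _).symm

theorem EA.small (h : EA E) {i j k : Fin 8} (hjk : j ≠ k) (ho : orb E j = {j, k}) {π : S8} {v : B8}
    (a : mono π v ∈ E) (h1 : π i = i) (h2 : ∀ l, l ≠ i → l ≠ j → l ≠ k → π l = l ∧ v l = 0)
    (hij : i ≠ j) (hik : i ≠ k) : mono π v = 1 ∨ mono π v = sg (bb j + bb k) := by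
  obtain ⟨π', v', s, hv, e⟩ := h.mon _ a
  obtain ⟨rfl, rfl⟩ := mono_inj e
  have p1 : π = 1 := by
    have b : π j = j ∨ π j = k := by
      simpa [ho] using (mem_orb.2 ⟨π, v, a, rfl⟩ : π j ∈ orb E j)
    have c : π k = j ∨ π k = k := by
      simpa [ho] using orb_trans (show k ∈ orb E j by simp [ho])
        (mem_orb.2 ⟨π, v, a, rfl⟩ : π k ∈ orb E k)
    have d : ∀ l, l ≠ j → l ≠ k → π l = l := fun l b c => by
      by_cases hl : l = i
      · rw [hl, h1]
      · exact (h2 l hl b c).1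
    rcases b with b | b
    · have c' : π k = k := c.resolve_left fun c => hjk (π.injective (b.trans c.symm))
      ext l
      by_cases a1 : l = j
      · rw [a1, b]; rfl
      by_cases a2 : l = k
      · rw [a2, c']; rfl
      · rw [d l a1 a2]; rfl
    · have c' : π k = j := c.resolve_right fun c => hjk (π.injective (b.trans c.symm))
      have : π = swap j k := by
        ext l
        by_cases a1 : l = j
        · rw [a1, b, swap_apply_left]
        by_cases a2 : l = k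
        · rw [a2, c', swap_apply_right]
        · rw [d l a1 a2, swap_apply_of_ne_of_ne a1 a2]
      rw [this, Perm.sign_swap hjk] at s
      exact absurd s (by decide)
  subst p1
  obtain ⟨ρ, w, b, c⟩ := mem_orb.1 (show k ∈ orb E j by simp [ho])
  have e1 := congrFun (h.comm a b).2 (ρ j)
  rw [pa_one, Pi.add_apply, Pi.add_apply, pa_apply', c, add_comm (w k)] at e1
  have e2 : v k = v j := add_right_cancel e1
  have e3 : v = v i • bb i + v j • (bb j + bb k) := funext fun l => by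
    by_cases a0 : l = i
    · simp [a0, bb_apply, hij, hik]
    by_cases a1 : l = j
    · simp [a1, bb_apply, hij.symm, hjk]
    by_cases a2 : l = k
    · simp [a2, bb_apply, hik.symm, hjk.symm, e2]
    · simp [bb_apply, a0, a1, a2, (h2 l a0 a1 a2).2]
  have e4 : v i = 0 := by
    have := hv
    rw [Ev, e3] at this
    simpa only [Pi.add_apply, Pi.smul_apply, Finset.sum_add_distrib, ← Finset.smul_sum, sum_bb,
      z2_add_self, smul_eq_mul, mul_one, mul_zero, add_zero, ← Finset.mul_sum] using this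
  rw [e4, zero_smul, zero_add] at e3
  rcases z2 (v j) with e5 | e5 <;> rw [e5] at e3
  · left; rw [e3, zero_smul, mono_one]
  · right; rw [e3, one_smul, sg]

theorem card_le_two {D : Subgroup O} {x : O} (h : ∀ e ∈ D, e = 1 ∨ e = x) : Nat.card D ≤ 2 :=
  (Set.ncard_le_ncard (t := {1, x}) h (Set.toFinite _)).trans (by
    refine (Set.ncard_insert_le _ _).trans ?_
    rw [Set.ncard_singleton])

theorem EA.ne_three (h : EA E) (i : Fin 8) : (orb E i).card ≠ 3 := by
  intro hc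
  have c := Finset.card_erase_of_mem (self_orb (E := E) i)
  obtain ⟨j, k, hjk, e⟩ := Finset.card_eq_two.1 (c.trans (by rw [hc]))
  have m : ∀ l, l ∈ orb E i → l = i ∨ l = j ∨ l = k := fun l hl => by
    by_cases a : l = i
    · exact .inl a
    · right; simpa [e] using Finset.mem_erase.2 ⟨a, hl⟩
  have mj := Finset.mem_erase.1 (show j ∈ (orb E i).erase i by simp [e])
  have mk := Finset.mem_erase.1 (show k ∈ (orb E i).erase i by simp [e])
  obtain ⟨π, v, a, rfl⟩ := mem_orb.1 mj.2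
  obtain ⟨ρ, w, b, rfl⟩ := mem_orb.1 mk.2
  have cm : π (ρ i) = ρ (π i) := by rw [← Perm.mul_apply, (h.comm a b).1]; rfl
  have sq : π (π i) = i := by
    rw [← Perm.mul_apply, (mono_sq (w := 0) ((h.sq _ a).trans sg_zero.symm)).1]; rfl
  rcases m _ (orb_trans mk.2 (mem_orb.2 ⟨π, v, a, rfl⟩)) with c | c | c
  · exact hjk (π.injective (sq.trans c.symm))
  · exact mk.1 (π.injective c)
  · exact mj.1 (ρ.injective (cm.symm.trans c))

theorem EA.last (h : EA E) {T : Finset (Fin 8)} (hT : T.Nonempty) (hT' : T.card < 8)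
    (hI : ∀ i ∈ T, orb E i ⊆ T) {D : Subgroup O} (hD : D ≤ E ⊓ Fx Tᶜ) :
    2 * Nat.card D ≤ 2 ^ T.card := by
  obtain ⟨j, hj⟩ := hT
  have c2 := Finset.card_sdiff_add_card_eq_card (hI j hj)
  have h1 := h.bound _ (T \ orb E j) rfl (fun j' hj k hk => by
    rw [Finset.mem_sdiff] at hj ⊢
    exact ⟨hI j' hj.1 hk, fun a => hj.2 (orb_trans a (orb_symm hk))⟩) D (hD.trans inf_le_left)
  have f : ∀ e ∈ D ⊓ Fx (T \ orb E j), ∀ l, l ∉ orb E j → ap e (ee l) = ee l := fun e he l hl => by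
    by_cases a : l ∈ T
    · exact he.2 l (Finset.mem_sdiff.2 ⟨a, hl⟩)
    · exact (hD he.1).2 l (Finset.mem_compl.2 a)
  have h2 : 2 * Nat.card ↥(D ⊓ Fx (T \ orb E j)) ≤ 2 ^ (orb E j).card := by
    have c1 : 0 < (orb E j).card := Finset.card_pos.2 ⟨j, self_orb j⟩
    have c3 := h.ne_three j
    obtain c | c | c : (orb E j).card = 1 ∨ (orb E j).card = 2 ∨ 4 ≤ (orb E j).card := by omega
    · obtain ⟨a, ha⟩ := Finset.card_eq_one.1 c
      obtain rfl : j = a := by simpa [ha] using self_orb (E := E) j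
      suffices b : D ⊓ Fx (T \ orb E j) = ⊥ by rw [c, b]; simp
      refine eq_bot_iff.2 fun e he => ?_
      obtain ⟨π, v, -, hv, rfl⟩ := h.mon e (hD he.1).1
      have g : ∀ l, l ≠ j → π l = l ∧ v l = 0 := fun l hl => mono_fx (f _ he l (by simp [ha, hl]))
      have g1 : π j = j := by
        simpa [ha] using (mem_orb.2 ⟨π, v, (hD he.1).1, rfl⟩ : π j ∈ orb E j)
      rw [Ev, Finset.sum_eq_single j (fun l _ hl => (g l hl).2) (by simp)] at hv
      have g2 : π = 1 := Equiv.ext fun l => by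
        by_cases a : l = j
        · rw [a, g1]; rfl
        · exact (g l a).1
      have g3 : v = 0 := funext fun l => by
        by_cases a : l = j
        · rw [a, hv]; rfl
        · exact (g l a).2
      rw [g2, g3, mono_one]; exact Subgroup.one_mem _
    · have c' := Finset.card_erase_of_mem (self_orb (E := E) j)
      obtain ⟨k, hk⟩ := Finset.card_eq_one.1 (c'.trans (by rw [c]))
      have mk := Finset.mem_erase.1 (show k ∈ (orb E j).erase j by simp [hk])
      have ho : orb E j = {j, k} := by rw [← Finset.insert_erase (self_orb (E := E) j), hk]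
      obtain ⟨i, hi1, hi2⟩ := third j k
      rw [c]
      refine Nat.mul_le_mul_left 2 (card_le_two (x := sg (bb j + bb k)) fun e he => ?_)
      obtain ⟨π, v, -, hv, rfl⟩ := h.mon e (hD he.1).1
      exact h.small mk.1.symm ho (hD he.1).1 (mono_fx (f _ he i (by simp [ho, hi1, hi2]))).1
        (fun l _ a b => mono_fx (f _ he l (by simp [ho, a, b]))) hi1 hi2
    · have := h.step (D := D ⊓ Fx (T \ orb E j)) ((inf_le_left.trans hD).trans inf_le_left) j
      have b : D ⊓ Fx (T \ orb E j) ⊓ Fx (orb E j) = ⊥ :=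
        eq_bot_iff.2 fun e he => O_ext_ee fun l => by
          rw [ap_one]
          by_cases a : l ∈ orb E j
          · exact he.2 l a
          · exact f e he.1 l a
      rw [b, Subgroup.card_bot] at this
      have c4 : (orb E j).card ≤ 8 := (Finset.card_le_univ _).trans (by simp)
      generalize (orb E j).card = m at *
      interval_cases m <;> omega
  calc 2 * Nat.card D ≤ 2 ^ (T \ orb E j).card * (2 * Nat.card ↥(D ⊓ Fx (T \ orb E j))) := by
        rw [mul_left_comm]; exact Nat.mul_le_mul_left 2 h1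
    _ ≤ _ := by rw [← c2, pow_add]; exact Nat.mul_le_mul_left _ h2

theorem orb_compl (i : Fin 8) : ∀ j ∈ (orb E i)ᶜ, orb E j ⊆ (orb E i)ᶜ := fun _ hj _ hk =>
  Finset.mem_compl.2 fun a => Finset.mem_compl.1 hj (orb_trans a (orb_symm hk))

theorem EA.orb_le (h : EA E) (hc : 128 ≤ Nat.card E) (i : Fin 8) : (orb E i).card ≤ 2 := by
  by_contra hm
  have h1 := h.step le_rfl i
  have c4 : (orb E i).card ≤ 8 := (Finset.card_le_univ _).trans (by simp)
  have c5 := Finset.card_compl (orb E i)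
  rw [Fintype.card_fin] at c5
  by_cases h8 : (orb E i).card = 8
  · rw [Finset.eq_univ_of_card _ h8, card_Fx_univ] at h1
    simp at h1; omega
  have h2 := h.last (T := (orb E i)ᶜ) (Finset.card_pos.1 (by omega)) (by omega) (orb_compl i)
    (D := E ⊓ Fx (orb E i)) (by rw [compl_compl])
  rw [c5] at h2
  generalize (orb E i).card = m at *
  interval_cases m <;> omega

theorem EA.not_mixed (h : EA E) (hc : 128 ≤ Nat.card E) {i j : Fin 8} (hi : (orb E i).card = 1)
    (hj : (orb E j).card = 2) : False := by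
  obtain ⟨a, ha⟩ := Finset.card_eq_one.1 hi
  obtain rfl : i = a := by simpa [ha] using self_orb (E := E) i
  have c' := Finset.card_erase_of_mem (self_orb (E := E) j)
  obtain ⟨k, hk⟩ := Finset.card_eq_one.1 (c'.trans (by rw [hj]))
  have mk := Finset.mem_erase.1 (show k ∈ (orb E j).erase j by simp [hk])
  have ho : orb E j = {j, k} := by rw [← Finset.insert_erase (self_orb (E := E) j), hk]
  have n : i ∉ orb E j := fun a => by rw [orb_eq a] at hi; omega
  have hij : i ≠ j := fun a => n (by simp [ho, a])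
  have hik : i ≠ k := fun a => n (by simp [ho, a])
  have h1 := h.bound 5 ((orb E i)ᶜ ∩ (orb E j)ᶜ) (by
    rw [← Finset.compl_union, Finset.card_compl, ha, ← Finset.insert_eq,
      Finset.card_insert_of_notMem n, hj]; rfl) (fun l hl => Finset.subset_inter
      (orb_compl i l (Finset.mem_inter.1 hl).1) (orb_compl j l (Finset.mem_inter.1 hl).2)) E le_rfl
  have h2 := card_le_two (D := E ⊓ Fx ((orb E i)ᶜ ∩ (orb E j)ᶜ)) (x := sg (bb j + bb k))
    fun e he => by
      obtain ⟨π, v, -, hv, rfl⟩ := h.mon e he.1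
      exact h.small mk.1.symm ho he.1
        (by simpa [ha] using (mem_orb.2 ⟨π, v, he.1, rfl⟩ : π i ∈ orb E i))
        (fun l a b c => mono_fx (he.2 l (by simp [ha, ho, a, b, c]))) hij hik
  omega

theorem EA.cases (h : EA E) (hc : 128 ≤ Nat.card E) :
    (∀ e ∈ E, ∃ v, e = sg v) ∨ ∃ b ∈ Wp, ∀ e ∈ E, ∃ v, b⁻¹ * e * b = fs v := by
  have c1 : ∀ i, 0 < (orb E i).card := fun i => Finset.card_pos.2 ⟨i, self_orb i⟩
  by_cases h1 : ∀ i, (orb E i).card = 1
  · refine .inl fun e he => ?_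
    obtain ⟨π, v, -, -, rfl⟩ := h.mon e he
    refine ⟨v, congrArg (mono · v) (Equiv.ext fun i => ?_)⟩
    exact Finset.card_le_one.1 (h1 i).le _ (mem_orb.2 ⟨π, v, he, rfl⟩) _ (self_orb i)
  push Not at h1
  obtain ⟨j, hj⟩ := h1
  have h2 : ∀ i, ∃ k, k ≠ i ∧ orb E i = {i, k} := fun i => by
    have a := h.orb_le hc i
    have b := h.orb_le hc j
    have c := c1 i
    have d := c1 j
    have c2 : (orb E i).card = 2 := by
      by_contra hn
      exact h.not_mixed hc (i := i) (j := j) (by omega) (by omega)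
    have c' := Finset.card_erase_of_mem (self_orb (E := E) i)
    obtain ⟨k, hk⟩ := Finset.card_eq_one.1 (c'.trans (by rw [c2]))
    exact ⟨k, (Finset.mem_erase.1 (show k ∈ (orb E i).erase i by simp [hk])).1,
      by rw [← Finset.insert_erase (self_orb (E := E) i), hk]⟩
  choose f f1 f2 using h2
  have f3 : ∀ i, f (f i) = i := fun i => by
    have a : f i ∈ orb E i := by simp [f2]
    have b : i ∈ orb E (f i) := orb_symm a
    rw [f2] at b
    simp only [Finset.mem_insert, Finset.mem_singleton] at b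
    exact (b.resolve_left (f1 i).symm).symm
  obtain ⟨σ, hs, k⟩ := conj_std (ω := Function.Involutive.toPerm f f3) (Equiv.ext f3) f1
  refine .inr ⟨pm σ, pm_memp hs, fun e he => ?_⟩
  obtain ⟨π, v, -, -, rfl⟩ := h.mon e he
  have g : ∀ i, π i = i ∨ π i = f i := fun i => by
    simpa [f2] using (mem_orb.2 ⟨π, v, he, rfl⟩ : π i ∈ orb E i)
  refine k π v g fun i => ?_
  show v (f i) = v i
  rcases g i with a | a
  · obtain ⟨ρ, w, b, c⟩ := mem_orb.1 (show f i ∈ orb E i by simp [f2])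
    obtain ⟨e1, e2⟩ := h.comm he b
    have e3 : π (ρ i) = ρ i := by rw [← Perm.mul_apply, e1, Perm.mul_apply, a]
    have e4 := congrFun e2 (ρ i)
    rw [Pi.add_apply, Pi.add_apply, pa_apply', ← e3, pa_apply', e3, c, add_comm (w _)] at e4
    exact add_right_cancel e4
  · rw [← a]
    exact z2_eq ((mono_sq (w := 0) ((h.sq _ he).trans sg_zero.symm)).2 i)

theorem full_of_card {f : B8 → O} (hf : ∀ v, f v ∈ Wp → Ev v) (hE : E ≤ Wp) (hc : 128 ≤ Nat.card E)
    {b : O} (hb : b ∈ Wp) (h : ∀ e ∈ E, ∃ v, b⁻¹ * e * b = f v) :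
    (∀ e ∈ E, ∃ v, Ev v ∧ e = b * f v * b⁻¹) ∧ ∀ v, Ev v → b * f v * b⁻¹ ∈ E := by
  have h1 : ∀ e : E, ∃ v : {v : B8 // Ev v}, e.1 = b * f v * b⁻¹ := fun e => by
    obtain ⟨v, hv⟩ := h e e.2
    exact ⟨⟨v, hf v (hv ▸ Wp.conj' hb.1 (hE e.2))⟩, by rw [← hv]; group⟩
  refine ⟨fun e he => ?_, fun v hv => ?_⟩
  · obtain ⟨v, a⟩ := h1 ⟨e, he⟩
    exact ⟨v.1, v.2, a⟩
  choose g hg using h1
  have h2 : Function.Injective g := fun x y e => Subtype.ext (by rw [hg, hg, e])
  obtain ⟨e, he⟩ := (h2.bijective_of_nat_card_le (by rw [card_ev]; exact hc)).2 ⟨v, hv⟩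
  have := hg e
  rw [he] at this
  exact this ▸ e.2

theorem big_class (hE : E ≤ Wp) (hs : ∀ e ∈ E, e * e = 1) (hc : 128 ≤ Nat.card E) :
    ∃ b ∈ Wp, ((∀ e ∈ E, ∃ v, Ev v ∧ e = b * sg v * b⁻¹) ∧ ∀ v, Ev v → b * sg v * b⁻¹ ∈ E) ∨
      ((∀ e ∈ E, ∃ v, Ev v ∧ e = b * fs v * b⁻¹) ∧ ∀ v, Ev v → b * fs v * b⁻¹ ∈ E) := by
  obtain ⟨b, hb, k⟩ := conj_mon (hE.trans inf_le_left)
    (fun e => ⟨1, Subtype.ext (by simpa [pow_two] using hs e e.2)⟩ : IsPGroup 2 E)
  have c : Nat.card (E.map (MulAut.conj b⁻¹).toMonoidHom) = Nat.card E :=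
    Subgroup.card_map_of_injective (MulAut.conj b⁻¹).injective
  have m : ∀ e ∈ E, b⁻¹ * e * b ∈ E.map (MulAut.conj b⁻¹).toMonoidHom := fun e he =>
    ⟨e, he, by simp⟩
  have h : EA (E.map (MulAut.conj b⁻¹).toMonoidHom) := ⟨by
    rintro _ ⟨e, he, rfl⟩
    rw [← map_mul, hs e he, map_one], by
    rintro _ ⟨e, he, rfl⟩
    obtain ⟨π, v, a⟩ := k e he
    have := Wp.conj' hb.1 (hE he)
    rw [a] at this
    exact ⟨π, v, sign_of_memp this, ev_of_mem this.1, by simpa using a⟩,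
    Nat.finite_of_card_ne_zero (by omega)⟩
  rcases h.cases (by omega) with a | ⟨d, hd, a⟩
  · exact ⟨b, hb, .inl (full_of_card (fun v hv => ev_of_mem hv.1) hE hc hb fun e he => a _ (m e he))⟩
  · refine ⟨b * d, Wp.mul_mem hb hd, .inr (full_of_card (fun v => ev_of_fs) hE hc
      (Wp.mul_mem hb hd) fun e he => ?_)⟩
    obtain ⟨v, hv⟩ := a _ (m e he)
    exact ⟨v, by rw [← hv]; group⟩

end E8
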