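import Cfsg.Agent.E8.F

/-! Automorphisms of the subgroup of determinant one. -/

set_option autoImplicit false

namespace E8
open Matrix Equiv Cfsg

/-- the fourth point of a plane -/
def x3 (a b c : Fin 8) : Fin 8 := ⟨(a.1 ^^^ b.1 ^^^ c.1) % 8, Nat.mod_lt _ (by norm_num)⟩
/-- affine maps -/
def af (a b c d : Fin 8) : Fin 8 → Fin 8 := ![a, b, c, x3 a b c, d, x3 a b d, x3 a c d, x3 b c d]
theorem cd_four : ∀ a b c d : Fin 8, a ≠ b → a ≠ c → b ≠ c → Cd (bb a + bb b + (bb c + bb d)) →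
    d = x3 a b c := by decide +kernel
theorem Aff.x3 {σ : S8} (h : Aff σ) {a b c d : Fin 8} (h1 : a ≠ b) (h2 : a ≠ c) (h3 : b ≠ c)
    (h4 : Cd (bb a + bb b + (bb c + bb d))) : σ d = x3 (σ a) (σ b) (σ c) :=
  cd_four _ _ _ _ (σ.injective.ne h1) (σ.injective.ne h2) (σ.injective.ne h3) (by
    simpa only [pa_add, pa_bb] using h _ h4)
theorem Aff.eq {σ : S8} (h : Aff σ) : ⇑σ = af (σ 0) (σ 1) (σ 2) (σ 4) := funext fun i => by
  fin_cases i
  · rfl
  · rfl
  · rfl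
  · exact h.x3 (d := 3) (by decide) (by decide) (by decide) (by decide)
  · rfl
  · exact h.x3 (d := 5) (by decide) (by decide) (by decide) (by decide)
  · exact h.x3 (d := 6) (by decide) (by decide) (by decide) (by decide)
  · exact h.x3 (d := 7) (by decide) (by decide) (by decide) (by decide)
theorem af_five : ∀ a b c d : Fin 8, (∀ i, (af a b c d)^[5] i = i) → ∀ i, af a b c d i = i := by
  decide +kernel
theorem Aff.five {σ : S8} (h : Aff σ) (h5 : σ * σ * σ * σ * σ = 1) : σ = 1 := by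
  have := af_five (σ 0) (σ 1) (σ 2) (σ 4)
  rw [← h.eq] at this
  exact Equiv.ext (this fun i => congrArg (fun π : S8 => π i) h5)

/-- embeddings of the subgroup of determinant one -/
structure Emb {G : Type*} [Group G] (f : O → G) : Prop where
  mul : ∀ x ∈ Wp, ∀ y ∈ Wp, f (x * y) = f x * f y
  inj : ∀ x ∈ Wp, ∀ y ∈ Wp, f x = f y → x = y

section
variable {G : Type*} [Group G] {f : O → G}
theorem Emb.one (h : Emb f) : f 1 = 1 := by
  have := h.mul 1 Wp.one_mem 1 Wp.one_mem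
  rw [one_mul] at this
  exact left_eq_mul.1 this
theorem Emb.inv (h : Emb f) {x : O} (hx : x ∈ Wp) : f x⁻¹ = (f x)⁻¹ :=
  eq_inv_of_mul_eq_one_right (by rw [← h.mul x hx _ (Wp.inv_mem hx), mul_inv_cancel, h.one])
theorem Emb.conj (h : Emb f) {x y : O} (hx : x ∈ Wp) (hy : y ∈ Wp) :
    f (x * y * x⁻¹) = f x * f y * (f x)⁻¹ := by
  rw [h.mul _ (Wp.mul_mem hx hy) _ (Wp.inv_mem hx), h.mul x hx y hy, h.inv hx]
theorem Emb.conjG (h : Emb f) (g : G) : Emb fun x => g⁻¹ * f x * g :=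
  ⟨fun x hx y hy => by rw [h.mul x hx y hy]; group,
    fun x hx y hy e => h.inj x hx y hy (by simpa using e)⟩
theorem Emb.conjW (h : Emb f) {a : O} (ha : a ∈ W) : Emb fun x => f (a * x * a⁻¹) :=
  ⟨fun x hx y hy => by
    rw [← h.mul _ (Wp.conj ha hx) _ (Wp.conj ha hy)]; congr 1; group,
    fun x hx y hy e => by simpa using h.inj _ (Wp.conj ha hx) _ (Wp.conj ha hy) e⟩
theorem Emb.eq_one (h : Emb f) {x : O} (hx : x ∈ Wp) (e : f x = 1) : x = 1 :=
  h.inj x hx 1 Wp.one_mem (e.trans h.one.symm)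
end

theorem exists_two' (i j : Fin 8) (h : i ≠ j) : ∃ π : S8, Perm.sign π = 1 ∧ π 0 = i ∧ π 1 = j := by
  obtain ⟨π, a, b⟩ := exists_two i j h
  rcases Int.units_eq_one_or (Perm.sign π) with s | s
  · exact ⟨π, s, a, b⟩
  · exact ⟨π * swap 2 3, by rw [Perm.sign_mul, s, Perm.sign_swap (by decide)]; simp, a, b⟩

theorem rh_pm (π : S8) : rh * pm π = pm π * rh := O_ext fun x => funext fun i => by
  rw [ap_mul, ap_mul, ap_rh, ap_pm, ap_pm, ap_rh]
  simp only [ap_pm, Equiv.sum_comp π⁻¹ x]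

theorem comm_alt {c : O} (h : ∀ π, Perm.sign π = 1 → pm π * c = c * pm π) (hd : dt c = 1) :
    c = 1 ∨ c = ng := by
  have e : ∀ π : S8, Perm.sign π = 1 → ∀ i j, c.1 (π i) (π j) = c.1 i j := fun π hπ i j => by
    have := congrFun (congrArg (fun A => ap A (ee j)) (h π hπ)) (π i)
    rw [ap_mul, ap_mul, ap_pm_ee, ap_pm, ap_ee, ap_ee] at this
    simpa using this.symm
  have e1 : ∀ i j, c.1 i j = if i = j then c.1 0 0 else c.1 0 1 := fun i j => by
    split_ifs with a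
    · obtain ⟨π, s, rfl⟩ := exists_even_map 0 j
      rw [a, e π s]
    · obtain ⟨π, s, rfl, rfl⟩ := exists_two' i j a
      rw [e π s]
  generalize c.1 0 0 = a at e1
  generalize c.1 0 1 = b at e1
  have o1 := congrFun (congrFun (mul_tr c) 0) 0
  have o2 := congrFun (congrFun (mul_tr c) 0) 1
  simp [mul_apply, Fin.sum_univ_eight, e1] at o1 o2
  have k : ∀ d : O, (∀ i j, d.1 i j = if i = j then a else b) → c = d := fun d hd =>
    Subtype.ext (Matrix.ext fun i j => by rw [e1, hd])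
  have o3 : b * (a + 3 * b) = 0 := by linarith
  rcases mul_eq_zero.1 o3 with hb | hb
  · subst hb
    rcases mul_self_eq_one_iff.1 (show a * a = 1 by linarith) with rfl | rfl
    · exact .inl (k 1 fun i j => by simp [one_apply])
    · exact .inr (k ng fun i j => by rw [ng_val]; by_cases h : i = j <;> simp [one_apply, h])
  · obtain rfl : a = -3 * b := by linarith
    rcases mul_self_eq_one_iff.1 (show (4 * b) * (4 * b) = 1 by linarith) with hb | hb
    · have : c = ng * rh := k _ fun i j => by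
        show (ng.1 * rh.1) i j = _
        rw [ng_val]
        by_cases h : i = j <;> simp [rh, h] <;> linarith
      rw [this, map_mul, dt_ng, dt_rh] at hd
      norm_num at hd
    · have : c = rh := k _ fun i j => by
        by_cases h : i = j <;> simp [rh, h] <;> linarith
      rw [this, dt_rh] at hd
      norm_num at hd

theorem odd_tt : sg (bb 0) * tt * sg (bb 0) ∉ W := fun h => by
  have h1 := h (ci ![0, 0, 4, 0, 0, 0, 0, 0]) (ci_mem (by decide))
  rw [tt, ap_mul, ap_mul, ap_mul, sg, r01, ap_mono_ci, ap_mono_ci, ap_rh_ci (by decide),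
    ap_mono_ci] at h1
  exact absurd (LI_of_mem h1) (by decide)

theorem cocycle {c : S8 → B8}
    (h : ∀ π ρ, Perm.sign π = 1 → Perm.sign ρ = 1 → c (π * ρ) = c π + pa π (c ρ)) :
    ∃ d, ∀ π, Perm.sign π = 1 → c π = d + pa π d := by
  have s : ∀ ρ : alternatingGroup {i : Fin 8 // i ≠ 0}, Perm.sign (Perm.ofSubtype ρ.1) = 1 :=
    fun ρ => by rw [Perm.sign_ofSubtype]; exact ρ.2
  let χ : alternatingGroup {i : Fin 8 // i ≠ 0} →* Multiplicative (ZMod 2) := MonoidHom.mk'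
    (fun ρ => Multiplicative.ofAdd (c (Perm.ofSubtype ρ.1) 0)) fun ρ τ => by
      rw [Subgroup.coe_mul, map_mul, h _ _ (s ρ) (s τ), Pi.add_apply, pa_apply, ← map_inv,
        Perm.ofSubtype_apply_of_not_mem _ (by simp), ofAdd_add]
  have h1 : ∀ ρ, χ ρ = 1 := fun ρ => by
    have := Abelianization.commutator_subset_ker χ
    rw [commutator_alternatingGroup_eq_top (by simp)] at this
    exact this (Subgroup.mem_top ρ)
  have h2 : ∀ π : S8, Perm.sign π = 1 → π 0 = 0 → c π 0 = 0 := fun π hs h0 => by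
    have a : ∀ i, π i ≠ 0 ↔ i ≠ 0 := fun i => by
      conv_lhs => rw [← h0]
      exact π.injective.ne_iff
    have b := Perm.ofSubtype_subtypePerm (p := fun i => i ≠ 0) a fun i hi e => hi (by rw [e, h0])
    have := h1 ⟨π.subtypePerm a, by
      rw [Perm.mem_alternatingGroup, ← Perm.sign_ofSubtype, b, hs]⟩
    have e : c (Perm.ofSubtype (π.subtypePerm a)) 0 = 0 := this
    rwa [b] at e
  choose p p1 p2 using exists_even_map 0
  refine ⟨fun j => c (p j) j, fun σ hs => funext fun j => ?_⟩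
  have e1 := congrFun (h σ (p (σ⁻¹ j)) hs (p1 _)) j
  have s1 : Perm.sign ((p j)⁻¹ * (σ * p (σ⁻¹ j))) = 1 := by simp [hs, p1]
  have e2 := congrFun (h (p j) _ (p1 j) s1) j
  have e3 : (p j)⁻¹ j = 0 := by rw [Perm.inv_eq_iff_eq, p2]
  rw [mul_inv_cancel_left, e1, Pi.add_apply, Pi.add_apply, pa_apply, pa_apply, e3,
    h2 _ s1 (by rw [Perm.mul_apply, Perm.mul_apply, p2]; simpa using e3), add_zero] at e2
  rw [Pi.add_apply, pa_apply, ← e2, add_assoc, z2_add_self, add_zero]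

theorem fix_sg {β : O → O} (h : Emb β) (hW : β tt ∈ W)
    (h1 : ∀ v, Ev v → β (sg v) = sg v) : ∃ d, Ev d ∧ ∀ x ∈ Wp, β x = sg d * x * (sg d)⁻¹ := by
  have h2 : ∀ π, ∃ u, Perm.sign π = 1 → β (pm π) = mono π u := fun π => by
    by_cases hs : Perm.sign π = 1
    swap
    · exact ⟨0, fun a => absurd a hs⟩
    obtain ⟨u, e⟩ := sg_of_comm sep_ev (A := β (pm π) * (pm π)⁻¹) fun w hw => by
      have := h.conj (pm_memp hs) (sg_memp (hw.pa π⁻¹))
      rw [pm_conj_sg, pa_pa_inv, h1 _ hw, h1 _ (hw.pa _), ← pm_conj_sg, pm_inv] at this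
      conv_lhs => rw [this]
      group
    exact ⟨u, fun _ => by rw [mono_eq, ← e, inv_mul_cancel_right]⟩
  choose c hc using h2
  obtain ⟨d, hd⟩ := cocycle (c := c) fun π ρ a b => by
    have := h.mul _ (pm_memp a) _ (pm_memp b)
    rw [← pm_mul, hc _ (by simp [a, b]), hc _ a, hc _ b, mono_mul] at this
    exact (mono_inj this).2
  have h' := h.conjG (sg d)
  set γ : O → O := fun x => (sg d)⁻¹ * β x * sg d with hγ
  have g1 : ∀ π v, Perm.sign π = 1 → Ev v → γ (mono π v) = mono π v := fun π v a b => by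
    simp only [hγ]
    rw [mono_eq, h.mul _ (sg_memp b) _ (pm_memp a), h1 _ b, hc _ a, hd _ a, sg_inv, ← mono_eq, sg,
      sg, mono_mul, mono_mul, mono_mul]
    simp only [one_mul, mul_one, pa_one]
    congr 1
    calc _ = v + (d + d) + (pa π d + pa π d) := by abel
      _ = v := by rw [b8_add_self, b8_add_self, add_zero, add_zero]
  have g2 : γ tt = tt := by
    have a : γ tt * γ tt * γ tt = 1 := by
      rw [← h'.mul _ tt_memp _ tt_memp, ← h'.mul _ (Wp.mul_mem tt_memp tt_memp) _ tt_memp, tt_cube,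
        h'.one]
    have b := comm_alt (c := γ tt * tt⁻¹) (fun π hs => by
      obtain ⟨ρ, u, e⟩ : ∃ ρ u, tt⁻¹ * pm π * tt = mono ρ u := ⟨_, _, by
        rw [tt, _root_.mul_inv_rev, mul_assoc, mul_assoc, ← mul_assoc (pm π), ← rh_pm, mul_assoc,
          inv_mul_cancel_left, r01, mono_inv, pm, mono_mul, mono_mul]⟩
      have m : mono ρ u ∈ Wp := e ▸ Wp.conj' tt_memp.1 (pm_memp hs)
      have k := h'.conj tt_memp m
      rw [g1 _ _ (sign_of_memp m) (ev_of_mem m.1), ← e,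
        show tt * (tt⁻¹ * pm π * tt) * tt⁻¹ = pm π by group, show γ (pm π) = pm π from
          g1 π 0 hs ev_zero] at k
      conv_lhs => rw [k]
      group) (by rw [map_mul, dt_inv, dt_of_cube a, dt_of_cube tt_cube, one_mul])
    rcases b with b | b
    · exact mul_inv_eq_one.1 b
    · rw [mul_inv_eq_iff_eq_mul] at b
      rw [b] at a
      have : ng * tt * (ng * tt) * (ng * tt) = ng * ng * ng * (tt * tt * tt) := by
        simp only [mul_assoc]
        rw [← mul_assoc tt ng, ← ng_comm tt, ← mul_assoc tt ng, ← ng_comm tt]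
        simp only [mul_assoc]
        rw [← mul_assoc tt ng, ← ng_comm tt]
        simp only [mul_assoc]
      rw [this, tt_cube, ng_mul_self, one_mul, mul_one] at a
      exact absurd a ng_ne_one
  let H : Subgroup O :=
    { carrier := {x | x ∈ Wp ∧ γ x = x}
      one_mem' := ⟨Wp.one_mem, h'.one⟩
      mul_mem' := fun {x y} a b => ⟨Wp.mul_mem a.1 b.1, by rw [h'.mul x a.1 y b.1, a.2, b.2]⟩
      inv_mem' := fun {x} a => ⟨Wp.inv_mem a.1, by rw [h'.inv a.1, a.2]⟩ }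
  have g3 := Wp_ind (H := H) (fun π v a b => ⟨mono_memp a b, g1 π v a b⟩) ⟨tt_memp, g2⟩
  have g4 : ∀ x ∈ Wp, β x = sg d * x * (sg d)⁻¹ := fun x hx => by
    have : (sg d)⁻¹ * β x * sg d = x := (g3 hx).2
    conv_rhs => rw [← this]
    group
  refine ⟨d, ?_, g4⟩
  by_contra hn
  have ev : Ev (d + bb 0) := by
    have := (z2 _).resolve_left hn
    simp only [Ev, Pi.add_apply, Finset.sum_add_distrib, this, sum_bb]; rfl
  have e : sg (bb 0) = sg (d + bb 0) * sg d := by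
    rw [← sg_add, add_right_comm, b8_add_self, zero_add]
  refine odd_tt ?_
  have := W.mul_mem (W.mul_mem (sg_mem ev) hW) (W.inv_mem (sg_mem ev))
  rw [g4 _ tt_memp] at this
  have e' : sg (bb 0) * tt * (sg (bb 0))⁻¹ ∈ W := by
    rw [e]; convert this using 1; group
  rwa [sg_inv] at e'

/-- vectors of weight two -/
def Pr (x : B8) : Prop := ∃ a b, a ≠ b ∧ x = bb a + bb b
/-- the weight -/
def wt (x : B8) : ℕ := ∑ i, (x i).val
theorem wt_pair : ∀ a b : Fin 8, a ≠ b → wt (bb a + bb b) = 2 := by decide +kernel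
theorem pr_meet' : ∀ a x c d : Fin 8, a ≠ x → c ≠ d → wt (bb a + bb x + (bb c + bb d)) = 2 →
    ((c = a ∨ c = x) ↔ ¬(d = a ∨ d = x)) := by decide +kernel
theorem pr_meet (a x c d : Fin 8) (h1 : a ≠ x) (h2 : c ≠ d)
    (h : Pr (bb a + bb x + (bb c + bb d))) : ((c = a ∨ c = x) ↔ ¬(d = a ∨ d = x)) := by
  obtain ⟨u, w, n, e⟩ := h
  exact pr_meet' a x c d h1 h2 (by rw [e, wt_pair _ _ n])
theorem c3_comm : ∀ v : B8, Ev v → v + pa c3 v = 0 ∨ v + pa c3 v = bb 0 + bb 1 ∨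
    v + pa c3 v = bb 1 + bb 2 ∨ v + pa c3 v = bb 2 + bb 0 := by decide +kernel
theorem tri_ne : ∀ a b c : Fin 8, a ≠ b → b ≠ c → c ≠ a → bb a + bb b ≠ 0 ∧
    bb a + bb b ≠ bb b + bb c := by decide +kernel

theorem pr_of_three {π : S8} (h3 : π * π * π = 1) {p q r : B8} (h0 : π ≠ 1)
    (h : ∀ u, Ev u → u + pa π u = 0 ∨ u + pa π u = p ∨ u + pa π u = q ∨ u + pa π u = r) : Pr p := by
  haveI : Fact (Nat.Prime 3) := ⟨Nat.prime_three⟩
  obtain ⟨f, hf⟩ := Perm.exists_fixed_point_of_prime (p := 3) (n := 1) (σ := π) (by simp)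
    (by rw [← h3]; simp [pow_succ])
  obtain ⟨m, hm⟩ : ∃ m, π m ≠ m := by
    by_contra hc
    push Not at hc
    exact h0 (Equiv.ext hc)
  have e : π (π (π m)) = m := congrArg (fun σ : S8 => σ m) h3
  have n1 : m ≠ π m := hm.symm
  have n2 : π m ≠ π (π m) := π.injective.ne n1
  have n3 : π (π m) ≠ m := by
    conv_rhs => rw [← e]
    exact π.injective.ne n2
  have k : ∀ i, bb i + bb f + pa π (bb i + bb f) = bb i + bb (π i) := fun i => by
    rw [pa_add, pa_bb, pa_bb, hf, add_add_add_comm, b8_add_self, add_zero]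
  have a1 := h _ (ev_pair m f)
  have a2 := h _ (ev_pair (π m) f)
  have a3 := h _ (ev_pair (π (π m)) f)
  rw [k] at a1 a2 a3
  rw [e] at a3
  obtain ⟨b1, d1⟩ := tri_ne _ _ _ n1 n2 n3
  obtain ⟨b2, d2⟩ := tri_ne _ _ _ n2 n3 n1
  obtain ⟨b3, d3⟩ := tri_ne _ _ _ n3 n1 n2
  by_contra hc
  have c1 : bb m + bb (π m) ≠ p := fun x => hc ⟨_, _, n1, x.symm⟩
  have c2 : bb (π m) + bb (π (π m)) ≠ p := fun x => hc ⟨_, _, n2, x.symm⟩
  have c3 : bb (π (π m)) + bb m ≠ p := fun x => hc ⟨_, _, n3, x.symm⟩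
  simp only [b1, b2, b3, c1, c2, c3, false_or] at a1 a2 a3
  rcases a1 with a1 | a1 <;> rcases a2 with a2 | a2 <;> rcases a3 with a3 | a3 <;>
    first | exact d1 (a1.trans a2.symm) | exact d2 (a2.trans a3.symm) | exact d3 (a3.trans a1.symm)

theorem star {b : B8 → B8} (h1 : ∀ v w, Ev v → Ev w → b (v + w) = b v + b w)
    (h2 : ∀ i j, i ≠ j → Pr (b (bb i + bb j))) : ∃ σ : S8, ∀ v, Ev v → b v = pa σ v := by
  have b0 : b 0 = 0 := by
    have := h1 0 0 ev_zero ev_zero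
    rwa [add_zero, b8_add_self] at this
  have s : ∀ i j, b (bb i + bb j) = b (bb 0 + bb i) + b (bb 0 + bb j) := fun i j => by
    rw [← h1 _ _ (ev_pair _ _) (ev_pair _ _), add_add_add_comm, b8_add_self, zero_add]
  have m : ∀ {i j a x c d : Fin 8}, i ≠ j → a ≠ x → c ≠ d → b (bb 0 + bb i) = bb a + bb x →
      b (bb 0 + bb j) = bb c + bb d → ((c = a ∨ c = x) ↔ ¬(d = a ∨ d = x)) :=
    fun hij n1 n2 e1 e2 => pr_meet _ _ _ _ n1 n2 (by rw [← e1, ← e2, ← s]; exact h2 _ _ hij)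
  obtain ⟨a, x, y, n1, n2, e1, e2⟩ : ∃ a x y, a ≠ x ∧ a ≠ y ∧ b (bb 0 + bb 1) = bb a + bb x ∧
      b (bb 0 + bb 2) = bb a + bb y := by
    obtain ⟨a, x, n1, e1⟩ := h2 0 1 (by decide)
    obtain ⟨c, d, n2, e2⟩ := h2 0 2 (by decide)
    have := m (by decide) n1 n2 e1 e2
    by_cases k : c = a ∨ c = x
    · rcases k with rfl | rfl
      · exact ⟨_, _, _, n1, n2, e1, e2⟩
      · exact ⟨_, _, _, n1.symm, n2, e1.trans (add_comm _ _), e2⟩
    · rcases not_not.1 (mt this.2 k) with rfl | rfl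
      · exact ⟨_, _, _, n1, n2.symm, e1, e2.trans (add_comm _ _)⟩
      · exact ⟨_, _, _, n1.symm, n2.symm, e1.trans (add_comm _ _), e2.trans (add_comm _ _)⟩
  have t : ∀ i, ∃ z, b (bb 0 + bb i) = bb a + bb z ∧ (z = a ↔ i = 0) := fun i => by
    by_cases i0 : i = 0
    · exact ⟨a, by rw [i0, b8_add_self, b8_add_self, b0], by simp [i0]⟩
    by_cases i1 : i = 1
    · exact ⟨x, i1 ▸ e1, by simp [i0, n1.symm]⟩
    by_cases i2 : i = 2
    · exact ⟨y, i2 ▸ e2, by simp [i0, n2.symm]⟩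
    obtain ⟨c, d, n3, e3⟩ := h2 0 i (Ne.symm i0)
    by_cases ca : c = a
    · exact ⟨d, ca ▸ e3, by simp [i0, ← ca, n3.symm]⟩
    by_cases da : d = a
    · exact ⟨c, da ▸ e3.trans (add_comm _ _), by simp [i0, ca]⟩
    exfalso
    obtain ⟨k, k0, k1, k2, ki⟩ : ∃ k : Fin 8, k ≠ 0 ∧ k ≠ 1 ∧ k ≠ 2 ∧ k ≠ i := by
      clear * -; revert i; decide
    obtain ⟨u, w, n4, e4⟩ := h2 0 k (Ne.symm k0)
    have m12 := m (by decide) n1 n2 e1 e2
    have m1 := m (Ne.symm i1) n1 n3 e1 e3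
    have m2 := m (Ne.symm i2) n2 n3 e2 e3
    have m3 := m (Ne.symm k1) n1 n4 e1 e4
    have m4 := m (Ne.symm k2) n2 n4 e2 e4
    have m5 := m (Ne.symm ki) n3 n4 e3 e4
    clear * - ca da n1 n2 n3 n4 m12 m1 m2 m3 m4 m5
    grind
  choose g g1 g2 using t
  have gi : Function.Injective g := fun i j e => by
    by_contra hc
    obtain ⟨c, d, n, k⟩ := h2 i j hc
    rw [s, g1, g1, e, b8_add_self] at k
    obtain ⟨l, l1, l2⟩ := third c d
    exact (tri_ne c d l n l2.symm l1).1 k.symm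
  refine ⟨Equiv.ofBijective g (Finite.injective_iff_bijective.1 gi), fun v hv => ?_⟩
  refine (ev_ind (p := fun v => Ev v ∧ b v = pa _ v) ⟨ev_zero, b0⟩ (fun u w a c =>
    ⟨a.1.add c.1, by rw [h1 _ _ a.1 c.1, a.2, c.2, pa_add]⟩) (fun i j _ => ⟨ev_pair _ _, ?_⟩) hv).2
  rw [s, g1, g1, add_add_add_comm, b8_add_self, zero_add, pa_add, pa_bb, pa_bb]; rfl

/-- a five-cycle -/
def c5 : S8 := swap 0 1 * swap 1 2 * (swap 2 3 * swap 3 4)

theorem aut_inner {β : O → O} (h : Emb β) (hW : ∀ x ∈ Wp, β x ∈ Wp) :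
    ∃ a ∈ W, ∀ x ∈ Wp, β x = a * x * a⁻¹ := by
  let E : Subgroup O :=
    { carrier := {y | ∃ v, Ev v ∧ β (sg v) = y}
      one_mem' := ⟨0, ev_zero, by rw [sg_zero, h.one]⟩
      mul_mem' := by
        rintro _ _ ⟨v, a, rfl⟩ ⟨w, b, rfl⟩
        exact ⟨v + w, a.add b, by rw [sg_add, h.mul _ (sg_memp a) _ (sg_memp b)]⟩
      inv_mem' := by
        rintro _ ⟨v, a, rfl⟩
        exact ⟨v, a, by rw [← h.inv (sg_memp a), sg_inv]⟩ }
  have hE : E ≤ Wp := by
    rintro _ ⟨v, a, rfl⟩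
    exact hW _ (sg_memp a)
  haveI : Finite E := Finite.of_injective _ (Subgroup.inclusion_injective hE)
  obtain ⟨b, hb, k⟩ := big_class hE (by
    rintro _ ⟨v, a, rfl⟩
    rw [← h.mul _ (sg_memp a) _ (sg_memp a), sg_mul_self, h.one]) (by
    rw [← card_ev]
    exact Nat.card_le_card_of_injective (fun v => (⟨_, v.1, v.2, rfl⟩ : E)) fun v w e =>
      Subtype.ext (sg_inj (h.inj _ (sg_memp v.2) _ (sg_memp w.2) (congrArg Subtype.val e))))
  have h' := h.conjG b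
  set γ : O → O := fun x => b⁻¹ * β x * b with hγ
  have hW' : ∀ x ∈ Wp, γ x ∈ Wp := fun x hx => Wp.conj' hb.1 (hW x hx)
  have cj : ∀ π v, Perm.sign π = 1 → Ev v → γ (sg v) * γ (pm π) = γ (pm π) * γ (sg (pa π⁻¹ v)) :=
    fun π v a c => by
      rw [← h'.mul _ (sg_memp c) _ (pm_memp a), ← h'.mul _ (pm_memp a) _ (sg_memp (c.pa _)),
        ← pm_conj_sg, pm_inv]
      congr 1; group
  have tr : ∀ f : B8 → O, ((∀ e ∈ E, ∃ v, Ev v ∧ e = b * f v * b⁻¹) ∧
      ∀ v, Ev v → b * f v * b⁻¹ ∈ E) → (∀ v, ∃ u, Ev v → Ev u ∧ γ (sg v) = f u) ∧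
      ∀ u, Ev u → ∃ v, Ev v ∧ γ (sg v) = f u := fun f k => ⟨fun v => by
    by_cases hv : Ev v
    · obtain ⟨u, a, c⟩ := k.1 _ ⟨v, hv, rfl⟩
      exact ⟨u, fun _ => ⟨a, by simp only [hγ]; rw [c]; group⟩⟩
    · exact ⟨0, fun a => absurd a hv⟩, fun u hu => by
    obtain ⟨v, a, c⟩ := k.2 u hu
    exact ⟨v, a, by simp only [hγ]; rw [c]; group⟩⟩
  rcases k with k | k
  swap
  · exfalso
    obtain ⟨k1, k2⟩ := tr _ k
    have s5 : Perm.sign c5 = 1 := by decide
    have m := pm_memp s5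
    obtain ⟨σ, u, e⟩ := fm_of_conj sep_ev (A := γ (pm c5)) fun w hw => by
      obtain ⟨v, a, c⟩ := k2 w hw
      obtain ⟨u, d⟩ := k1 (pa c5⁻¹ v)
      exact ⟨u, by rw [← c, cj _ _ s5 a, (d (a.pa _)).2]⟩
    have e5 : γ (pm c5) * γ (pm c5) * γ (pm c5) * γ (pm c5) * γ (pm c5) = 1 := by
      have m2 := Wp.mul_mem m m
      have m3 := Wp.mul_mem m2 m
      rw [← h'.mul _ m _ m, ← h'.mul _ m2 _ m, ← h'.mul _ m3 _ m, ← h'.mul _ (Wp.mul_mem m3 m) _ m,
        ← pm_mul, ← pm_mul, ← pm_mul, ← pm_mul, show c5 * c5 * c5 * c5 * c5 = 1 by decide, pm_one,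
        h'.one]
    have a := aff_of_mem (e ▸ (hW' _ m).1)
    rw [e, fm, ← map_mul, ← map_mul, ← map_mul, ← map_mul, mono_mul, mono_mul, mono_mul, mono_mul,
      map_eq_one_iff _ tau.injective, ← mono_one] at e5
    obtain rfl := a.five (mono_inj e5).1
    have := h'.eq_one (Wp.mul_mem m m) (by rw [h'.mul _ m _ m, e]; exact fs_mul_self u)
    rw [← pm_mul, ← pm_one] at this
    exact absurd (mono_inj this).1 (by decide)
  obtain ⟨k1, k2⟩ := tr _ k
  choose bf k1 using k1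
  have ad : ∀ v w, Ev v → Ev w → bf (v + w) = bf v + bf w := fun v w a c => sg_inj (by
    rw [← (k1 _ (a.add c)).2, sg_add, sg_add, h'.mul _ (sg_memp a) _ (sg_memp c), (k1 _ a).2,
      (k1 _ c).2])
  have pi : ∀ π, Perm.sign π = 1 → ∃ ρ u, γ (pm π) = mono ρ u ∧
      ∀ v, Ev v → bf (pa π v) = pa ρ (bf v) := fun π s => by
    obtain ⟨ρ, u, e⟩ := mono_of_conj sep_ev (A := γ (pm π)) fun w hw => by
      obtain ⟨v, a, c⟩ := k2 w hw
      exact ⟨bf (pa π⁻¹ v), by rw [← c, cj _ _ s a, (k1 _ (a.pa _)).2]⟩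
    refine ⟨ρ, u, e, fun v a => sg_inj ?_⟩
    rw [← (k1 _ (a.pa _)).2, ← pm_conj_sg, h'.conj (pm_memp s) (sg_memp a), e, (k1 _ a).2,
      mono_conj_sg]
  have p01 : Pr (bf (bb 0 + bb 1)) := by
    obtain ⟨ρ, u, e, c⟩ := pi c3 sign_c3
    have m := pm_memp sign_c3
    have e3 : γ (pm c3) * γ (pm c3) * γ (pm c3) = 1 := by
      rw [← h'.mul _ m _ m, ← h'.mul _ (Wp.mul_mem m m) _ m, ← pm_mul, ← pm_mul,
        show c3 * c3 * c3 = 1 by decide, pm_one, h'.one]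
    have e4 := e3
    rw [e, mono_mul, mono_mul, ← mono_one] at e4
    refine pr_of_three (mono_inj e4).1 (q := bf (bb 1 + bb 2)) (r := bf (bb 2 + bb 0)) ?_ ?_
    · rintro rfl
      have := h'.eq_one (Wp.mul_mem m m) (by rw [h'.mul _ m _ m, e]; exact sg_mul_self u)
      rw [← pm_mul, ← pm_one] at this
      exact absurd (mono_inj this).1 (by decide)
    · intro w hw
      obtain ⟨v, a, d⟩ := k2 w hw
      obtain rfl : bf v = w := sg_inj ((k1 _ a).2.symm.trans d)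
      rw [← c v a, ← ad _ _ a (a.pa _)]
      rcases c3_comm v a with x | x | x | x <;> rw [x]
      · left
        have := ad 0 0 ev_zero ev_zero
        rwa [add_zero, b8_add_self] at this
      all_goals simp
  obtain ⟨σ, hσ⟩ := star ad fun i j hij => by
    obtain ⟨π, s, rfl, rfl⟩ := exists_two' i j hij
    obtain ⟨ρ, u, -, c⟩ := pi π s
    obtain ⟨x, y, n, e⟩ := p01
    rw [← pa_bb, ← pa_bb, ← pa_add, c _ (ev_pair _ _), e, pa_add, pa_bb, pa_bb]
    exact ⟨_, _, ρ.injective.ne n, rfl⟩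
  obtain ⟨d, hd, e⟩ := fix_sg (h'.conjG (pm σ)) (Wp.conj' (pm_mem σ) (hW' _ tt_memp)).1
    fun v a => by
      show (pm σ)⁻¹ * γ (sg v) * pm σ = sg v
      rw [(k1 _ a).2, hσ _ a, ← pm_conj_sg]; group
  refine ⟨b * pm σ * sg d, W.mul_mem (W.mul_mem hb.1 (pm_mem σ)) (sg_mem hd), fun x hx => ?_⟩
  have : (pm σ)⁻¹ * (b⁻¹ * β x * b) * pm σ = _ := e x hx
  calc β x = b * pm σ * ((pm σ)⁻¹ * (b⁻¹ * β x * b) * pm σ) * (b * pm σ)⁻¹ := by group
    _ = _ := by rw [this]; group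

end E8
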