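import Cfsg.Agent.E8.H

/-! Triality. -/

set_option autoImplicit false

namespace E8
open Matrix Equiv Cfsg

/-- codes of the left multiplications -/
def Lc (i : ℕ) : ℕ := [0x102048000000000, 0x84002010000, 0x8002004000100, 0x40200080000001,
  0x10204008, 0x2010000000008004, 0x4000100000800002, 0x800001000040200].getD i 0
/-- the bilinear product -/
def omul (x y : V) : V := ∑ k : II, x k • (mat (Lc (ix k)) *ᵥ y)
/-- the product on codes -/
def omn (a b : ℕ) : ℕ :=
  ((if a.testBit 0 then lin (Lc 0) b else 0) ^^^ (if a.testBit 1 then lin (Lc 1) b else 0) ^^^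
  (if a.testBit 2 then lin (Lc 2) b else 0) ^^^ (if a.testBit 3 then lin (Lc 3) b else 0) ^^^
  ((if a.testBit 4 then lin (Lc 4) b else 0) ^^^ (if a.testBit 5 then lin (Lc 5) b else 0) ^^^
  (if a.testBit 6 then lin (Lc 6) b else 0) ^^^ (if a.testBit 7 then lin (Lc 7) b else 0))) % 256

theorem omn_lt (a b : ℕ) : omn a b < 256 := Nat.mod_lt _ (by norm_num)
theorem omul_dv (a b : ℕ) : omul (dv a) (dv b) = dv (omn a b) := by
  have e : ∀ k : II, dv a k • (mat (Lc (ix k)) *ᵥ dv b) =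
      dv (if a.testBit (ix k) then lin (Lc (ix k)) b else 0) := fun k => by
    rw [(repM_mat _).app, dv]
    split_ifs
    · exact one_smul _ _
    · rw [zero_smul, dv_zero]
  simp only [omul, e, Fintype.sum_sum_type, Fin.sum_univ_four, omn, dv_mod, dv_xor]
  rfl
theorem omul_add_left (x y z : V) : omul (x + y) z = omul x z + omul y z := by
  simp only [omul, Pi.add_apply, add_smul, Finset.sum_add_distrib]
theorem omul_add_right (x y z : V) : omul x (y + z) = omul x y + omul x z := by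
  simp only [omul, mulVec_add, smul_add, Finset.sum_add_distrib]
theorem omul_zero_left (x : V) : omul 0 x = 0 := by simp [omul]
theorem omul_zero_right (x : V) : omul x 0 = 0 := by simp [omul]

theorem V_ind {p : V → Prop} (h0 : p 0) (h1 : ∀ a b, p a → p b → p (a + b))
    (h2 : ∀ k : II, p (dv (2 ^ (ix k).1))) (v : V) : p v := by
  rw [← Finset.univ_sum_single v]
  refine Finset.sum_induction _ p h1 h0 fun k _ => ?_
  rcases z2 (v k) with e | e <;> rw [e]
  · rwa [Pi.single_zero]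
  · rw [← dv_single]; exact h2 k

/-- related triples -/
def T3 (A B C : O2) : Prop := ∀ x y, a2 A (omul x y) = omul (a2 B x) (a2 C y)

/-- the graph automorphism on roots -/
def ti : Fin 24 → Fin 24 :=
  ![3, 0, 2, 1, 6, 4, 5, 8, 9, 7, 10, 11, 15, 12, 14, 13, 18, 16, 17, 20, 21, 19, 22, 23]
theorem ti_spec : ∀ a, ∀ i j : Fin 8, lin (xc a) (omn (2 ^ i.1) (2 ^ j.1)) % 256 =
    omn (lin (xc (ti a)) (2 ^ i.1)) (lin (xc (ti (ti a))) (2 ^ j.1)) := by decide +kernel
theorem ti_surj : ∀ b, ∃ a, ti a = b := by decide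

theorem t3_root (a : Fin 24) : T3 (xg a) (xg (ti a)) (xg (ti (ti a))) := fun x y => by
  induction x using V_ind with
  | h0 => rw [a2_zero, omul_zero_left, omul_zero_left, a2_zero]
  | h1 u v hu hv => rw [omul_add_left, a2_add, a2_add, omul_add_left, hu, hv]
  | h2 k =>
  induction y using V_ind with
  | h0 => rw [a2_zero, omul_zero_right, omul_zero_right, a2_zero]
  | h1 u v hu hv => rw [omul_add_right, a2_add, a2_add, omul_add_right, hu, hv]
  | h2 l => rw [omul_dv, (rep_xg _).app, (rep_xg _).app, (rep_xg _).app, omul_dv, ← ti_spec, dv_mod]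

/-- related pairs -/
def II2 : Subgroup (Om × Om) where
  carrier := {p | ∃ C, T3 p.1.1 p.2.1 C}
  one_mem' := ⟨1, fun x y => by simp only [Prod.fst_one, Prod.snd_one, OneMemClass.coe_one, a2_one]⟩
  mul_mem' := by
    rintro p q ⟨C, h⟩ ⟨D, k⟩
    exact ⟨C * D, fun x y => by
      simp only [Prod.fst_mul, Prod.snd_mul, Subgroup.coe_mul, a2_mul]; rw [k, h]⟩
  inv_mem' := by
    rintro p ⟨C, h⟩
    exact ⟨C⁻¹, fun x y => a2_inj p.1.1 (by
      simp only [Prod.fst_inv, Prod.snd_inv, Subgroup.coe_inv]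
      rw [h, a2_a2_inv, a2_a2_inv, a2_a2_inv])⟩

theorem no1 : ∀ n < 256, ∃ i < 8, omn (2 ^ i) 2 ≠ omn (lin (xc 0) (2 ^ i)) n := by decide +kernel
theorem no2 : ∀ n < 256, ∃ i < 8, lin (xc 0) (omn (2 ^ i) 2) % 256 ≠ omn (2 ^ i) n := by
  decide +kernel

theorem bij_of {A B : Type*} [Group A] [Group B] [IsSimpleGroup B] {p : A →* B} {q : A →* B}
    (hq : Function.Surjective q) (hi : ∀ a, p a = 1 → q a = 1 → a = 1) {b : B}
    (hb : ∀ a, p a = 1 → q a ≠ b) : Function.Injective p := by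
  rcases (Subgroup.Normal.map inferInstance q hq : (p.ker.map q).Normal).eq_bot_or_eq_top with h | h
  · refine (injective_iff_map_eq_one p).2 fun a ha => hi a ha ?_
    have : q a ∈ p.ker.map q := ⟨a, ha, rfl⟩
    rwa [h] at this
  · obtain ⟨a, ha, e⟩ : b ∈ p.ker.map q := by rw [h]; trivial
    exact absurd e (hb a ha)

theorem triality [IsSimpleGroup Om] : ∃ θ : Om ≃* Om, ∀ a, θ (xo a) = xo (ti a) := by
  let p : II2 →* Om := (MonoidHom.fst _ _).comp II2.subtype
  let q : II2 →* Om := (MonoidHom.snd _ _).comp II2.subtype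
  have m : ∀ a, (xo a, xo (ti a)) ∈ II2 := fun a => ⟨_, t3_root a⟩
  have sp : Function.Surjective p := by
    rw [← MonoidHom.range_eq_top, eq_top_iff, ← closure_xo, Subgroup.closure_le]
    rintro _ ⟨a, rfl⟩
    exact ⟨⟨_, m a⟩, rfl⟩
  have sq : Function.Surjective q := by
    rw [← MonoidHom.range_eq_top, eq_top_iff, ← closure_xo, Subgroup.closure_le]
    rintro _ ⟨a, rfl⟩
    obtain ⟨a, rfl⟩ := ti_surj a
    exact ⟨⟨_, m a⟩, rfl⟩
  have hi : ∀ a, p a = 1 → q a = 1 → a = 1 := fun a h1 h2 => Subtype.ext (Prod.ext h1 h2)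
  have ip : Function.Injective p := bij_of sq hi (b := xo 0) (by
    rintro ⟨⟨A, B⟩, C, h⟩ h1 h2
    obtain rfl : A = 1 := h1
    obtain rfl : B = xo 0 := h2
    obtain ⟨n, hn, e⟩ := exists_dv (a2 C (dv 2))
    obtain ⟨i, -, k⟩ := no1 n hn
    have := h (dv (2 ^ i)) (dv 2)
    rw [← e, omul_dv, OneMemClass.coe_one, a2_one] at this
    exact k (dv_inj (omn_lt _ _) (omn_lt _ _) (by
      rw [this, ← omul_dv, ← (rep_xg 0).app]; rfl)))
  have iq : Function.Injective q := bij_of sp (fun a h1 h2 => hi a h2 h1) (b := xo 0) (by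
    rintro ⟨⟨A, B⟩, C, h⟩ h1 h2
    obtain rfl : B = 1 := h1
    obtain rfl : A = xo 0 := h2
    obtain ⟨n, hn, e⟩ := exists_dv (a2 C (dv 2))
    obtain ⟨i, -, k⟩ := no2 n hn
    have := h (dv (2 ^ i)) (dv 2)
    rw [← e, omul_dv, OneMemClass.coe_one, a2_one, omul_dv] at this
    exact k (dv_inj (Nat.mod_lt _ (by norm_num)) (omn_lt _ _) (by
      rw [← this, dv_mod, ← (rep_xg 0).app]; rfl)))
  refine ⟨(MulEquiv.ofBijective p ⟨ip, sp⟩).symm.trans (MulEquiv.ofBijective q ⟨iq, sq⟩), fun a => ?_⟩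
  have : (MulEquiv.ofBijective p ⟨ip, sp⟩).symm (xo a) = ⟨_, m a⟩ := by
    rw [MulEquiv.symm_apply_eq]; rfl
  rw [MulEquiv.trans_apply, this]; rfl

end E8
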