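import Cfsg.Agent.E8.I

/-! Double covers of the orthogonal group. -/

set_option autoImplicit false

namespace E8
open Matrix Equiv Cfsg
open scoped commutatorElement

theorem dec60 : ∀ c d, ip c d = 3 → ∃ a b, ip a b = 1 ∧ sm a b = c ∧ 2 ≤ ip a d ∧ 2 ≤ ip b d := by
  decide +kernel
theorem ip_cases : ∀ a b, 2 ≤ ip a b → ip a b = 2 ∨ ip a b = 3 ∨ a = b := by decide +kernel
theorem sm60 : ∀ a b, ip a b = 1 → ip (sm a b) a = 3 ∧ ip b a = 1 ∧ sm b a = sm a b := by
  decide +kernel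
theorem decD : ∀ a b d, ip a b = 2 → ip d a = 1 → ip d b = 1 → ip a (sm d b) = 1 ∧
    ip (sm d a) b = 1 ∧ sm (sm d a) b = sm a (sm d b) ∧ ip (sm a (sm d b)) (sm d a) = 3 ∧
    ip (sm a (sm d b)) (sm d b) = 3 ∧ ip (sm d a) (sm d b) = 2 := by decide +kernel
/-- chosen decompositions -/
def d0 : Fin 24 → Fin 24 × Fin 24 := ![(4, 14), (5, 14), (4, 12), (6, 14), (0, 2), (1, 2), (2, 3),
  (0, 5), (0, 6), (1, 6), (0, 9), (2, 10), (2, 16), (2, 17), (0, 16), (2, 18), (1, 19), (0, 19),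
  (0, 20), (3, 22), (1, 22), (0, 22), (2, 23), (14, 22)]
theorem d0_spec : ∀ c, ip (d0 c).1 (d0 c).2 = 1 ∧ sm (d0 c).1 (d0 c).2 = c := by decide +kernel
/-- two decompositions are linked -/
def Lk (a b' a' b : Fin 24) : Prop :=
  ∃ d, ip a b = 2 ∧ ip d a = 1 ∧ ip d b = 1 ∧ sm d a = a' ∧ sm d b = b'
instance decLk (a b' a' b : Fin 24) : Decidable (Lk a b' a' b) := by unfold Lk; infer_instance
theorem d0_link : ∀ a b, ip a b = 1 → (a, b) = d0 (sm a b) ∨ (b, a) = d0 (sm a b) ∨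
    Lk a b (d0 (sm a b)).1 (d0 (sm a b)).2 ∨ Lk a b (d0 (sm a b)).2 (d0 (sm a b)).1 := by
  decide +kernel
theorem pos_rel : ∀ i j : Fin 24, i.1 < 12 → j.1 < 12 →
    2 ≤ ip j i ∨ (ip j i = 1 ∧ i < sm j i ∧ (sm j i).1 < 12) := by decide +kernel

/-- double covers -/
structure Cov {X : Type*} [Group X] (π : X →* Om) (z : X) : Prop where
  surj : Function.Surjective π
  ker : ∀ x, π x = 1 → x = 1 ∨ x = z
  cen : ∀ x, z * x = x * z
  sq : z * z = 1
  pz : π z = 1
  ne : z ≠ 1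

variable {X : Type*} [Group X] {π : X →* Om} {z : X}

theorem Cov.eq_or (h : Cov π z) {a b : X} (e : π a = π b) : a = b ∨ a = z * b := by
  rcases h.ker (a * b⁻¹) (by rw [map_mul, map_inv, e, mul_inv_cancel]) with k | k
  · exact .inl (mul_inv_eq_one.1 k)
  · exact .inr (mul_inv_eq_iff_eq_mul.1 k)
theorem Cov.central (h : Cov π z) {c : X} (e : π c = 1) (x : X) : c * x = x * c := by
  rcases h.ker c e with rfl | rfl
  · simp
  · exact h.cen x
theorem Cov.sq' (h : Cov π z) {c : X} (e : π c = 1) : c * c = 1 := by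
  rcases h.ker c e with rfl | rfl
  · simp
  · exact h.sq
theorem Cov.cm (h : Cov π z) {a b a' b' : X} (e : π a = π a') (e' : π b = π b') :
    ⁅a, b⁆ = ⁅a', b'⁆ := by
  have k1 : ∀ x y : X, ⁅z * x, y⁆ = ⁅x, y⁆ := fun x y => by
    calc ⁅z * x, y⁆ = z * (x * y * x⁻¹) * z⁻¹ * y⁻¹ := by rw [commutatorElement_def]; group
      _ = _ := by rw [h.cen, mul_inv_cancel_right, commutatorElement_def]
  have k2 : ∀ x y : X, ⁅y, z * x⁆ = ⁅y, x⁆ := fun x y => by
    rw [← commutatorElement_inv, k1, commutatorElement_inv]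
  rcases h.eq_or e with rfl | rfl <;> rcases h.eq_or e' with rfl | rfl <;> simp only [k1, k2]

theorem Cov.comm60 (h : Cov π z) {x y : X} {c d : Fin 24} (hx : π x = xo c) (hy : π y = xo d)
    (e : ip c d = 3) : x * y = y * x := by
  obtain ⟨a, b, h1, rfl, h2, h3⟩ := dec60 c d e
  obtain ⟨u, hu⟩ := h.surj (xo a)
  obtain ⟨w, hw⟩ := h.surj (xo b)
  have k : y * ⁅u, w⁆ * y⁻¹ = ⁅u, w⁆ := by
    rw [conjugate_commutatorElement]
    refine h.cm ?_ ?_
    · rw [map_mul, map_mul, map_inv, hy, hu, ← xo_comm h2, mul_inv_cancel_right]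
    · rw [map_mul, map_mul, map_inv, hy, hw, ← xo_comm h3, mul_inv_cancel_right]
  rw [← commutatorElement_eq_one_iff_mul_comm, h.cm (a' := ⁅u, w⁆) (b' := y) (by
    rw [map_commutatorElement, hu, hw, xo_sum h1, hx]) rfl, commutatorElement_eq_one_iff_mul_comm]
  exact (mul_inv_eq_iff_eq_mul.1 k).symm

theorem Cov.sq1 (h : Cov π z) {x : X} {c : Fin 24} (hx : π x = xo c) : x * x = 1 := by
  obtain ⟨a, b, h1, rfl⟩ := exists_sm c
  obtain ⟨u, hu⟩ := h.surj (xo a)
  obtain ⟨w, hw⟩ := h.surj (xo b)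
  have p : π ⁅u, w⁆ = xo (sm a b) := by rw [map_commutatorElement, hu, hw, xo_sum h1]
  have k := h.comm60 p hu (sm60 a b h1).1
  have k2 : ⁅u, w⁆ * ⁅u, w⁆ = 1 := by
    have : ⁅u * u, w⁆ = u * ⁅u, w⁆ * u⁻¹ * ⁅u, w⁆ := by simp only [commutatorElement_def]; group
    rw [← k, mul_inv_cancel_right, h.cm (a' := 1) (b' := w) (by rw [map_mul, hu, xo_sq, map_one]) rfl,
      commutatorElement_one_left] at this
    exact this.symm
  rcases h.eq_or (hx.trans p.symm) with rfl | rfl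
  · exact k2
  · rw [mul_assoc, ← mul_assoc _ z, ← h.cen, mul_assoc, k2, mul_one, h.sq]

/-- chosen lifts -/
noncomputable def Cov.lf (h : Cov π z) (a : Fin 24) : X := Function.surjInv h.surj (xo a)
theorem Cov.lf_eq (h : Cov π z) (a : Fin 24) : π (h.lf a) = xo a := Function.surjInv_eq _ _
/-- commutators of lifts -/
noncomputable def Cov.K (h : Cov π z) (a b : Fin 24) : X := ⁅h.lf a, h.lf b⁆
theorem Cov.K_sum (h : Cov π z) {a b : Fin 24} (e : ip a b = 1) : π (h.K a b) = xo (sm a b) := by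
  rw [Cov.K, map_commutatorElement, h.lf_eq, h.lf_eq, xo_sum e]
theorem Cov.K_orth (h : Cov π z) {a b : Fin 24} (e : 2 ≤ ip a b) : π (h.K a b) = 1 := by
  rw [Cov.K, map_commutatorElement, h.lf_eq, h.lf_eq, commutatorElement_eq_one_iff_mul_comm,
    xo_comm e]
theorem Cov.K_symm (h : Cov π z) {a b : Fin 24} (e : ip a b = 1) : h.K b a = h.K a b := by
  rw [Cov.K, ← commutatorElement_inv]
  exact inv_eq_of_mul_eq_one_right (h.sq1 (h.K_sum e))

theorem Cov.K_word (h : Cov π z) {a b : Fin 24} (e : 2 ≤ ip a b) (w : List (Fin 4)) :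
    h.K (w.foldr sr a) (w.foldr sr b) = h.K a b := by
  induction w with
  | nil => rfl
  | cons i w ih =>
    obtain ⟨n, hn⟩ := h.surj (xo (sp i) * (xo (E8.sq i) * xo (sp i)))
    have := conjugate_commutatorElement (h.lf (w.foldr sr a)) (h.lf (w.foldr sr b)) n
    rw [← Cov.K, ih, ← h.central (h.K_orth e), mul_inv_cancel_right] at this
    rw [this]
    refine h.cm ?_ ?_ <;> rw [map_mul, map_mul, map_inv, hn, h.lf_eq, h.lf_eq, xo_refl] <;> rfl

theorem Cov.K_D (h : Cov π z) {a b' a' b : Fin 24} (e : Lk a b' a' b) :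
    h.K a' b = h.K a' b' * h.K a b' := by
  obtain ⟨d, h1, h2, h3, rfl, rfl⟩ := e
  obtain ⟨f1, f2, f3, f4, f5, f6⟩ := decD a b d h1 h2 h3
  have k : ∀ {a}, ip d a = 1 → π (h.lf d * h.lf a * (h.lf d)⁻¹) = π (h.lf (sm d a) * h.lf a) :=
    fun e => by
      rw [map_mul, map_mul, map_mul, map_inv, h.lf_eq, h.lf_eq, h.lf_eq, ← xo_sum e,
        commutatorElement_def, inv_mul_cancel_right]
  have c := h.central (h.K_orth h1.ge)
  have c' := h.central (h.K_orth f6.ge)
  have e1 := conjugate_commutatorElement (h.lf a) (h.lf b) (h.lf d)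
  rw [← Cov.K, ← c, mul_inv_cancel_right, h.cm (k h2) (k h3)] at e1
  have u1 := h.comm60 (h.K_sum f1) (h.lf_eq _) f4
  have w1 := h.comm60 (h.K_sum f2) (h.lf_eq _) (f3 ▸ f5)
  have e2 : ∀ a a' b b' : X, ⁅a' * a, b' * b⁆ =
      a' * (⁅a, b'⁆ * (b' * ⁅a, b⁆ * b'⁻¹)) * a'⁻¹ * (⁅a', b'⁆ * (b' * ⁅a', b⁆ * b'⁻¹)) :=
    fun a a' b b' => by simp only [commutatorElement_def]; group
  rw [e2, ← Cov.K, ← Cov.K, ← Cov.K, ← Cov.K, ← c, mul_inv_cancel_right, ← w1, mul_inv_cancel_right,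
    ← mul_assoc, ← mul_assoc, ← u1, ← c, mul_assoc (h.K a b), mul_assoc (h.K a b),
    mul_inv_cancel_right, mul_assoc, mul_assoc, left_eq_mul] at e1
  have s1 := h.sq1 (h.K_sum f1)
  have s2 := h.sq' (h.K_orth f6.ge)
  calc _ = h.K (sm d a) (sm d b) * h.K (sm d a) (sm d b) * h.K (sm d a) b := by rw [s2, one_mul]
    _ = h.K (sm d a) (sm d b) * (h.K a (sm d b) * (h.K a (sm d b) *
        (h.K (sm d a) (sm d b) * h.K (sm d a) b))) := by
      rw [← mul_assoc (h.K a _), s1, one_mul, mul_assoc]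
    _ = _ := by rw [e1, mul_one]

theorem Cov.prod (h : Cov π z) : h.K 11 1 = h.K 11 3 * h.K 11 0 := by
  have a := h.K_D (a := 2) (b' := 10) (a' := 4) (b := 9) (by decide +kernel)
  have b := h.K_D (a := 2) (b' := 10) (a' := 5) (b := 8) (by decide +kernel)
  have c := h.K_D (a := 4) (b' := 9) (a' := 8) (b := 5) (by decide +kernel)
  have a' : h.K 4 10 = h.K 11 0 := h.K_word (a := 11) (b := 0) (by decide +kernel) [3, 1, 2]
  have b' : h.K 5 10 = h.K 11 1 := h.K_word (a := 11) (b := 1) (by decide +kernel) [3, 0, 2]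
  have c' : h.K 8 9 = h.K 11 3 := h.K_word (a := 11) (b := 3) (by decide +kernel) [1, 2]
  rw [h.K_symm (by decide +kernel), b, a, a', b', c', ← mul_assoc] at c
  exact mul_right_cancel c

theorem Cov.card (h : Cov π z) : Nat.card X = Nat.card Om * 2 := by
  rw [Subgroup.card_eq_card_quotient_mul_card_subgroup π.ker,
    Nat.card_congr (QuotientGroup.quotientKerEquivOfSurjective π h.surj).toEquiv]
  congr 1
  exact (congrArg Set.ncard (Set.ext fun x => ⟨h.ker x, by
    rintro (rfl | rfl)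
    exacts [π.ker.one_mem, h.pz]⟩)).trans (Set.ncard_pair h.ne.symm)

theorem cov_Wp : Cov redp ngp :=
  ⟨redp_surj, redp_ker, fun x => Subtype.ext (ng_comm x.1), Subtype.ext ng_mul_self, redp_ng,
    fun h => ng_ne_one (congrArg Subtype.val h)⟩

theorem Cov.card' (h : Cov π z) : Nat.card X = 348364800 := by
  rw [h.card, ← cov_Wp.card, card_Wp]

theorem Cov.split (h : Cov π z) (hc : ∀ j, h.K 11 (dl j) = 1) : ∃ χ : X →* ℤˣ, χ z = -1 := by
  have o : ∀ a b, ip a b = 2 → h.K a b = 1 := fun a b e => by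
    obtain ⟨t, ht, rfl, rfl⟩ := tl_all a b e
    obtain ⟨e1, e2⟩ := tl_spec t ht
    rw [← e1, ← e2, h.K_word (by generalize t.2.2.1 = j; revert j; decide +kernel), hc]
  obtain ⟨l, hl⟩ : ∃ l : Fin 24 → X, ∀ c, l c = h.K (d0 c).1 (d0 c).2 := ⟨_, fun _ => rfl⟩
  have l1 : ∀ c, π (l c) = xo c := fun c => by rw [hl, h.K_sum (d0_spec c).1, (d0_spec c).2]
  have l2 : ∀ a b, ⁅l a, l b⁆ = h.K a b := fun a b =>
    h.cm ((l1 a).trans (h.lf_eq a).symm) ((l1 b).trans (h.lf_eq b).symm)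
  have l3 : ∀ a b, 2 ≤ ip a b → l a * l b = l b * l a := fun a b e => by
    rcases ip_cases a b e with e | e | rfl
    · rw [← commutatorElement_eq_one_iff_mul_comm, l2, o a b e]
    · exact h.comm60 (l1 a) (l1 b) e
    · rfl
  have lk : ∀ {a b' a' b}, Lk a b' a' b → h.K a' b = h.K a b' := fun e => by
    rw [h.K_D e]
    obtain ⟨d, h1, h2, h3, rfl, rfl⟩ := e
    rw [o _ _ (decD _ _ d h1 h2 h3).2.2.2.2.2, one_mul]
  have l4 : ∀ a b, ip a b = 1 → ⁅l a, l b⁆ = l (sm a b) := fun a b e => by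
    rw [l2, hl]
    rcases d0_link a b e with k | k | k | k
    · rw [← k]
    · rw [← k, h.K_symm e]
    · exact (lk k).symm
    · rw [← lk k, h.K_symm (d0_spec _).1]
  let U : ℕ → Subgroup X := fun k => Subgroup.closure (l '' {i | k ≤ i.1 ∧ i.1 < 12})
  have n1 : ∀ k, ∀ j : Fin 24, j.1 < 12 → ∀ x ∈ U k, l j * x * (l j)⁻¹ ∈ U k := fun k j hj => by
    refine conj_closure ?_
    rintro _ ⟨i, hi, rfl⟩
    have m : l i ∈ U k := Subgroup.subset_closure ⟨i, hi, rfl⟩
    rcases pos_rel i j hi.2 hj with e | ⟨e, a, b⟩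
    · rwa [l3 _ _ e, mul_inv_cancel_right]
    · rw [show l j * l i * (l j)⁻¹ = ⁅l j, l i⁆ * l i by rw [commutatorElement_def]; group, l4 _ _ e]
      exact (U k).mul_mem (Subgroup.subset_closure ⟨_, ⟨hi.1.trans a.le, b⟩, rfl⟩) m
  have key : ∀ n ≤ 12, z ∉ U (12 - n) ∧ Nat.card (U (12 - n)) = 2 ^ n := by
    intro n
    induction n with
    | zero =>
      intro _
      have : U (12 - 0) = ⊥ := by
        rw [eq_bot_iff, Subgroup.closure_le]
        rintro _ ⟨i, hi, rfl⟩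
        exact absurd hi.2 (not_lt.2 hi.1)
      rw [this]
      exact ⟨h.ne, Subgroup.card_bot⟩
    | succ n ih =>
      intro hn
      obtain ⟨i1, i2⟩ := ih (by omega)
      let k : Fin 24 := ⟨11 - n, by omega⟩
      have hk : k.1 < 12 := by show 11 - n < 12; omega
      have s : l k * l k ∈ U (12 - n) := by rw [h.sq1 (l1 k)]; exact Subgroup.one_mem _
      have e : U (12 - (n + 1)) = ext2 (U (12 - n)) (l k) s (n1 _ k hk) := by
        have mk : l k ∈ U (12 - (n + 1)) :=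
          Subgroup.subset_closure ⟨k, ⟨by show _ ≤ 11 - n; omega, hk⟩, rfl⟩
        have le : U (12 - n) ≤ U (12 - (n + 1)) := Subgroup.closure_mono (Set.image_mono
          fun i hi => ⟨le_trans (by omega) hi.1, hi.2⟩)
        apply le_antisymm
        · rw [Subgroup.closure_le]
          rintro _ ⟨i, hi, rfl⟩
          by_cases a : i = k
          · rw [a]; exact Or.inr s
          · refine Or.inl (Subgroup.subset_closure ⟨i, ⟨?_, hi.2⟩, rfl⟩)
            have : i.1 ≠ 11 - n := fun b => a (Fin.ext b)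
            have := hi.1
            omega
        · rintro x (hx | hx)
          · exact le hx
          · exact ((U _).mul_mem_cancel_right mk).1 (le hx)
      have nm : ∀ x ∈ U (12 - n), π x ≠ xo k := fun x hx e => xo_not_mem k hk (by
        have := Subgroup.mem_map_of_mem π hx
        rw [MonoidHom.map_closure, e] at this
        refine Subgroup.closure_mono ?_ this
        rintro _ ⟨_, ⟨i, hi, rfl⟩, rfl⟩
        refine ⟨i, ⟨?_, hi.2⟩, (l1 i).symm⟩
        show 11 - n < i.1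
        have := hi.1
        omega)
      rw [e]
      refine ⟨?_, ?_⟩
      · rintro (a | a)
        · exact i1 a
        · exact nm _ a (by rw [map_mul, h.pz, one_mul, l1])
      · rw [card_ext2 fun a => nm _ a (l1 k), i2, pow_succ, mul_comm]
  obtain ⟨k1, k2⟩ := key 12 le_rfl
  generalize U (12 - 12) = N at k1 k2
  have s1 : z * z ∈ N := by rw [h.sq]; exact N.one_mem
  have s2 : ∀ x ∈ N, z * x * z⁻¹ ∈ N := fun x hx => by rwa [h.cen, mul_inv_cancel_right]
  have i2 := index_ext2 (h1 := s1) (h2 := s2) k1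
  have c2 := card_ext2 (h1 := s1) (h2 := s2) k1
  have le : N ≤ ext2 N z s1 s2 := fun _ a => Or.inl a
  have mz : z ∈ ext2 N z s1 s2 := Or.inr s1
  generalize ext2 N z s1 s2 = H at i2 c2 le mz
  have i3 : H.index = 42525 := by
    have := H.index_mul_card
    rw [h.card', c2, k2] at this
    omega
  haveI : H.FiniteIndex := ⟨by omega⟩
  classical
  let lam : H →* ℤˣ := MonoidHom.mk' (fun x => if x ∈ N.subgroupOf H then 1 else -1) fun a b => by
    have := Subgroup.mul_mem_iff_of_index_two i2 (a := a) (b := b)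
    by_cases ha : a ∈ N.subgroupOf H <;> by_cases hb : b ∈ N.subgroupOf H <;> simp_all
  have e : z ^ H.index = z := by
    rw [i3, show 42525 = 2 * 21262 + 1 from rfl, pow_succ, pow_mul, pow_two, h.sq, one_pow, one_mul]
  refine ⟨lam.transfer, ?_⟩
  rw [MonoidHom.transfer_eq_pow lam z fun k g _ => by
    rw [mul_assoc, (Commute.pow_left (h.cen g) k).eq, inv_mul_cancel_left]]
  exact if_neg fun a => k1 (e ▸ (a : z ^ H.index ∈ N))

/-- the pattern of commutators -/
def Pat (π : X →* Om) (z : X) (j : Fin 3) : Prop :=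
  ∀ i x y, π x = xo 11 → π y = xo (dl i) → ⁅x, y⁆ = if i = j then 1 else z

theorem Cov.pat (h : Cov π z) (hn : ∀ χ : X →* ℤˣ, χ z ≠ -1) : ∃ j, Pat π z j := by
  suffices k : ∃ j, ∀ i, h.K 11 (dl i) = if i = j then 1 else z by
    obtain ⟨j, k⟩ := k
    exact ⟨j, fun i x y hx hy => (h.cm (hx.trans (h.lf_eq _).symm)
      (hy.trans (h.lf_eq _).symm)).trans (k i)⟩
  have p := h.prod
  have n : ¬(h.K 11 0 = 1 ∧ h.K 11 1 = 1 ∧ h.K 11 3 = 1) := fun k => by
    obtain ⟨χ, e⟩ := h.split fun j => by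
      fin_cases j
      exacts [k.1, k.2.1, k.2.2]
    exact hn χ e
  have t : ∀ j : Fin 3, h.K 11 0 = (if 0 = j then 1 else z) → h.K 11 1 = (if 1 = j then 1 else z) →
      h.K 11 3 = (if 2 = j then 1 else z) → ∃ j, ∀ i, h.K 11 (dl i) = if i = j then 1 else z :=
    fun j a b c => ⟨j, fun i => by
      fin_cases i
      exacts [a, b, c]⟩
  rcases h.ker _ (h.K_orth (a := 11) (b := 0) (by decide +kernel)) with a | a <;>
    rcases h.ker _ (h.K_orth (a := 11) (b := 3) (by decide +kernel)) with c | c <;>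
    rw [a, c] at p
  · exact absurd ⟨a, by rw [p, one_mul], c⟩ n
  · exact t 0 a (by rw [p, mul_one]; rfl) c
  · exact t 2 a (by rw [p, one_mul]; rfl) c
  · exact t 1 a (by rw [p, h.sq]; rfl) c

theorem Cov.twist (h : Cov π z) (θ : Om ≃* Om) : Cov (θ.toMonoidHom.comp π) z :=
  ⟨θ.surjective.comp h.surj, fun x e => h.ker x (θ.injective (e.trans (map_one θ).symm)), h.cen,
    h.sq, by simp [h.pz], h.ne⟩

theorem Pat.twist {j : Fin 3} (h : Pat π z j) {θ : Om ≃* Om} (hθ : ∀ a, θ (xo a) = xo (ti a)) :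
    Pat (θ.toMonoidHom.comp π) z (j + 2) := fun i x y hx hy => by
  have e : ∀ i : Fin 3, dl i = ti (dl (i + 1)) := by decide
  rw [h (i + 1) x y (θ.injective (hx.trans (hθ 11).symm))
    (θ.injective (hy.trans (by rw [hθ, ← e])))]
  exact if_congr (by clear * -; revert i j; decide) rfl rfl

theorem bij_ker {P Y : Type*} [Group P] [Group Y] {f : P →* Y} {χ : P →* ℤˣ} {e : P}
    (h1 : Function.Surjective f) (h2 : f e = 1) (h3 : χ e = -1) (h4 : ∀ x, f x = 1 → x = 1 ∨ x = e) :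
    Function.Bijective (f.comp χ.ker.subtype) := by
  refine ⟨(injective_iff_map_eq_one _).2 fun x hx => Subtype.ext ((h4 x.1 hx).resolve_right
    fun a => ?_), fun y => ?_⟩
  · have : χ x.1 = 1 := x.2
    rw [a, h3] at this
    exact absurd this (by decide)
  · obtain ⟨x, rfl⟩ := h1 y
    rcases Int.units_eq_one_or (χ x) with a | a
    · exact ⟨⟨x, a⟩, rfl⟩
    · exact ⟨⟨x * e, by rw [MonoidHom.mem_ker, map_mul, a, h3]; simp⟩, by simp [h2]⟩

theorem Cov.iso {Y : Type*} [Group Y] {ρ : Y →* Om} {t : Y} (h : Cov π z) (h' : Cov ρ t) {j : Fin 3}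
    (p : Pat π z j) (p' : Pat ρ t j) : ∃ e : X ≃* Y, e z = t := by
  let F : Subgroup (X × Y) := (π.comp (MonoidHom.fst _ _)).eqLocus (ρ.comp (MonoidHom.snd _ _))
  have mF : ∀ x : F, π x.1.1 = ρ x.1.2 := fun x => x.2
  let d : F := ⟨(z, t), h.pz.trans h'.pz.symm⟩
  let e1 : F := ⟨(z, 1), h.pz.trans (map_one ρ).symm⟩
  let e2 : F := ⟨(1, t), (map_one π).trans h'.pz.symm⟩
  have dd : d * d = 1 := Subtype.ext (Prod.ext h.sq h'.sq)
  have de : e2 = e1 * d := Subtype.ext (Prod.ext h.sq.symm (one_mul t).symm)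
  let D : Subgroup F :=
    { carrier := {x | x = 1 ∨ x = d}
      one_mem' := .inl rfl
      mul_mem' := by rintro _ _ (rfl | rfl) (rfl | rfl) <;> simp [dd]
      inv_mem' := by rintro _ (rfl | rfl) <;> simp [inv_eq_of_mul_eq_one_right dd] }
  haveI : D.Normal := ⟨by
    rintro _ (rfl | rfl) g
    · left; simp
    · right
      rw [mul_inv_eq_iff_eq_mul]
      exact Subtype.ext (Prod.ext (h.cen _).symm (h'.cen _).symm)⟩
  let f1 : F →* X := (MonoidHom.fst _ _).comp F.subtype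
  let f2 : F →* Y := (MonoidHom.snd _ _).comp F.subtype
  have s1 : Function.Surjective f1 := fun x => by
    obtain ⟨y, hy⟩ := h'.surj (π x)
    exact ⟨⟨(x, y), hy.symm⟩, rfl⟩
  have s2 : Function.Surjective f2 := fun y => by
    obtain ⟨x, hx⟩ := h.surj (ρ y)
    exact ⟨⟨(x, y), hx⟩, rfl⟩
  let σ : F ⧸ D →* Om := QuotientGroup.lift D (π.comp f1) (by
    rintro _ (rfl | rfl)
    exacts [map_one _, h.pz])
  have md : QuotientGroup.mk' D d = 1 := (QuotientGroup.eq_one_iff d).2 (Or.inr rfl)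
  have c : Cov σ (QuotientGroup.mk' D e1) := by
    refine ⟨fun g => ?_, fun x hx => ?_, fun x => ?_, ?_, h.pz, fun a => ?_⟩
    · obtain ⟨x, rfl⟩ := h.surj g
      obtain ⟨y, rfl⟩ := s1 x
      exact ⟨QuotientGroup.mk' D y, rfl⟩
    · obtain ⟨x, rfl⟩ := QuotientGroup.mk'_surjective D x
      have hx1 : π x.1.1 = 1 := hx
      rcases h.ker _ hx1 with a | a <;> rcases h'.ker _ ((mF x).symm.trans hx1) with b | b
      · left; rw [show x = 1 from Subtype.ext (Prod.ext a b), map_one]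
      · right; rw [show x = e2 from Subtype.ext (Prod.ext a b), de, map_mul, md, mul_one]
      · right; rw [show x = e1 from Subtype.ext (Prod.ext a b)]
      · left; rw [show x = d from Subtype.ext (Prod.ext a b), md]
    · obtain ⟨x, rfl⟩ := QuotientGroup.mk'_surjective D x
      rw [← map_mul, ← map_mul]
      exact congrArg _ (Subtype.ext (Prod.ext (h.cen _) (by simp [e1])))
    · rw [← map_mul, show e1 * e1 = 1 from Subtype.ext (Prod.ext h.sq (one_mul 1)), map_one]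
    · rcases (QuotientGroup.eq_one_iff e1).1 a with b | b
      · exact h.ne (congrArg (fun x : F => x.1.1) b)
      · exact h'.ne (congrArg (fun x : F => x.1.2) b).symm
  obtain ⟨χ, hχ⟩ := c.split fun i => by
    obtain ⟨x, hx⟩ := QuotientGroup.mk'_surjective D (c.lf 11)
    obtain ⟨y, hy⟩ := QuotientGroup.mk'_surjective D (c.lf (dl i))
    have a1 : π x.1.1 = xo 11 := by rw [← c.lf_eq, ← hx]; rfl
    have a2 : π y.1.1 = xo (dl i) := by rw [← c.lf_eq, ← hy]; rfl
    have b1 := p i _ _ a1 a2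
    have b2 := p' i _ _ ((mF x).symm.trans a1) ((mF y).symm.trans a2)
    rw [Cov.K, ← hx, ← hy, ← map_commutatorElement]
    split_ifs at b1 b2
    · rw [show ⁅x, y⁆ = 1 from Subtype.ext (Prod.ext b1 b2), map_one]
    · rw [show ⁅x, y⁆ = d from Subtype.ext (Prod.ext b1 b2), md]
  have k1 := bij_ker (f := f1) (χ := χ.comp (QuotientGroup.mk' D)) (e := e2) s1 rfl (by
    rw [de, map_mul, MonoidHom.comp_apply, MonoidHom.comp_apply, hχ, md, map_one, mul_one])
    fun x hx => by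
      have hx1 : x.1.1 = 1 := hx
      exact (h'.ker _ ((mF x).symm.trans (by rw [hx1, map_one]))).imp
        (fun b => Subtype.ext (Prod.ext hx1 b)) fun b => Subtype.ext (Prod.ext hx1 b)
  have k2 := bij_ker (f := f2) (χ := χ.comp (QuotientGroup.mk' D)) (e := e1) s2 rfl hχ
    fun x hx => by
      have hx1 : x.1.2 = 1 := hx
      exact (h.ker _ ((mF x).trans (by rw [hx1, map_one]))).imp
        (fun b => Subtype.ext (Prod.ext b hx1)) fun b => Subtype.ext (Prod.ext b hx1)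
  refine ⟨(MulEquiv.ofBijective _ k1).symm.trans (MulEquiv.ofBijective _ k2), ?_⟩
  have : (MulEquiv.ofBijective _ k1).symm z = ⟨d, by
      rw [MonoidHom.mem_ker, MonoidHom.comp_apply, md, map_one]⟩ := by
    rw [MulEquiv.symm_apply_eq]; rfl
  rw [MulEquiv.trans_apply, this]; rfl

theorem Cov.iso_Wp [IsSimpleGroup Om] (h : Cov π z) (hn : ∀ χ : X →* ℤˣ, χ z ≠ -1) :
    ∃ e : X ≃* Wp, e z = ngp := by
  obtain ⟨θ, hθ⟩ := triality
  obtain ⟨j, p⟩ := h.pat hn
  obtain ⟨k, q⟩ := cov_Wp.pat fun χ e => by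
    rw [show ngp = ⟨l0, l0_memp⟩ * ⟨l0, l0_memp⟩ from Subtype.ext l0_sq.symm, map_mul,
      Int.units_mul_self] at e
    exact absurd e (by decide)
  obtain rfl | rfl | rfl : k = j ∨ k = j + 2 ∨ k = j + 2 + 2 := by clear * -; revert j k; decide
  · exact h.iso cov_Wp p q
  · exact (h.twist θ).iso cov_Wp (p.twist hθ) q
  · exact ((h.twist θ).twist θ).iso cov_Wp ((p.twist hθ).twist hθ) q

end E8
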