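import Cfsg.Agent.E8.K

/-! Square roots of a conjugate of the central involution. -/

set_option autoImplicit false

namespace E8
open Matrix Equiv Cfsg

/-- commuting with many involutions -/
def Hy (b : O) : Prop := ∀ c ∈ Wp, ∀ d ∈ Wp, c * c * c = 1 → c * (b * b) = b * b * c →
  d * (b * b) = b * b * d → c * d * c⁻¹ * d⁻¹ * (c * d * c⁻¹ * d⁻¹) = 1 →
  b * (c * d * c⁻¹ * d⁻¹) = c * d * c⁻¹ * d⁻¹ * b

theorem Hy.conj {b w : O} (hw : w ∈ W) (h : Hy b) : Hy (w⁻¹ * b * w) := by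
  intro c hc d hd h1 h2 h3 h4
  obtain ⟨b, rfl⟩ := (MulAut.conj w).surjective b
  rw [show w⁻¹ * MulAut.conj w b * w = b by rw [MulAut.conj_apply]; group] at h2 h3 ⊢
  have := h (MulAut.conj w c) (Wp.conj hw hc) (MulAut.conj w d) (Wp.conj hw hd)
  simp only [← map_mul, ← map_inv, EmbeddingLike.apply_eq_iff_eq, EmbeddingLike.map_eq_one_iff]
    at this
  exact this h1 h2 h3 h4

theorem Hy.l0 {b : O} (hb : b ∈ W) (h : Hy b) (e : b * b = l0) : False := by
  have k : ∀ π : S8, Perm.sign π = 1 ∧ π * π * π = 1 ∧ π * om = om * π ∧ pa π v0 = v0 →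
      sg (pa π (bb 0 + bb 1) + (bb 0 + bb 1)) * b = b * sg (pa π (bb 0 + bb 1) + (bb 0 + bb 1)) :=
    fun π ⟨a1, a2, a3, a4⟩ => by
      have := h _ (pm_memp a1) _ (sg_memp (ev_pair 0 1)) (by rw [← pm_mul, ← pm_mul, a2, pm_one])
        (by rw [e, E8.l0, pm, mono_mul, mono_mul, a3, a4, pa_zero, add_comm])
        (by rw [e, E8.l0, sg, mono_mul, mono_mul]; congr 1; decide)
      rw [pm_conj_sg, sg_inv, ← sg_add] at this
      exact (this (sg_mul_self _)).symm
  have k1 := k (swap 0 2 * swap 2 4 * (swap 1 3 * swap 3 5)) (by decide)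
  have k2 := k (swap 0 4 * swap 4 2 * (swap 1 5 * swap 5 3)) (by decide)
  have k3 := k (swap 0 6 * swap 6 2 * (swap 1 7 * swap 7 3)) (by decide)
  have z : ∀ i : Fin 8, i.1 < 2 → ∀ j : Fin 8, 2 ≤ j.1 → b.1 j i = 0 := fun i hi j hj => by
    rw [← ap_ee]
    obtain c | c : 4 ≤ j.1 ∨ j.1 < 4 := by omega
    · exact comm_entry k1 (by clear * - hi c; revert i j; decide)
    · exact comm_entry k2 (by clear * - hi hj c; revert i j; decide)
  have m1 := congrFun (congrFun (congrArg Subtype.val e) 1) 0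
  have m0 := congrFun (congrFun (congrArg Subtype.val e) 0) 0
  have o0 := congrFun (congrFun (tr_mul b) 0) 0
  have o1 := congrFun (congrFun (tr_mul b) 1) 0
  obtain ⟨n, hn, -⟩ := hb _ (e4_mem 0)
  have n0 := congrFun hn 0
  have n1 := congrFun hn 1
  rw [ap_smul, Pi.smul_apply, ap_ee, ci_apply, smul_eq_mul] at n0 n1
  have z0 := z 0 (by decide)
  have z1 := z 1 (by decide)
  rw [show (E8.l0.1 1 0 : ℚ) = 1 by decide +kernel] at m1
  rw [show (E8.l0.1 0 0 : ℚ) = 0 by decide +kernel] at m0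
  simp only [Submonoid.coe_mul, mul_apply, Fin.sum_univ_eight, transpose_apply, z0 2 (by decide),
    z0 3 (by decide), z0 4 (by decide), z0 5 (by decide), z0 6 (by decide), z0 7 (by decide),
    mul_zero, add_zero, one_apply_eq] at m0 m1 o0 o1
  rw [one_apply_ne (by decide)] at o1
  have s : n 0 * n 0 + n 1 * n 1 = 16 := by
    have : ((n 0 * n 0 + n 1 * n 1 : ℤ) : ℚ) = 16 := by
      push_cast; rw [← n0, ← n1]; linear_combination 16 * o0
    exact_mod_cast this
  have t : n 0 = 0 ∨ n 1 = 0 := by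
    have : -4 ≤ n 0 := by nlinarith
    have : n 0 ≤ 4 := by nlinarith
    have : -4 ≤ n 1 := by nlinarith
    have : n 1 ≤ 4 := by nlinarith
    generalize n 0 = x at *
    generalize n 1 = y at *
    interval_cases x <;> interval_cases y <;> omega
  rcases t with t | t
  · have p : b.1 0 0 = 0 := by rw [t] at n0; simpa using n0
    rw [p] at m1 o1
    linarith
  · have p : b.1 1 0 = 0 := by rw [t] at n1; simpa using n1
    rw [p] at m1
    simp at m1

/-- data for the involutions used -/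
def yv (e : List ℕ × Fin 8 × Fin 8) : B8 := pa (wp e.1) (bb e.2.1 + bb e.2.2) + (bb e.2.1 + bb e.2.2)

theorem Hy.fs {b : O} (h : Hy b) {u : B8} (e : b * b = fs u) (l : List (List ℕ × Fin 8 × Fin 8))
    (hl : ∀ x ∈ l, wp x.1 * wp x.1 * wp x.1 = 1 ∧ pa (wp x.1) u = u) :
    ∀ x ∈ l, E8.fs (yv x) * b = b * E8.fs (yv x) := fun x hx => by
  obtain ⟨a1, a2⟩ := hl x hx
  have := h _ (fp_memp (wp_spec x.1).1 (wp_spec x.1).2) _ (fs_memp (ev_pair x.2.1 x.2.2))
    (by rw [← fp_mul, ← fp_mul, a1, fp_one])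
    (by rw [e, ← mul_inv_eq_iff_eq_mul, fp_conj_fs, a2]) (by rw [e, fs_comm])
  rw [fp_conj_fs, fs_inv, ← fs_add] at this
  exact (this (fs_mul_self _)).symm

theorem Hy.four {b : O} (h : Hy b) {u : B8} (e : b * b = E8.fs u)
    (l : List (List ℕ × Fin 8 × Fin 8))
    (hl : (∀ x ∈ l, wp x.1 * wp x.1 * wp x.1 = 1 ∧ pa (wp x.1) u = u) ∧
      ∀ i j, i ≠ j → ∃ x ∈ l, yv x i ≠ yv x j) : b * b = 1 := by
  obtain ⟨v, rfl⟩ := fs_of_comm (U := yv '' {x | x ∈ l}) (A := b) (fun i j n => by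
    obtain ⟨x, a, c⟩ := hl.2 i j n
    exact ⟨_, ⟨x, a, rfl⟩, c⟩) (by
    rintro _ ⟨x, a, rfl⟩
    exact h.fs e l hl.1 x a)
  exact fs_mul_self v

theorem Hy.two {b : O} (hb : b ∈ W) (h : Hy b) {u : B8} (e : b * b = E8.fs u)
    (hu : u = db 3 ∨ u = db 252) : False := by
  have k := h.fs e [([1, 1, 1, 1, 2, 1], 0, 2), ([1, 1, 1, 1, 2, 1], 0, 3),
    ([1, 1, 1, 1, 2, 1], 0, 4), ([1, 1, 1, 1, 2, 1], 0, 5)]
    (by rcases hu with rfl | rfl <;> decide +kernel)
  obtain ⟨B, rfl⟩ := tau.surjective b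
  have e' : B * B = sg u := tau.injective (by rw [map_mul, e]; rfl)
  have z : ∀ i j : Fin 8, i ≠ j → (2 ≤ i.1 ∨ 2 ≤ j.1) → ap B (ee i) j = 0 := fun i j a c => by
    obtain ⟨x, m, n⟩ : ∃ x ∈ [([1, 1, 1, 1, 2, 1], 0, 2), ([1, 1, 1, 1, 2, 1], 0, 3),
        ([1, 1, 1, 1, 2, 1], 0, 4), ([1, 1, 1, 1, 2, 1], 0, 5)], yv x j ≠ yv x i := by
      clear * - a c; revert i j; decide +kernel
    exact comm_entry (tau.injective (by rw [map_mul, map_mul]; exact k x m)) n
  have d : ∀ i, u i = 1 → ap B (ee i) i = 0 := fun i hi => by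
    have a : ap B (ee i) = -ap B⁻¹ (ee i) := ap_inj B (by
      rw [← ap_mul, e', ap_sg_ee, hi, ap_neg, ap_ap_inv, sn_one, neg_smul, one_smul])
    have c := dot_ap' B (ee i) (ee i)
    rw [dot_ee, ee_dot] at c
    have := congrFun a i
    rw [Pi.neg_apply, c] at this
    linarith
  rcases hu with rfl | rfl
  · have d0 := d 0 (by decide)
    have d1 := d 1 (by decide)
    obtain ⟨π, v, rfl⟩ := exists_mono (A := B) fun i => by
      by_cases a0 : i = 0
      · refine ⟨1, fun k hk => ?_⟩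
        by_cases a : k = 0
        · rw [a0, a, d0]
        · exact z i k (by rw [a0]; exact Ne.symm a) (.inr (by clear * - a hk; revert k; decide))
      by_cases a1 : i = 1
      · refine ⟨0, fun k hk => ?_⟩
        by_cases a : k = 1
        · rw [a1, a, d1]
        · exact z i k (by rw [a1]; exact Ne.symm a) (.inr (by clear * - a hk; revert k; decide))
      · exact ⟨i, fun k hk => z i k hk.symm (.inl (by clear * - a0 a1; revert i; decide))⟩
    have a := aff_of_mem hb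
    have nz : ∀ i, ap (mono π v) (ee i) (π i) ≠ 0 := fun i => by
      rw [ap_mono_ee, Pi.smul_apply, ee_self, smul_eq_mul, mul_one]; exact sn_ne _
    have f : ∀ i : Fin 8, 2 ≤ i.1 → π i = i := fun i hi => by
      by_contra hc
      exact nz i (z i _ (Ne.symm hc) (.inl hi))
    have := a.x3 (a := 2) (b := 4) (c := 6) (d := 0) (by decide) (by decide) (by decide) (by decide)
    rw [f 2 (by decide), f 4 (by decide), f 6 (by decide)] at this
    exact nz 0 (by rw [this]; exact d0)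
  · obtain ⟨j, hj⟩ := exists_ne_zero B 2
    by_cases a : j = 2
    · exact hj (by rw [a]; exact d 2 (by decide))
    · exact hj (z 2 j (Ne.symm a) (.inl le_rfl))

theorem Hy.core {b : O} (hb : b ∈ W) (h : Hy b)
    (e : b * b * (b * b) = 1 ∨ b * b * (b * b) = ng) : b * b = 1 ∨ b * b = ng := by
  have m := W.mul_mem hb hb
  have cj : ∀ w, w⁻¹ * b * w * (w⁻¹ * b * w) = w⁻¹ * (b * b) * w := fun w => by group
  rcases e with e | e
  swap
  · obtain ⟨w, hw, k⟩ := sqrt_class m e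
    exact ((h.conj hw).l0 (W.mul_mem (W.mul_mem (W.inv_mem hw) hb) hw) ((cj w).trans k)).elim
  obtain ⟨w, hw, u, k⟩ := inv_class m e
  obtain ⟨t, ht, σ, s1, s2, rfl⟩ := aff_trans u
  have hw' := Wp.mul_mem hw (fp_memp s1 s2)
  have k' : (w * fp σ)⁻¹ * (b * b) * (w * fp σ) = E8.fs (db (rp t)) := by
    rw [← fp_conj_fs] at k
    calc _ = (fp σ)⁻¹ * (w⁻¹ * (b * b) * w) * fp σ := by group
      _ = _ := by rw [k]; group
  generalize w * fp σ = w at hw' k'
  have ev : Ev (db (rp t)) := ev_of_fs (k' ▸ Wp.conj' hw'.1 ⟨m, (map_mul dt b b).trans (dt_mul_self b)⟩)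
  have h' := h.conj hw'.1
  have hb' := W.mul_mem (W.mul_mem (W.inv_mem hw'.1) hb) hw'.1
  have k1 := (cj w).trans k'
  have r : w⁻¹ * b * w * (w⁻¹ * b * w) = 1 → b * b = 1 ∨ b * b = ng := fun a => .inl (by
    rw [cj] at a
    calc b * b = w * (w⁻¹ * (b * b) * w) * w⁻¹ := by group
      _ = 1 := by rw [a]; group)
  interval_cases t
  · exact r (k1.trans (by rw [show db (rp 0) = 0 from db_zero, fs_zero]))
  · exact absurd ev (by decide)
  · exact (h'.two hb' k1 (.inl rfl)).elim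
  · exact absurd ev (by decide)
  · exact r (h'.four k1 [([0, 1, 1, 2, 1, 1, 1], 0, 5), ([0, 1, 1, 2, 1, 1, 1], 1, 6),
      ([1, 0, 1, 2, 1, 2, 1, 1], 0, 5)] (by decide +kernel))
  · exact absurd ev (by decide)
  · exact (h'.two hb' k1 (.inr rfl)).elim
  · exact absurd ev (by decide)
  · right
    rw [show db (rp 8) = 1 from db_255, fs_one] at k'
    rw [← conj_ng w, ← k']; group
  · exact r (h'.four k1 [([1, 1, 2, 1, 1, 1], 1, 4), ([1, 1, 2, 1, 1, 1], 2, 5),
      ([1, 1, 2, 1, 1, 1, 0], 1, 4)] (by decide +kernel))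

variable {G : Type*} [Group G] {f : O → G}

/-- an element acts as a lattice automorphism -/
def Acts (f : O → G) (h : G) (a : O) : Prop :=
  a ∈ W ∧ ∀ x ∈ Wp, h * f x * h⁻¹ = f (a * x * a⁻¹)
/-- the centraliser of the image -/
def KK (f : O → G) (k : G) : Prop := ∀ x ∈ Wp, k * f x = f x * k

/-- the local hypotheses -/
structure St (f : O → G) : Prop where
  emb : Emb f
  act : ∀ h, h * f ng = f ng * h → ∃ a, Acts f h a
  uniq : ∀ k, KK f k → k * k = 1 → k = 1 ∨ k = f ng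
  odd : ∀ k l, KK f k → KK f l → k * k * k = 1 → l * l * l = 1 →
    k * l * (k * l) * (k * l * (k * l)) = 1 → k * l = 1

theorem Acts.mul {g h : G} {a b : O} (h1 : Acts f g a) (h2 : Acts f h b) : Acts f (g * h) (a * b) :=
  ⟨W.mul_mem h1.1 h2.1, fun x hx => by
    calc g * h * f x * (g * h)⁻¹ = g * (h * f x * h⁻¹) * g⁻¹ := by group
      _ = _ := by rw [h2.2 x hx, h1.2 _ (Wp.conj h2.1 hx)]; congr 1; group⟩
theorem Acts.inv {g : G} {a : O} (h : Acts f g a) : Acts f g⁻¹ a⁻¹ :=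
  ⟨W.inv_mem h.1, fun x hx => by
    have := h.2 _ (Wp.conj' h.1 hx)
    rw [show a * (a⁻¹ * x * a) * a⁻¹ = x by group] at this
    rw [← this, inv_inv, inv_inv]; group⟩
theorem Emb.acts (h : Emb f) {x : O} (hx : x ∈ Wp) : Acts f (f x) x :=
  ⟨hx.1, fun _ hy => (h.conj hx hy).symm⟩
theorem KK.acts {k : G} (h : KK f k) : Acts f k 1 :=
  ⟨W.one_mem, fun x hx => by rw [h x hx]; simp⟩
theorem kk_one : KK f 1 := fun _ _ => by simp
theorem Acts.kk {g : G} {a : O} (h : Acts f g a) (e : a = 1 ∨ a = ng) : KK f g := fun x hx => by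
  rw [← mul_inv_eq_iff_eq_mul, h.2 x hx]
  rcases e with rfl | rfl
  · simp
  · rw [ng_comm, mul_inv_cancel_right]
theorem Acts.cen (he : Emb f) {g : G} {a : O} (h : Acts f g a) (k : KK f g) : a = 1 ∨ a = ng :=
  central fun x hx => mul_inv_eq_iff_eq_mul.1 (he.inj _ (Wp.conj h.1 hx) _ hx (by
    rw [← h.2 x hx, k x hx, mul_inv_cancel_right]))
theorem Acts.comm (he : Emb f) {g : G} {a x : O} (h : Acts f g a) (hx : x ∈ Wp) :
    g * f x = f x * g ↔ a * x = x * a := by
  rw [← mul_inv_eq_iff_eq_mul, ← mul_inv_eq_iff_eq_mul (a := a * x), h.2 x hx]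
  exact ⟨he.inj _ (Wp.conj h.1 hx) _ hx, fun e => by rw [e]⟩
theorem Acts.z {g : G} {a : O} (h : Acts f g a) : g * f ng = f ng * g := by
  rw [← mul_inv_eq_iff_eq_mul, h.2 _ ng_memp, conj_ng]
theorem Acts.dec (he : Emb f) {g : G} {a : O} (h : Acts f g a) (ha : a ∈ Wp) :
    ∃ k, KK f k ∧ g = f a * k :=
  ⟨(f a)⁻¹ * g, ((he.acts ha).inv.mul h).kk (.inl (inv_mul_cancel a)), by group⟩
theorem Acts.sq (he : Emb f) {g : G} {a : O} (h : Acts f g a) (e : g * g = 1) :
    a * a = 1 ∨ a * a = ng := (h.mul h).cen he (e ▸ kk_one)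
theorem Emb.zz (h : Emb f) : f ng * f ng = 1 := by
  rw [← h.mul _ ng_memp _ ng_memp, ng_mul_self, h.one]
theorem Emb.z_ne (h : Emb f) : f ng ≠ 1 := fun e => ng_ne_one (h.eq_one ng_memp e)
theorem Emb.kz (h : Emb f) : KK f (f ng) := (h.acts ng_memp).kk (.inr rfl)
theorem KK.mul {k l : G} (h : KK f k) (h' : KK f l) : KK f (k * l) := fun x hx => by
  rw [mul_assoc, h' x hx, ← mul_assoc, h x hx, mul_assoc]

theorem St.three (h : St f) {g : G} (hz : g * f ng = f ng * g) (e : g * g * g = 1) :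
    ∃ u ∈ Wp, ∃ k, KK f k ∧ k * k * k = 1 ∧ g = f u * k := by
  obtain ⟨a, ha⟩ := h.act g hz
  have c := ((ha.mul ha).mul ha).cen h.emb (e ▸ kk_one)
  have m : a ∈ Wp := ⟨ha.1, by
    have : dt (a * a * a) = 1 := by
      rcases c with c | c <;> rw [c]
      exacts [map_one _, dt_ng]
    rwa [map_mul, map_mul, dt_mul_self, one_mul] at this⟩
  obtain ⟨k, hk, rfl⟩ := ha.dec h.emb m
  have p : f a * k * (f a * k) * (f a * k) = f (a * a * a) * (k * k * k) := by
    rw [h.emb.mul _ (Wp.mul_mem m m) _ m, h.emb.mul _ m _ m]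
    simp only [mul_assoc]
    rw [← mul_assoc k (f a), hk a m, ← mul_assoc k (f a), hk a m]
    simp only [mul_assoc]
    rw [← mul_assoc k (f a), hk a m]
    simp only [mul_assoc]
  rw [e] at p
  rcases c with c | c <;> rw [c] at p
  · exact ⟨a, m, k, hk, by rw [p, h.emb.one, one_mul], rfl⟩
  · refine ⟨a * ng, Wp.mul_mem m ng_memp, f ng * k, h.emb.kz.mul hk, ?_, ?_⟩
    · have c := hk ng ng_memp
      have c3 := (show Commute (f ng) k from c.symm).mul_pow 3
      simp only [pow_succ, pow_zero, one_mul] at c3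
      rw [c3, h.emb.zz, one_mul, ← p]
    · rw [h.emb.mul _ m _ ng_memp, mul_assoc, ← mul_assoc (f ng), h.emb.zz, one_mul]

theorem St.two_three (h : St f) {g l : G} (hg : g * f ng = f ng * g) (hl : l * f ng = f ng * l)
    (e1 : g * g * g = 1) (e2 : l * l * l = 1) (e : g * l * (g * l) = 1) : ∃ u ∈ Wp, g * l = f u := by
  obtain ⟨u, hu, k, hk, k3, rfl⟩ := h.three hg e1
  obtain ⟨w, hw, m, hm, m3, rfl⟩ := h.three hl e2
  have uw := Wp.mul_mem hu hw
  have p : f u * k * (f w * m) = f (u * w) * (k * m) := by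
    rw [h.emb.mul _ hu _ hw, mul_assoc, ← mul_assoc k, hk w hw]; group
  rw [p] at e ⊢
  have km := hk.mul hm
  have q : f (u * w * (u * w)) * (k * m * (k * m)) = 1 := by
    have c2 := (show Commute (f (u * w)) (k * m) from (km _ uw).symm).mul_pow 2
    simp only [pow_two] at c2
    rw [h.emb.mul _ uw _ uw, ← c2, e]
  have c := ((h.emb.acts (Wp.mul_mem uw uw)).inv.cen h.emb (by
    rw [← eq_inv_of_mul_eq_one_right q]; exact km.mul km))
  have r : k * m * (k * m) * (k * m * (k * m)) = 1 := by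
    rw [eq_inv_of_mul_eq_one_right q, ← h.emb.inv (Wp.mul_mem uw uw)]
    rcases c with c | c <;> rw [c]
    exacts [by rw [h.emb.one, one_mul], h.emb.zz]
  exact ⟨_, uw, by rw [h.odd k m hk hm k3 m3 r, mul_one]⟩

theorem St.sq {f' : O → G} (h : St f) (h' : St f') (hn : f ng ≠ f' ng) {x : G} (hx : KK f' x)
    (e : x * x = f' ng) (hz : x * f ng = f ng * x) : False := by
  obtain ⟨b, hb⟩ := h.act x hz
  have a := hb.mul hb
  rw [e] at a
  have hy : Hy b := fun c hc d hd h1 h2 h3 h4 => by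
    have z1 : f c * f' ng = f' ng * f c := ((a.comm h.emb hc).2 h2.symm).symm
    have z2 : f d * f' ng = f' ng * f d := ((a.comm h.emb hd).2 h3.symm).symm
    have m := Wp.conj hd.1 (Wp.inv_mem hc)
    have p : f c * f (d * c⁻¹ * d⁻¹) = f (c * d * c⁻¹ * d⁻¹) := by
      rw [← h.emb.mul _ hc _ m]; congr 1; group
    have my := Wp.comm hc.1 hd.1
    obtain ⟨u, hu, k⟩ := h'.two_three (g := f c) (l := f (d * c⁻¹ * d⁻¹)) z1 (by
      rw [h.emb.conj hd (Wp.inv_mem hc), h.emb.inv hc]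
      exact (((show Commute (f d) (f' ng) from z2).mul_left
        (show Commute (f c) (f' ng) from z1).inv_left).mul_left
        (show Commute (f d) (f' ng) from z2).inv_left).eq)
      (by rw [← h.emb.mul _ hc _ hc, ← h.emb.mul _ (Wp.mul_mem hc hc) _ hc, h1, h.emb.one])
      (by
        rw [← h.emb.mul _ m _ m, ← h.emb.mul _ (Wp.mul_mem m m) _ m, ← h.emb.one]
        congr 1
        calc _ = d * (c * c * c)⁻¹ * d⁻¹ := by group
          _ = 1 := by rw [h1]; group)
      (by rw [p, ← h.emb.mul _ my _ my, h4, h.emb.one])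
    refine (hb.comm h.emb my).1 ?_
    rw [← p, k]; exact hx u hu
  rcases h.uniq _ (a.kk (hy.core hb.1 (a.sq h.emb h'.emb.zz))) h'.emb.zz with k | k
  · exact h'.emb.z_ne k
  · exact hn k.symm

theorem St.conjG (h : St f) (g : G) : St fun x => g⁻¹ * f x * g := by
  have kk : ∀ k, KK (fun x => g⁻¹ * f x * g) k → KK f (g * k * g⁻¹) := fun k hk x hx => by
    have := hk x hx
    calc g * k * g⁻¹ * f x = g * (k * (g⁻¹ * f x * g)) * g⁻¹ := by group
      _ = _ := by rw [this]; group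
  refine ⟨h.emb.conjG g, fun k hk => ?_, fun k hk e => ?_, fun k l hk hl e1 e2 e3 => ?_⟩
  · obtain ⟨a, ha⟩ := h.act (g * k * g⁻¹) (by
      calc g * k * g⁻¹ * f ng = g * (k * (g⁻¹ * f ng * g)) * g⁻¹ := by group
        _ = _ := by rw [hk]; group)
    refine ⟨a, ha.1, fun x hx => ?_⟩
    show _ = g⁻¹ * f _ * g
    rw [← ha.2 x hx]; group
  · rcases h.uniq _ (kk k hk) (by
      calc _ = g * (k * k) * g⁻¹ := by group
        _ = 1 := by rw [e]; group) with a | a
    · left; simpa using a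
    · right; show _ = g⁻¹ * f _ * g; rw [← a]; group
  · have := h.odd _ _ (kk k hk) (kk l hl) (by
      calc _ = g * (k * k * k) * g⁻¹ := by group
        _ = 1 := by rw [e1]; group) (by
      calc _ = g * (l * l * l) * g⁻¹ := by group
        _ = 1 := by rw [e2]; group) (by
      calc _ = g * (k * l * (k * l) * (k * l * (k * l))) * g⁻¹ := by group
        _ = 1 := by rw [e3]; group)
    calc k * l = g⁻¹ * (g * k * g⁻¹ * (g * l * g⁻¹)) * g := by group
      _ = 1 := by rw [this]; group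

end E8
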