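import Cfsg.Agent.E8.L

/-! The central involution is isolated. -/

set_option autoImplicit false

namespace E8
open Matrix Equiv Cfsg

variable {G : Type*} [Group G] {f f' : O → G}

theorem St.inn (h : St f) {e : G} {b : O} (he : e * e = 1) (ha : Acts f e b) (hb : b ∈ Wp)
    (h2 : b * b = 1) : ∃ y ∈ Wp, f y = e := by
  obtain ⟨k, hk, rfl⟩ := ha.dec h.emb hb
  have c := (show Commute (f b) k from (hk b hb).symm).mul_pow 2
  simp only [pow_two] at c
  rw [c, ← h.emb.mul _ hb _ hb, h2, h.emb.one, one_mul] at he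
  rcases h.uniq k hk he with rfl | rfl
  · exact ⟨b, hb, (mul_one _).symm⟩
  · exact ⟨_, Wp.mul_mem hb ng_memp, h.emb.mul _ hb _ ng_memp⟩

theorem ev_of_trc : ∀ v : B8, ∑ i, sn (v i) = 0 → Ev v := by decide +kernel

theorem St.sq1 (h : St f) (h' : St f') (hn : f ng ≠ f' ng) (hc : f' ng * f ng = f ng * f' ng)
    {e : G} {b : O} (he : e * e = 1) (hz : f' ng * e = e * f' ng) (ha : Acts f e b) :
    b * b = 1 := by
  obtain ⟨u, hu⟩ := h.act _ hc
  have k0 : ∀ e b, e * e = 1 → Acts f e b → b * b = ng →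
      (∀ k, KK f k → e = f b * k → f' ng * k = k * f' ng) → False := fun e b he ha c d => by
    have hb := dt_of_sq_ng ha.1 c
    obtain ⟨k, hk, rfl⟩ := ha.dec h.emb hb
    have c2 := (show Commute (f b) k from (hk b hb).symm).mul_pow 2
    simp only [pow_two] at c2
    rw [c2, ← h.emb.mul _ hb _ hb, c] at he
    refine h'.sq h hn.symm hk ?_ (d k hk rfl).symm
    rw [eq_inv_of_mul_eq_one_right he, inv_eq_of_mul_eq_one_right h.emb.zz]
  have k1 : ∀ e b, e * e = 1 → f' ng * e = e * f' ng → Acts f e b → b * b = ng →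
      u * b = b * u → False := fun e b he hz ha c d => k0 e b he ha c fun k hk a => by
    have := (hu.comm h.emb (dt_of_sq_ng ha.1 c)).2 d
    rw [eq_inv_mul_iff_mul_eq.2 a.symm]
    exact ((show Commute (f' ng) (f b) from this).inv_right.mul_right
      (show Commute (f' ng) e from hz)).eq
  have u2 : u * u = 1 := (hu.sq h.emb h'.emb.zz).resolve_right fun c =>
    k1 _ u h'.emb.zz rfl hu c rfl
  refine (ha.sq h.emb he).resolve_right fun c => ?_
  rcases (((hu.mul ha).mul hu.inv).mul ha.inv).cen h.emb (by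
    rw [hz, mul_inv_cancel_right, mul_inv_cancel]; exact kk_one) with d | d
  · exact k1 e b he hz ha c (mul_inv_eq_iff_eq_mul.1 (mul_inv_eq_one.1 d))
  have t : trc u = 0 := by
    have : ng * (b * u * b⁻¹) = u := by rw [← d]; group
    have := congrArg trc this
    rw [trc_ng, trc_conj] at this
    linarith
  obtain ⟨w, hw, v, a⟩ := inv_class hu.1 u2
  have m : u ∈ Wp := by
    have : trc (w⁻¹ * u * w⁻¹⁻¹) = 0 := by rw [trc_conj, t]
    rw [inv_inv, a, fs, trc_tau, trc_sg] at this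
    have := Wp.conj hw.1 (fs_memp (ev_of_trc v this))
    rwa [← a, show w * (w⁻¹ * u * w) * w⁻¹ = u by group] at this
  obtain ⟨y, hy, a⟩ := h.inn h'.emb.zz hu m u2
  exact k0 e b he ha c fun k hk _ => by rw [← a, hk y hy]

theorem ev_odd {x y : B8} (hx : ¬Ev x) (hy : ¬Ev y) : Ev (x + y) := by
  unfold Ev at *
  simp only [Pi.add_apply, Finset.sum_add_distrib]
  rw [(z2 _).resolve_left hx, (z2 _).resolve_left hy]; rfl

theorem Acts.cj (he : Emb f) {e : G} {b c : O} (ha : Acts f e b) (hc : c ∈ Wp) :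
    f c * e * (f c)⁻¹ = f (c * (b * c⁻¹ * b⁻¹)) * e := by
  rw [he.mul _ hc _ (Wp.conj ha.1 (Wp.inv_mem hc)), ← ha.2 _ (Wp.inv_mem hc), he.inv hc]; group

theorem Acts.eq (he : Emb f) {e : G} {b c : O} (ha : Acts f e b) (hc : Acts f e c) :
    c = b ∨ c = b * ng := by
  rcases (ha.inv.mul hc).cen he (by rw [inv_mul_cancel]; exact kk_one) with d | d
  · exact .inl (inv_mul_eq_one.1 d).symm
  · exact .inr (inv_mul_eq_iff_eq_mul.1 d)

/-- lifts of the frame group -/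
structure Fr (f : O → G) (E : B8 → Prop) (ψ : B8 → G) : Prop where
  ev : ∀ v, Ev v → E v
  eadd : ∀ x y, E x → E y → E (x + y)
  add : ∀ x y, E x → E y → ψ (x + y) = ψ x * ψ y
  evn : ∀ v, Ev v → ψ v = f (fs v)
  act : ∀ x, E x → Acts f (ψ x) (fs x)

variable {E : B8 → Prop} {ψ : B8 → G}

theorem Fr.one (hF : Fr f E ψ) : ψ 1 = f ng := by rw [hF.evn _ ev_one, fs_one]
theorem Fr.sq (h : Emb f) (hF : Fr f E ψ) {x : B8} (hx : E x) : ψ x * ψ x = 1 := by
  rw [← hF.add _ _ hx hx, b8_add_self, hF.evn _ ev_zero, fs_zero, h.one]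
theorem Fr.comm (hF : Fr f E ψ) {x y : B8} (hx : E x) (hy : E y) : ψ x * ψ y = ψ y * ψ x := by
  rw [← hF.add _ _ hx hy, add_comm, hF.add _ _ hy hx]
theorem Fr.inj (h : Emb f) (hF : Fr f E ψ) {x y : B8} (hx : E x) (hy : E y) (e : ψ x = ψ y) :
    x = y := by
  have a : ψ (x + y) = 1 := by rw [hF.add _ _ hx hy, e, hF.sq h hy]
  rcases (hF.act _ (hF.eadd _ _ hx hy)).cen h (a ▸ kk_one) with d | d
  · exact b8_eq (fs_inj (d.trans fs_zero.symm))
  · rw [fs_inj (d.trans fs_one.symm), hF.one] at a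
    exact absurd a h.z_ne

theorem Fr.fix (h : St f) (hF : Fr f E ψ) {n : G} (h1 : ∀ x, E x → ∃ y, E y ∧ n * ψ x * n⁻¹ = ψ y)
    (h2 : ∀ x, E x → ∃ y, E y ∧ n⁻¹ * ψ x * n = ψ y) : n * f ng * n⁻¹ = f ng := by
  have inj := @hF.inj _ _ _ _ _ h.emb
  have add : ∀ (g : B8 → B8) (γ : G), (∀ x, E x → E (g x) ∧ γ * ψ x * γ⁻¹ = ψ (g x)) →
      ∀ x y, E x → E y → g (x + y) = g x + g y := fun g γ a x y hx hy =>
    inj (a _ (hF.eadd _ _ hx hy)).1 (hF.eadd _ _ (a _ hx).1 (a _ hy).1) (by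
      rw [hF.add _ _ (a _ hx).1 (a _ hy).1, ← (a _ hx).2, ← (a _ hy).2,
        ← (a _ (hF.eadd _ _ hx hy)).2, hF.add _ _ hx hy]; group)
  have k : Gam E fun g => ∃ γ : G, (∀ x, E x → E (g x) ∧ γ * ψ x * γ⁻¹ = ψ (g x)) ∧
      ∀ y, E y → ∃ x, E x ∧ g x = y := by
    refine ⟨hF.ev, hF.eadd, fun g ⟨γ, a, _⟩ x hx => (a x hx).1, fun g ⟨γ, a, _⟩ => add g γ a,
      fun g k ⟨γ, a, b⟩ ⟨δ, c, d⟩ => ⟨γ * δ, fun x hx => ⟨(a _ (c x hx).1).1, ?_⟩, fun y hy => ?_⟩,
      fun g ⟨γ, a, b⟩ => ?_, fun σ s1 s2 => ?_, fun g ⟨γ, a, _⟩ e => ?_⟩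
    · rw [Function.comp_apply, ← (a _ (c x hx).1).2, ← (c x hx).2]; group
    · obtain ⟨x, hx, rfl⟩ := b y hy
      obtain ⟨x', hx', rfl⟩ := d x hx
      exact ⟨x', hx', rfl⟩
    · choose! k k1 k2 using b
      have k3 : ∀ x, E x → k (g x) = x := fun x hx => inj (k1 _ (a x hx).1) hx (by
        have := (a _ (k1 _ (a x hx).1)).2
        rw [k2 _ (a x hx).1, ← (a x hx).2] at this
        simpa using this)
      refine ⟨k, ⟨γ⁻¹, fun y hy => ⟨k1 y hy, ?_⟩, fun x hx => ⟨_, (a x hx).1, k3 x hx⟩⟩, k3, k2⟩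
      have := (a _ (k1 y hy)).2
      rw [k2 y hy] at this
      rw [← this]; group
    · have e : ∀ (σ : S8) x, E x → E (pa σ x) := fun σ x hx => by
        have := hF.eadd _ _ hx (hF.ev _ (ev_add_pa σ x))
        rwa [← add_assoc, b8_add_self, zero_add] at this
      refine ⟨f (fp σ), fun x hx => ⟨e σ x hx, ?_⟩, fun y hy => ⟨_, e σ⁻¹ y hy, pa_pa_inv _ _⟩⟩
      rw [(hF.act x hx).cj h.emb (fp_memp s1 s2), ← mul_assoc, ← mul_assoc, fp_conj_fs, fs_inv,
        ← fs_add, add_comm, ← hF.evn _ (ev_add_pa σ x), ← hF.add _ _ (hF.ev _ (ev_add_pa σ x)) hx,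
        add_right_comm, b8_add_self, zero_add]
    · have e1 := hF.ev _ ev_one
      have := (a _ e1).2
      rw [e, hF.one, mul_inv_eq_iff_eq_mul] at this
      obtain ⟨c, hc⟩ := h.act γ this
      have p : ∀ x, E x → c * fs x * c⁻¹ = fs (g x) ∨ c * fs x * c⁻¹ = fs (g x + 1) :=
        fun x hx => by
          rw [fs_add, fs_one]
          refine (hF.act _ (a x hx).1).eq h.emb ?_
          rw [← (a x hx).2]
          exact (hc.mul (hF.act x hx)).mul hc.inv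
      obtain ⟨π, v, q⟩ := fm_of_conj sep_ev (A := c⁻¹) fun w hw => by
        rcases p w (hF.ev w hw) with d | d <;> exact ⟨_, by rw [← d]; group⟩
      have s : Aff π⁻¹ := (aff_of_mem (q ▸ W.inv_mem hc.1)).inv
      have r : ∀ x, c * fs x * c⁻¹ = fs (pa π⁻¹ x) := fun x => by
        have := fm_conj_fs π v (pa π⁻¹ x)
        rw [pa_pa_inv, ← q] at this
        rw [← this]; group
      generalize π⁻¹ = σ at s r
      have r1 : ∀ x, Ev x → g x = pa σ x := fun x hx =>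
        inj (a _ (hF.ev _ hx)).1 (hF.ev _ (hx.pa σ)) (by
          rw [← (a _ (hF.ev _ hx)).2, hF.evn _ hx, hF.evn _ (hx.pa σ), hc.2 _ (fs_memp hx), r])
      obtain ⟨ε, r2⟩ : ∃ ε : ZMod 2, ∀ x, E x → ¬Ev x → g x = pa σ x + ε • (1 : B8) := by
        by_cases ex : ∃ x, E x ∧ ¬Ev x
        swap
        · exact ⟨0, fun x b c => absurd ⟨x, b, c⟩ ex⟩
        obtain ⟨x0, b0, c0⟩ := ex
        obtain ⟨ε, d⟩ : ∃ ε : ZMod 2, g x0 = pa σ x0 + ε • (1 : B8) := by
          rcases p x0 b0 with d | d <;> rw [r] at d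
          · exact ⟨0, by rw [fs_inj d, zero_smul, add_zero]⟩
          · exact ⟨1, by rw [fs_inj d, one_smul, add_assoc, b8_add_self, add_zero]⟩
        refine ⟨ε, fun x b c => ?_⟩
        have ev := ev_odd c c0
        have := add g γ a _ _ (hF.ev _ ev) b0
        rw [add_assoc, b8_add_self, add_zero, r1 _ ev, d, pa_add, ← add_assoc, add_assoc (pa σ x),
          b8_add_self, add_zero] at this
        exact this
      refine ⟨σ, ε, s, fun x hx => ?_⟩
      rcases z2 (∑ i, x i) with d | d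
      · rw [d, mul_zero, zero_smul, add_zero, r1 x d]
      · rw [d, mul_one, r2 x hx fun c => by rw [Ev, d] at c; exact one_ne_zero c]
  choose! g g1 g2 using h1
  have := k.fix (g := g) ⟨n, fun x hx => ⟨g1 x hx, g2 x hx⟩, fun y hy => by
    obtain ⟨x, hx, e⟩ := h2 y hy
    exact ⟨x, hx, inj (g1 x hx) hy (by rw [← g2 x hx, ← e]; group)⟩⟩
  rw [← hF.one, g2 _ (hF.ev _ ev_one), this]

theorem aff_move {w : B8} (h0 : w ≠ 0) (h1 : w ≠ 1) :
    ∃ σ, Aff σ ∧ Perm.sign σ = 1 ∧ pa σ w ≠ w := by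
  have : ∀ w : B8, w ≠ 0 → w ≠ 1 → pa (ag 0) w ≠ w ∨ pa (ag 1) w ≠ w := by decide +kernel
  rcases this w h0 h1 with a | a
  exacts [⟨_, (ag_spec _).1, (ag_spec _).2, a⟩, ⟨_, (ag_spec _).1, (ag_spec _).2, a⟩]

theorem Fr.contra (h : St f) (h' : St f') (hF : Fr f E ψ) (hn : f ng ≠ f' ng) {u : B8} (hu : E u)
    (hs : ψ u = f' ng) (hc : 128 ≤ Nat.card {x // E x ∧ ∃ y ∈ Wp, f' y = ψ x}) : False := by
  have he := h'.emb
  let D : Subgroup O :=
    { carrier := {y | y ∈ Wp ∧ ∃ x, E x ∧ f' y = ψ x}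
      one_mem' := ⟨Wp.one_mem, 0, hF.ev _ ev_zero, by
        rw [he.one, hF.evn _ ev_zero, fs_zero, h.emb.one]⟩
      mul_mem' := by
        rintro a b ⟨ha, x, hx, e⟩ ⟨hb, y, hy, k⟩
        exact ⟨Wp.mul_mem ha hb, _, hF.eadd _ _ hx hy, by
          rw [he.mul _ ha _ hb, e, k, hF.add _ _ hx hy]⟩
      inv_mem' := by
        rintro a ⟨ha, x, hx, e⟩
        exact ⟨Wp.inv_mem ha, x, hx, by
          rw [he.inv ha, e, inv_eq_of_mul_eq_one_right (hF.sq h.emb hx)]⟩ }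
  have hD : D ≤ Wp := fun _ a => a.1
  have c : 128 ≤ Nat.card D := by
    have : Finite D := Finite.of_injective _ (Subgroup.inclusion_injective hD)
    have ex : ∀ x : {x // E x ∧ ∃ y ∈ Wp, f' y = ψ x}, ∃ y : D, f' y = ψ x := fun ⟨x, a, y, b, e⟩ =>
      ⟨⟨y, b, x, a, e⟩, e⟩
    choose k hk using ex
    exact hc.trans (Nat.card_le_card_of_injective k fun x y e =>
      Subtype.ext (hF.inj h.emb x.2.1 y.2.1 (by rw [← hk, e, hk])))
  obtain ⟨Φ, p1, p2⟩ : ∃ Φ : O ≃* O, (∀ v, Ev v → Φ (sg v) ∈ D) ∧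
      ∀ σ, Aff σ → Perm.sign σ = 1 → Φ (pm σ) ∈ Wp := by
    obtain ⟨b, hb, k | k⟩ := big_class hD (by
      rintro a ⟨ha, x, hx, e⟩
      exact he.eq_one (Wp.mul_mem ha ha) (by rw [he.mul _ ha _ ha, e, hF.sq h.emb hx])) c
    · exact ⟨MulAut.conj b, k.2, fun σ _ s => Wp.conj hb.1 (pm_memp s)⟩
    · exact ⟨tau.trans (MulAut.conj b), k.2, fun σ r s => Wp.conj hb.1 (fp_memp r s)⟩
  have ac : ∀ x, E x → ∃ w, Acts f' (ψ x) (Φ (sg w)) := fun x hx => by
    obtain ⟨a, ha⟩ := h'.act (ψ x) (by rw [← hs, hF.comm hx hu])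
    obtain ⟨a, rfl⟩ := Φ.surjective a
    obtain ⟨w, rfl⟩ := sg_of_comm sep_ev (A := a) fun v hv => Φ.injective (by
      obtain ⟨m, y, hy, e⟩ := p1 v hv
      rw [map_mul, map_mul]
      exact ((ha.comm he m).1 (by rw [e, hF.comm hx hy])).symm)
    exact ⟨w, ha⟩
  have cj : ∀ σ, Aff σ → Perm.sign σ = 1 → ∀ x w, Acts f' (ψ x) (Φ (sg w)) →
      f' (Φ (pm σ)) * ψ x * (f' (Φ (pm σ)))⁻¹ = f' (Φ (sg (w + pa σ w))) * ψ x :=
    fun σ r s x w a => by
      rw [a.cj he (p2 σ r s), ← mul_assoc, ← mul_assoc, ← map_inv, ← map_inv, ← map_mul, ← map_mul,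
        ← map_mul, pm_conj_sg, sg_inv, ← sg_add, add_comm]
  have nm : ∀ σ, Aff σ → Perm.sign σ = 1 → ∀ x, E x →
      ∃ y, E y ∧ f' (Φ (pm σ)) * ψ x * (f' (Φ (pm σ)))⁻¹ = ψ y := fun σ r s x hx => by
    obtain ⟨w, a⟩ := ac x hx
    obtain ⟨-, y, hy, e⟩ := p1 _ (ev_add_pa σ w)
    exact ⟨_, hF.eadd _ _ hy hx, by rw [cj σ r s x w a, e, hF.add _ _ hy hx]⟩
  obtain ⟨w, a⟩ := ac 1 (hF.ev _ ev_one)
  have nk : ¬KK f' (ψ 1) := fun k => by
    rw [hF.one] at k
    exact (h'.uniq _ k h.emb.zz).elim h.emb.z_ne hn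
  obtain ⟨σ, r, s, t⟩ := aff_move (w := w)
    (fun e => nk (a.kk (.inl (by rw [e, sg_zero, map_one])))) fun e => nk (a.kk (.inr (by
      rw [e]
      refine (central fun x _ => ?_).resolve_left fun c => ng_ne_one (Φ.map_eq_one_iff.1 c)
      obtain ⟨x, rfl⟩ := Φ.surjective x
      rw [← map_mul, ← map_mul]
      exact congrArg Φ (ng_comm x))))
  have := hF.fix h (nm σ r s) fun x hx => by
    have := nm σ⁻¹ r.inv (by rw [Perm.sign_inv, s]) x hx
    rwa [pm_inv, map_inv, he.inv (p2 σ r s), inv_inv] at this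
  rw [← hF.one, cj σ r s 1 w a, mul_eq_right] at this
  have := Φ.map_eq_one_iff.1 (he.eq_one (hD (p1 _ (ev_add_pa σ w))) this)
  exact t (b8_eq (sg_inj (this.trans sg_zero.symm))).symm

theorem fr_ev (h : Emb f) : Fr f Ev fun v => f (fs v) :=
  ⟨fun _ a => a, fun _ _ => Ev.add, fun _ _ a b => by
    rw [fs_add, h.mul _ (fs_memp a) _ (fs_memp b)], fun _ _ => rfl, fun _ a => h.acts (fs_memp a)⟩

theorem fr_odd (h : Emb f) {t : G} {u : B8} (hu : ¬Ev u) (ht : t * t = 1) (ha : Acts f t (fs u)) :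
    ∃ ψ, Fr f (fun _ => True) ψ ∧ ψ u = t := by
  have c : ∀ v, Ev v → t * f (fs v) = f (fs v) * t := fun v hv =>
    (ha.comm h (fs_memp hv)).2 (fs_comm _ _)
  have m : ∀ v w, Ev v → Ev w → f (fs (v + w)) = f (fs v) * f (fs w) := (fr_ev h).add
  refine ⟨fun v => if Ev v then f (fs v) else f (fs (v + u)) * t, ⟨fun _ _ => trivial,
    fun _ _ _ _ => trivial, fun x y _ _ => ?_, fun v hv => if_pos hv, fun x _ => ?_⟩, ?_⟩
  · by_cases hx : Ev x <;> by_cases hy : Ev y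
    · simp only [if_pos hx, if_pos hy, if_pos (hx.add hy), m x y hx hy]
    · have : ¬Ev (x + y) := fun a => hy (by
        have := hx.add a
        rwa [← add_assoc, b8_add_self, zero_add] at this)
      simp only [if_pos hx, if_neg hy, if_neg this]
      rw [add_assoc, m _ _ hx (ev_odd hy hu), mul_assoc]
    · have : ¬Ev (x + y) := fun a => hx (by
        have := a.add hy
        rwa [add_assoc, b8_add_self, add_zero] at this)
      simp only [if_pos hy, if_neg hx, if_neg this]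
      rw [add_right_comm, m _ _ (ev_odd hx hu) hy, mul_assoc, mul_assoc, c y hy]
    · simp only [if_neg hy, if_neg hx, if_pos (ev_odd hx hy)]
      rw [mul_assoc, ← mul_assoc t, c _ (ev_odd hy hu), mul_assoc, ht, mul_one,
        ← m _ _ (ev_odd hx hu) (ev_odd hy hu), add_add_add_comm, b8_add_self, add_zero]
  · by_cases hx : Ev x
    · simp only [if_pos hx]; exact h.acts (fs_memp hx)
    · simp only [if_neg hx]
      have := (h.acts (fs_memp (ev_odd hx hu))).mul ha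
      rwa [← fs_add, add_assoc, b8_add_self, add_zero] at this
  · simp only [if_neg hu]
    rw [b8_add_self, fs_zero, h.one, one_mul]

theorem Fr.full (h : St f) (h' : St f') (hF : Fr f (fun _ => True) ψ) (hn : f ng ≠ f' ng) {u : B8}
    (hs : ψ u = f' ng) : False := by
  classical
  refine hF.contra h h' hn trivial hs ?_
  have z : ∀ x, ψ x * f' ng = f' ng * ψ x := fun x => by rw [← hs, hF.comm trivial trivial]
  have z' : ∀ x, f ng * ψ x = ψ x * f ng := fun x => by rw [← hF.one, hF.comm trivial trivial]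
  have i : ∀ x b, Acts f' (ψ x) b → b ∈ Wp → ∃ y ∈ Wp, f' y = ψ x := fun x b a m =>
    h'.inn (hF.sq h.emb trivial) a m (h'.sq1 h hn.symm (by rw [← hF.one, z])
      (hF.sq h.emb trivial) (z' x) a)
  generalize hP : (fun x => True ∧ ∃ y ∈ Wp, f' y = ψ x) = P
  have k : ∀ x y, ¬P x → ¬P y → P (x + y) := fun x y hx hy => by
    subst hP
    obtain ⟨a, ha⟩ := h'.act _ (z x)
    obtain ⟨b, hb⟩ := h'.act _ (z y)
    have := ha.mul hb
    rw [← hF.add _ _ trivial trivial] at this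
    refine ⟨trivial, i _ _ this ⟨this.1, ?_⟩⟩
    show dt (a * b) = 1
    rw [map_mul, (dt_cases a).resolve_left fun c => hx ⟨trivial, i _ _ ha ⟨ha.1, c⟩⟩,
      (dt_cases b).resolve_left fun c => hy ⟨trivial, i _ _ hb ⟨hb.1, c⟩⟩]
    norm_num
  have c : Fintype.card {x // ¬P x} ≤ Fintype.card {x // P x} := by
    by_cases a : ∃ x, ¬P x
    · obtain ⟨y, hy⟩ := a
      exact Fintype.card_le_of_injective (fun x => ⟨_, k _ y x.2 hy⟩) fun _ _ e =>
        Subtype.ext (add_right_cancel (congrArg Subtype.val e))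
    · rw [Fintype.card_eq_zero_iff.2 ⟨fun x => a ⟨_, x.2⟩⟩]; exact Nat.zero_le _
  rw [Fintype.card_subtype_compl, show Fintype.card B8 = 256 by simp] at c
  have : 128 ≤ Fintype.card {x // P x} := by omega
  rwa [← Nat.card_eq_fintype_card] at this

theorem St.iso0 (h : St f) {g : G} {u : B8} (ha : Acts f (g⁻¹ * f ng * g) (fs u)) :
    g⁻¹ * f ng * g = f ng := by
  by_contra hn
  have h' := h.conjG g
  have hn' := Ne.symm hn
  by_cases hu : Ev u
  swap
  · obtain ⟨ψ, a, b⟩ := fr_odd h.emb hu h'.emb.zz ha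
    exact a.full h h' hn' b
  obtain ⟨v, hv, e⟩ : ∃ v, Ev v ∧ f (fs v) = g⁻¹ * f ng * g := by
    obtain ⟨y, hy, e⟩ := h.inn h'.emb.zz ha (fs_memp hu) (fs_mul_self u)
    rcases ha.eq h.emb (e ▸ h.emb.acts hy) with rfl | rfl
    · exact ⟨u, hu, e⟩
    · exact ⟨_, hu.add ev_one, by rw [fs_add, fs_one, e]⟩
  by_cases hA : ∀ e b, e * e = 1 → Acts f e b → b ∈ Wp
  · refine (fr_ev h.emb).contra h h' hn' hv e ?_
    rw [← card_ev]
    refine (Nat.card_congr (Equiv.subtypeEquivRight fun x => ⟨fun hx => ⟨hx, ?_⟩, fun a => a.1⟩)).le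
    have s := (fr_ev h.emb).sq h.emb hx
    obtain ⟨b, hb⟩ := h'.act (f (fs x)) (by
      show _ * (g⁻¹ * f ng * g) = (g⁻¹ * f ng * g) * _
      rw [← e]; exact (fr_ev h.emb).comm hx hv)
    refine h'.inn s hb (hA (g * f (fs x) * g⁻¹) b (by
      calc _ = g * (f (fs x) * f (fs x)) * g⁻¹ := by group
        _ = 1 := by rw [s]; group) ⟨hb.1, fun y hy => ?_⟩)
      (h'.sq1 h hn ha.z.symm s (h.emb.acts (fs_memp hx)).z.symm hb)
    have := hb.2 y hy
    calc _ = g * (f (fs x) * (g⁻¹ * f y * g) * (f (fs x))⁻¹) * g⁻¹ := by group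
      _ = _ := by rw [this]; group
  push Not at hA
  obtain ⟨t, b, t2, tb, n⟩ := hA
  obtain ⟨w, hw, x, k⟩ := inv_class tb.1
    ((tb.sq h.emb t2).resolve_right fun c => n (dt_of_sq_ng tb.1 c))
  have := ((h.emb.acts hw).inv.mul tb).mul (h.emb.acts hw)
  rw [k] at this
  obtain ⟨ψ, a, -⟩ := fr_odd h.emb (fun c => n (by
    have := Wp.conj hw.1 (fs_memp c)
    rwa [← k, show w * (w⁻¹ * b * w) * w⁻¹ = b by group] at this)) (by
    calc _ = (f w)⁻¹ * (t * t) * f w := by group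
      _ = 1 := by rw [t2]; group) this
  exact a.full h h' hn' ((a.evn v hv).trans e)

theorem St.iso (h : St f) (g : G) (hc : g⁻¹ * f ng * g * f ng = f ng * (g⁻¹ * f ng * g)) :
    g⁻¹ * f ng * g = f ng := by
  by_contra hn
  have h' := h.conjG g
  obtain ⟨u, hu⟩ := h.act _ hc
  obtain ⟨w, hw, x, k⟩ := inv_class hu.1 (h.sq1 h' (Ne.symm hn) hc h'.emb.zz rfl hu)
  have := ((h.emb.acts hw).inv.mul hu).mul (h.emb.acts hw)
  rw [k, show (f w)⁻¹ * (g⁻¹ * f ng * g) * f w = (g * f w)⁻¹ * f ng * (g * f w) by group] at this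
  have e := h.iso0 this
  apply hn
  calc g⁻¹ * f ng * g = f w * ((g * f w)⁻¹ * f ng * (g * f w)) * (f w)⁻¹ := by group
    _ = _ := by rw [e, (h.emb.acts hw).z, mul_inv_cancel_right]

end E8
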