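import Cfsg.Agent.E8.M
import Cfsg.Agent.E8.J
import Cfsg.Agent.H3.ZCor
import Cfsg.Prelude.Def_Local

/-! Assembly. -/

set_option autoImplicit false

namespace E8
open Matrix Equiv Cfsg

/-- transport of isometries along a field isomorphism -/
def isoMap {F K : Type*} [Field F] [Field K] (r : F ≃+* K) :
    isometryGroup F (quadFormPlus 4 F) →* isometryGroup K (quadFormPlus 4 K) :=
  ((GeneralLinearGroup.map (r : F →+* K)).comp (Subgroup.subtype _)).codRestrict _ fun g u _ => by
    obtain ⟨u, rfl⟩ : ∃ w : II → F, u = (r : F →+* K) ∘ w :=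
      ⟨r.symm ∘ u, funext fun i => by simp⟩
    have q : ∀ w : II → F, quadFormPlus 4 K ((r : F →+* K) ∘ w) = r (quadFormPlus 4 F w) :=
      fun w => by simp [quadFormPlus]
    have := g.2 u u
    show quadFormPlus 4 K ((g.1 : Matrix II II F).map (r : F →+* K) *ᵥ _) = quadFormPlus 4 K _
    rw [show (g.1 : Matrix II II F).map (r : F →+* K) *ᵥ ((r : F →+* K) ∘ u) =
      (r : F →+* K) ∘ ((g.1 : Matrix II II F) *ᵥ u) from
        funext fun i => (RingHom.map_mulVec _ _ _ i).symm, q, q]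
    exact congrArg r this

theorem isoMap_symm {F K : Type*} [Field F] [Field K] (r : F ≃+* K)
    (g : isometryGroup F (quadFormPlus 4 F)) : isoMap r.symm (isoMap r g) = g :=
  Subtype.ext (Units.ext (Matrix.ext fun _ _ => r.symm_apply_apply _))

theorem om_congr {F : Type*} [Field F] (r : F ≃+* ZMod 2) :
    Nonempty (POmega F (quadFormPlus 4 F) ≃* Om) := by
  let e : isometryGroup F (quadFormPlus 4 F) ≃* O2 :=
    (isoMap r).toMulEquiv (isoMap r.symm) (MonoidHom.ext (isoMap_symm r))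
      (MonoidHom.ext (isoMap_symm r.symm))
  have h : (commutator _).map e.toMonoidHom = commutator O2 := by
    rw [map_commutator_eq, (MonoidHom.range_eq_top (f := e.toMonoidHom)).2 e.surjective]; rfl
  let d : Omega F (quadFormPlus 4 F) ≃* Om := (e.subgroupMap _).trans (MulEquiv.subgroupCongr h)
  have c : Subgroup.center (Omega F (quadFormPlus 4 F)) = ⊥ := by
    rw [eq_bot_iff]
    intro x hx
    have : d x ∈ Subgroup.center Om := Subgroup.mem_center_iff.2 fun y => by
      obtain ⟨y, rfl⟩ := d.surjective y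
      rw [← map_mul, ← map_mul, Subgroup.mem_center_iff.1 hx]
    rw [center_Om] at this
    exact d.map_eq_one_iff.1 this
  exact ⟨((QuotientGroup.quotientMulEquivOfEq c).trans QuotientGroup.quotientBot).trans d⟩

theorem cyc_syl {K : Type*} [Group K] [Finite K] (hR : ∀ R : Sylow 2 K, IsCyclic R) {z : K}
    (z1 : z ≠ 1) (z2 : z * z = 1) (zc : ∀ k, k * z = z * k) :
    (∀ k : K, k * k = 1 → k = 1 ∨ k = z) ∧ ∀ k l : K, k * k * k = 1 → l * l * l = 1 →
      k * l * (k * l) * (k * l * (k * l)) = 1 → k * l = 1 := by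
  classical
  obtain ⟨P⟩ : Nonempty (Sylow 2 K) := inferInstance
  have hp : (Nat.card K).minFac = 2 := (Nat.minFac_eq_two_iff _).2 (by
    rw [← orderOf_eq_prime (p := 2) (by rw [pow_two, z2]) z1]; exact orderOf_dvd_natCard z)
  obtain ⟨φ, hφ⟩ : ∃ φ : K →* P, ∀ x, φ x = 1 → x ^ 2 ^ 2 = 1 → x = 1 := by
    refine ⟨MonoidHom.transferSylow P ((hR P).normalizer_le_centralizer hp), fun x a b => ?_⟩
    have n := MonoidHom.not_dvd_card_ker_transferSylow P ((hR P).normalizer_le_centralizer hp)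
    have := Subgroup.orderOf_dvd_natCard _ (MonoidHom.mem_ker.2 a)
    obtain ⟨i, -, e⟩ := (Nat.dvd_prime_pow Nat.prime_two).1 (orderOf_dvd_of_pow_eq_one b)
    rcases i with _ | i
    · exact orderOf_eq_one_iff.1 e
    · exact absurd ((Dvd.intro_left _ (pow_succ 2 i).symm).trans (e ▸ this)) n
  have h2 : ∀ x, φ x = 1 → x * x = 1 → x = 1 := fun x a b => hφ x a (by
    rw [pow_two, pow_mul, pow_two, pow_two, b, one_mul])
  refine ⟨fun k hk => ?_, fun k l a b c => hφ _ ?_ (by
    rw [pow_two, pow_mul, pow_two, pow_two, c])⟩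
  · by_contra hn
    push Not at hn
    let _ : Fintype P := Fintype.ofFinite _
    have := hR P
    have := IsCyclic.card_pow_eq_one_le (α := P) (n := 2) (by norm_num)
    have h3 : ({1, φ k, φ z} : Finset P) ⊆ Finset.univ.filter fun a : P => a ^ 2 = 1 := by
      intro x hx
      simp only [Finset.mem_insert, Finset.mem_singleton] at hx
      rcases hx with rfl | rfl | rfl
      · simp
      · simp [pow_two, ← map_mul, hk]
      · simp [pow_two, ← map_mul, z2]
    have h4 := Finset.card_le_card h3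
    rw [Finset.card_eq_three.2 ⟨_, _, _, fun e => hn.1 (h2 k e.symm hk),
      fun e => z1 (h2 z e.symm z2), fun e => hn.2 ?_, rfl⟩] at h4
    · have h5 : 3 ≤ 2 := h4.trans this
      omega
    · have := h2 (k * z) (by rw [map_mul, e, ← map_mul, z2, map_one]) (by
        rw [mul_assoc, ← mul_assoc z, ← zc, mul_assoc, z2, mul_one, hk])
      rw [eq_inv_of_mul_eq_one_left this, inv_eq_of_mul_eq_one_right z2]
  · have t : ∀ k, k * k * k = 1 → φ k = 1 := fun k a => by
      obtain ⟨n, hn⟩ := P.2 (φ k)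
      have d : φ k ^ 3 = 1 := by rw [← map_pow, pow_three', a, map_one]
      exact orderOf_eq_one_iff.1 (Nat.eq_one_of_dvd_coprimes
        (show Nat.Coprime 3 (2 ^ n) from Nat.Coprime.pow_right _ (by norm_num))
        (orderOf_dvd_of_pow_eq_one d) (orderOf_dvd_of_pow_eq_one hn))
    rw [map_mul, t k a, t l b, one_mul]

theorem normal_of_standard {G : Type*} [Group G] [Finite G] (hO : oddCore G = ⊥) (L : Subgroup G)
    (hL : IsStandardSubgroup L) (hZ : Nat.card (Subgroup.center L) = 2)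
    (i : (L ⧸ Subgroup.center L) ≃* Om)
    (hR : ∀ R : Sylow 2 (Subgroup.centralizer (L : Set G)),
      IsCyclic (R : Subgroup (Subgroup.centralizer (L : Set G)))) : L.Normal := by
  classical
  have := hL.1.2
  have : IsSimpleGroup Om := i.symm.isSimpleGroup
  obtain ⟨⟨z, zc⟩, z1, z2⟩ := (Nat.card_eq_two_iff' (1 : Subgroup.center L)).1 hZ
  have zk : ∀ x ∈ Subgroup.center L, x = 1 ∨ x = z := fun x hx => by
    by_cases a : x = 1
    · exact .inl a
    · exact .inr (congrArg Subtype.val (z2 ⟨x, hx⟩ fun b => a (congrArg Subtype.val b)))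
  have zn : z ≠ 1 := fun a => z1 (Subtype.ext a)
  have cov : Cov (i.toMonoidHom.comp (QuotientGroup.mk' _)) z :=
    ⟨i.surjective.comp (QuotientGroup.mk'_surjective _), fun x a => zk x
      ((QuotientGroup.eq_one_iff x).1 (i.map_eq_one_iff.1 a)),
      fun x => (Subgroup.mem_center_iff.1 zc x).symm,
      (zk _ (mul_mem zc zc)).resolve_right fun a => zn (mul_eq_left.1 a),
      i.map_eq_one_iff.2 ((QuotientGroup.eq_one_iff z).2 zc), zn⟩
  obtain ⟨e, ez⟩ := cov.iso_Wp fun χ a => by
    have : z ∈ commutator L := by rw [hL.1.1.commutator_eq_top]; trivial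
    have := Abelianization.commutator_subset_ker χ this
    rw [MonoidHom.mem_ker, a] at this
    exact absurd this (by decide)
  obtain ⟨f, hf⟩ : ∃ f : O → G, ∀ x (h : x ∈ Wp), f x = e.symm ⟨x, h⟩ :=
    ⟨fun x => if h : x ∈ Wp then e.symm ⟨x, h⟩ else 1, fun x h => dif_pos h⟩
  have fe : ∀ a : L, f (e a) = a := fun a => by rw [hf _ (e a).2]; simp
  have fz : f ng = z := by rw [← fe, ez]; rfl
  have em : Emb f := ⟨fun x hx y hy => by
    rw [hf _ hx, hf _ hy, hf _ (mul_mem hx hy), ← Subgroup.coe_mul, ← map_mul]; rfl,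
    fun x hx y hy a => by
      rw [hf _ hx, hf _ hy] at a
      exact congrArg Subtype.val (e.symm.injective (Subtype.ext a))⟩
  have kk : ∀ k, KK f k → k ∈ Subgroup.centralizer (L : Set G) := fun k hk a ha => by
    have := hk _ (e ⟨a, ha⟩).2
    rw [fe] at this
    exact this.symm
  have ot : orderOf (f ng) = 2 := orderOf_eq_prime (by rw [pow_two, em.zz]) em.z_ne
  have tK := kk _ em.kz
  have hN : ∀ g, g * f ng = f ng * g → g ∈ Subgroup.normalizer (L : Set G) := fun g hg => by
    rw [hL.2.2.2]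
    by_contra hc
    have h1 := hL.2.1.2 g hc
    have h2 : f ng ∈ Subgroup.centralizer (L : Set G) ⊓
        (Subgroup.centralizer (L : Set G)).map (MulAut.conj g).toMonoidHom :=
      ⟨tK, _, tK, mul_inv_eq_iff_eq_mul.2 hg⟩
    have h3 := Subgroup.orderOf_dvd_natCard _ h2
    rw [ot] at h3
    exact (Nat.not_even_iff_odd.2 h1) (even_iff_two_dvd.2 h3)
  obtain ⟨c1, c2⟩ := cyc_syl hR (z := ⟨_, tK⟩) (fun a => em.z_ne (congrArg Subtype.val a))
    (Subtype.ext em.zz) fun k => Subtype.ext (k.2 (f ng) (by rw [fz]; exact z.2)).symm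
  have st : St f := ⟨em, fun h hh => ?_, fun k a b => ?_, fun k l a b c d e => congrArg Subtype.val
    (c2 ⟨k, kk k a⟩ ⟨l, kk l b⟩ (Subtype.ext c) (Subtype.ext d) (Subtype.ext e))⟩
  · have hi : IsIsolated (f ng) := fun g hg => by
      have := st.iso g⁻¹ (by rw [inv_inv]; exact hg.eq.symm)
      rwa [inv_inv] at this
    rw [← Subgroup.normalizer_eq_top_iff, eq_top_iff]
    exact fun g _ => hN g (H3.commute_of_isolated hO ot hi g)
  · have m : ∀ x ∈ Wp, h * f x * h⁻¹ ∈ L := fun x hx =>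
      (Subgroup.mem_normalizer_iff.1 (hN h hh) _).1 (hf x hx ▸ (e.symm _).2)
    obtain ⟨β, b1, b2⟩ : ∃ β : O → O, (∀ x ∈ Wp, β x ∈ Wp) ∧ ∀ x ∈ Wp, f (β x) = h * f x * h⁻¹ :=
      ⟨fun x => if a : x ∈ Wp then e ⟨_, m x a⟩ else 1, fun x a => by
        simp only [dif_pos a]; exact (e _).2, fun x a => by simp only [dif_pos a]; rw [fe]⟩
    obtain ⟨a, ha, k⟩ := aut_inner (β := β) ⟨fun x hx y hy => em.inj _ (b1 _ (mul_mem hx hy)) _
      (mul_mem (b1 _ hx) (b1 _ hy)) (by
        rw [em.mul _ (b1 _ hx) _ (b1 _ hy), b2 _ hx, b2 _ hy, b2 _ (mul_mem hx hy), em.mul _ hx _ hy]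
        group), fun x hx y hy a => em.inj _ hx _ hy (by
          have := b2 x hx
          rw [a, b2 y hy] at this
          simpa using this.symm)⟩ b1
    exact ⟨a, ha, fun x hx => by rw [← b2 x hx, k x hx]⟩
  · exact (c1 ⟨k, kk k a⟩ (Subtype.ext b)).imp (congrArg Subtype.val) (congrArg Subtype.val)

end E8
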