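import Cfsg.Agent.E8.C

/-! Numerical codes for vectors and isometries modulo two. -/

set_option autoImplicit false

namespace E8
open Matrix Equiv Cfsg

/-- the vector with a given code -/
def dv (n : ℕ) : V := fun k => if n.testBit (ix k) then 1 else 0
/-- the code of a vector -/
def evv (v : V) : ℕ := (v (.inl 0)).val + 2 * (v (.inl 1)).val + 4 * (v (.inl 2)).val +
  8 * (v (.inl 3)).val + 16 * (v (.inr 0)).val + 32 * (v (.inr 1)).val + 64 * (v (.inr 2)).val +
  128 * (v (.inr 3)).val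
theorem dv_ev : ∀ v : V, evv v < 256 ∧ dv (evv v) = v := by decide +kernel
theorem ev_dv : ∀ n < 256, evv (dv n) = n := by decide +kernel
theorem exists_dv (v : V) : ∃ n < 256, dv n = v := ⟨_, dv_ev v⟩
theorem dv_inj {m n : ℕ} (hm : m < 256) (hn : n < 256) (h : dv m = dv n) : m = n := by
  rw [← ev_dv m hm, h, ev_dv n hn]
theorem dv_zero : dv 0 = 0 := funext fun k => by simp [dv]
theorem dv_xor (a b : ℕ) : dv (a ^^^ b) = dv a + dv b := funext fun k => by
  simp only [dv, Nat.testBit_xor, Pi.add_apply]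
  cases a.testBit (ix k) <;> cases b.testBit (ix k) <;> decide
theorem dv_mod (a : ℕ) : dv (a % 256) = dv a := funext fun k => by
  have : (ix k).1 < 8 := (ix k).2
  simp only [dv, show 256 = 2 ^ 8 from rfl, Nat.testBit_mod_two_pow, this, decide_true,
    Bool.true_and]
theorem dv_single : ∀ k : II, dv (2 ^ (ix k).1) = Pi.single k 1 := by decide +kernel

/-- the quadratic form on codes -/
def qn (n : ℕ) : Bool :=
  ((n.testBit 0 && n.testBit 4) ^^ (n.testBit 1 && n.testBit 5)) ^^
    ((n.testBit 2 && n.testBit 6) ^^ (n.testBit 3 && n.testBit 7))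
theorem Q_dv : ∀ n < 256, QQ (dv n) = if qn n then 1 else 0 := by decide +kernel

/-- a column of a coded matrix -/
def col (c i : ℕ) : ℕ := c >>> (8 * i) % 256
/-- a coded matrix applied to a coded vector -/
def lin (c n : ℕ) : ℕ :=
  (if n.testBit 0 then col c 0 else 0) ^^^ (if n.testBit 1 then col c 1 else 0) ^^^
  (if n.testBit 2 then col c 2 else 0) ^^^ (if n.testBit 3 then col c 3 else 0) ^^^
  ((if n.testBit 4 then col c 4 else 0) ^^^ (if n.testBit 5 then col c 5 else 0) ^^^
  (if n.testBit 6 then col c 6 else 0) ^^^ (if n.testBit 7 then col c 7 else 0))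
/-- evaluation before substitution -/
def frc {α : Type} (n : ℕ) (f : ℕ → α) : α := Nat.rec (f n) (fun m _ => f m) (Nat.succ n)
theorem frc_eq {α : Type} (n : ℕ) (f : ℕ → α) : frc n f = f n := rfl
/-- the product of coded matrices -/
def cmp (c d : ℕ) : ℕ := frc c fun c => frc d fun d =>
  lin c (col d 0) % 256 + 256 * (lin c (col d 1) % 256 + 256 * (lin c (col d 2) % 256 +
  256 * (lin c (col d 3) % 256 + 256 * (lin c (col d 4) % 256 + 256 * (lin c (col d 5) % 256 +
  256 * (lin c (col d 6) % 256 + 256 * (lin c (col d 7) % 256)))))))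
/-- the code of the identity -/
def cid : ℕ := 0x8040201008040201

theorem col_cmp (c d : ℕ) (i : Fin 8) : col (cmp c d) i = lin c (col d i) % 256 := by
  have h0 := Nat.mod_lt (lin c (col d 0)) (show 0 < 256 by norm_num)
  have h1 := Nat.mod_lt (lin c (col d 1)) (show 0 < 256 by norm_num)
  have h2 := Nat.mod_lt (lin c (col d 2)) (show 0 < 256 by norm_num)
  have h3 := Nat.mod_lt (lin c (col d 3)) (show 0 < 256 by norm_num)
  have h4 := Nat.mod_lt (lin c (col d 4)) (show 0 < 256 by norm_num)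
  have h5 := Nat.mod_lt (lin c (col d 5)) (show 0 < 256 by norm_num)
  have h6 := Nat.mod_lt (lin c (col d 6)) (show 0 < 256 by norm_num)
  have h7 := Nat.mod_lt (lin c (col d 7)) (show 0 < 256 by norm_num)
  rw [cmp, frc_eq, frc_eq, col, Nat.shiftRight_eq_div_pow]
  fin_cases i <;> simp only [] <;>
    generalize lin c (col d 0) % 256 = a0 at * <;> generalize lin c (col d 1) % 256 = a1 at * <;>
    generalize lin c (col d 2) % 256 = a2 at * <;> generalize lin c (col d 3) % 256 = a3 at * <;>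
    generalize lin c (col d 4) % 256 = a4 at * <;> generalize lin c (col d 5) % 256 = a5 at * <;>
    generalize lin c (col d 6) % 256 = a6 at * <;> generalize lin c (col d 7) % 256 = a7 at * <;>
    omega

/-- a matrix has the given code -/
def RepM (M : Matrix II II (ZMod 2)) (c : ℕ) : Prop :=
  ∀ k, M *ᵥ Pi.single k 1 = dv (col c (ix k))
/-- an isometry has the given code -/
def Rep (g : O2) (c : ℕ) : Prop := RepM (g.1 : Matrix II II (ZMod 2)) c

theorem RepM.app {M : Matrix II II (ZMod 2)} {c : ℕ} (h : RepM M c) (n : ℕ) :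
    M *ᵥ dv n = dv (lin c n) := by
  have e : ∀ k : II, M *ᵥ (dv n k • Pi.single k 1) =
      dv (if n.testBit (ix k) then col c (ix k) else 0) := fun k => by
    rw [mulVec_smul, h k, dv]
    split_ifs
    · exact one_smul _ _
    · rw [zero_smul, dv_zero]
  have e2 : dv n = ∑ k, dv n k • (Pi.single k 1 : V) := by
    conv_lhs => rw [← Finset.univ_sum_single (dv n)]
    exact Finset.sum_congr rfl fun k _ => by rw [← Pi.single_smul', smul_eq_mul, mul_one]
  rw [e2, mulVec_sum]
  simp only [e, Fintype.sum_sum_type, Fin.sum_univ_four, lin, dv_xor]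
  rfl

theorem RepM.mul {M N : Matrix II II (ZMod 2)} {c d : ℕ} (h : RepM M c) (h' : RepM N d) :
    RepM (M * N) (cmp c d) := fun k => by
  rw [← mulVec_mulVec, h' k, h.app, col_cmp, dv_mod]
theorem repM_one : RepM 1 cid := fun k => by
  rw [one_mulVec]; revert k; decide +kernel
theorem RepM.ext {M N : Matrix II II (ZMod 2)} {c : ℕ} (h : RepM M c) (h' : RepM N c) : M = N :=
  Matrix.ext fun j k => by
    simpa [mulVec_single_one] using congrFun ((h k).trans (h' k).symm) j

theorem Rep.app {g : O2} {c : ℕ} (h : Rep g c) (n : ℕ) : a2 g (dv n) = dv (lin c n) := RepM.app h n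
theorem Rep.mul {g h : O2} {c d : ℕ} (hg : Rep g c) (hh : Rep h d) : Rep (g * h) (cmp c d) :=
  RepM.mul hg hh
theorem rep_one : Rep 1 cid := repM_one
theorem Rep.ext {g h : O2} {c : ℕ} (hg : Rep g c) (hh : Rep h c) : g = h :=
  Subtype.ext (Units.ext (RepM.ext hg hh))
theorem Rep.ext' {g h : O2} {c d : ℕ} (hg : Rep g c) (hh : Rep h d) (e : c = d) : g = h :=
  hg.ext (e ▸ hh)

/-- the matrix with a given code -/
def mat (c : ℕ) : Matrix II II (ZMod 2) := Matrix.of fun j k => dv (col c (ix k)) j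
theorem repM_mat (c : ℕ) : RepM (mat c) c := fun k => funext fun j => by
  simp [mat, mulVec_single_one]

/-- a code describes an involutive isometry -/
def Good (c : ℕ) : Prop := cmp c c = cid ∧ ∀ n < 256, qn (lin c n % 256) = qn n
instance decGood (c : ℕ) : Decidable (Good c) := by unfold Good; infer_instance

/-- the isometry with a given code -/
def mk2 (c : ℕ) (h : Good c) : O2 :=
  ⟨⟨mat c, mat c, ((repM_mat c).mul (repM_mat c)).ext (h.1 ▸ repM_one),
    ((repM_mat c).mul (repM_mat c)).ext (h.1 ▸ repM_one)⟩, fun u _ => by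
    obtain ⟨n, hn, rfl⟩ := exists_dv u
    show QQ (mat c *ᵥ dv n) = QQ (dv n)
    rw [(repM_mat c).app, ← dv_mod, Q_dv _ (Nat.mod_lt _ (by norm_num)), h.2 n hn, Q_dv n hn]⟩
theorem rep_mk2 (c : ℕ) (h : Good c) : Rep (mk2 c h) c := repM_mat c

/-- evaluation of words -/
def wdc (gs : List ℕ) (l : List ℕ) : ℕ := l.foldr (fun a m => cmp (gs.getD a cid) m) cid
/-- evaluation of words on vectors -/
def wdv (gs : List ℕ) (l : List ℕ) (n : ℕ) : ℕ :=
  l.foldr (fun a m => frc m fun m => lin (gs.getD a cid) m) n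

theorem getD_rep {H : Subgroup O2} {gs : List ℕ} (h : ∀ c ∈ gs, ∃ g ∈ H, Rep g c) (a : ℕ) :
    ∃ g ∈ H, Rep g (gs.getD a cid) := by
  by_cases ha : a < gs.length
  · rw [List.getD_eq_getElem _ _ ha]; exact h _ (List.getElem_mem ha)
  · rw [List.getD_eq_default _ _ (not_lt.1 ha)]; exact ⟨1, H.one_mem, rep_one⟩

theorem wdc_mem {H : Subgroup O2} {gs : List ℕ} (h : ∀ c ∈ gs, ∃ g ∈ H, Rep g c) (l : List ℕ) :
    ∃ g ∈ H, Rep g (wdc gs l) := by
  induction l with
  | nil => exact ⟨1, H.one_mem, rep_one⟩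
  | cons a l ih =>
    obtain ⟨g, hg, e⟩ := ih
    obtain ⟨x, hx, e'⟩ := getD_rep h a
    exact ⟨x * g, H.mul_mem hx hg, e'.mul e⟩

theorem wdv_mem {H : Subgroup O2} {gs : List ℕ} (h : ∀ c ∈ gs, ∃ g ∈ H, Rep g c) (l : List ℕ)
    (n : ℕ) : ∃ g ∈ H, a2 g (dv n) = dv (wdv gs l n) := by
  induction l with
  | nil => exact ⟨1, H.one_mem, a2_one _⟩
  | cons a l ih =>
    obtain ⟨g, hg, e⟩ := ih
    obtain ⟨x, hx, e'⟩ := getD_rep h a
    exact ⟨x * g, H.mul_mem hx hg, by rw [a2_mul, e, e'.app]; rfl⟩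

theorem rep_red (A : W) (F : Z8 → Z8) (hF : ∀ n, LI n → ap A.1 (ci n) = ci (F n)) (c : ℕ)
    (h : ∀ k : II, c2 (crd (F fun i => GZ i k)) = dv (col c (ix k))) : Rep (red A) c := fun k => by
  have h1 : LI fun i => GZ i k := by revert k; decide +kernel
  have h2 : rd (ci fun i => GZ i k) = Pi.single k 1 := by
    rw [rd_ci h1]; revert k; decide +kernel
  have h3 := A.2 _ (ci_mem h1)
  rw [hF _ h1] at h3
  rw [← h2, ← h k, ← rd_ci (LI_of_mem h3), ← hF _ h1]
  exact red_rd A (ci_mem h1)

end E8
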